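import Cfsg.Agent.Lib.Gag.K

/-!
# Groups of central type with small non-abelian Sylow subgroups: the inductive set-up and the
case of a solvable chief factor
-/

set_option autoImplicit false

namespace GAG

open Cfsg CT GT FT Subgroup MulAction
open scoped Pointwise commutatorElement ComplexConjugate

universe u

section SylHyp

variable {H : Type*} [Group H]

theorem normal_of_central {Z : Subgroup H} (hZ : Z ≤ center H) : Z.Normal :=
  ⟨fun z hz g => by rwa [conj_eq_of_mem hZ g hz]⟩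

theorem isSolvable_of_quotient (N : Subgroup H) [N.Normal] [Group.IsSolvable N]
    [Group.IsSolvable (H ⧸ N)] : Group.IsSolvable H :=
  Group.isSolvable_of_ker_le_range N.subtype (QuotientGroup.mk' N) (by simp)

/-- The Sylow hypothesis on `H / Z`. -/
def SylHyp (Z : Subgroup H) : Prop :=
  ∀ p : ℕ, p.Prime → p ^ 6 ∣ Z.index → ∀ S : Subgroup H, IsPGroup p S → ⁅S, S⁆ ≤ Z

theorem SylHyp.subgroupOf {Z N : Subgroup H} [Z.Normal] (h : SylHyp Z) (hZN : Z ≤ N)
    (T : Subgroup H) : SylHyp (N.subgroupOf T) := by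
  intro p hp hd S hS
  have h1 : p ^ 6 ∣ Z.index :=
    (hd.trans (relIndex_dvd_of_le_left T hZN)).trans (relIndex_dvd_index_of_normal Z T)
  have h2 := h p hp h1 (S.map T.subtype) (hS.map _)
  rw [← map_commutator, map_le_iff_le_comap] at h2
  exact h2.trans (comap_mono hZN)

theorem SylHyp.mono {Z N : Subgroup H} (h : SylHyp Z) (hZN : Z ≤ N) : SylHyp N :=
  fun p hp hd S hS => (h p hp (hd.trans (index_dvd_of_le hZN)) S hS).trans hZN

theorem SylHyp.ker [Finite H] {N : Subgroup H} [N.Normal] (h : SylHyp N) {Q : Type*} [Group Q]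
    {ρ : Q →* H ⧸ N} (hρ : Function.Surjective ρ) : SylHyp ρ.ker := by
  intro p hp hd S hS
  have : Fact p.Prime := ⟨hp⟩
  have h1 : p ^ 6 ∣ N.index := by
    rwa [index_ker, MonoidHom.range_eq_top.2 hρ, card_top, ← index_eq_card] at hd
  have h2 : IsSylowIn p (S.map ρ) (((S.map ρ).comap (QuotientGroup.mk' N)).map
      (QuotientGroup.mk' N)) := by
    rw [map_comap_eq_self_of_surjective (QuotientGroup.mk'_surjective N)]
    exact isSylowIn_self (hS.map _)
  obtain ⟨P, hP, hPm⟩ := h2.exists_map_eq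
  have h3 := h p hp h1 P hP.isPGroup
  rw [← Subgroup.map_eq_bot_iff, map_commutator, ← hPm, ← map_commutator, Subgroup.map_eq_bot_iff,
    QuotientGroup.ker_mk']
  exact h3

theorem sylHyp_of_sylow [Finite H] {Z : Subgroup H} [Z.Normal]
    (h : ∀ p : ℕ, p.Prime → p ^ 6 ∣ Z.index → ∀ P : Sylow p (H ⧸ Z), IsMulCommutative P) :
    SylHyp Z := by
  intro p hp hd S hS
  obtain ⟨P, hP⟩ := (hS.map (QuotientGroup.mk' Z)).exists_le_sylow
  have := h p hp hd P
  have := isMulCommutative_of_le hP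
  rw [← QuotientGroup.ker_mk' Z, ← Subgroup.map_eq_bot_iff, map_commutator,
    commutator_eq_bot_iff_le_centralizer]
  exact le_centralizer _

end SylHyp

/-- The induction hypothesis. -/
def IndHyp (n : ℕ) : Prop :=
  ∀ (H : Type u) [Group H] [Finite H] (Z : Subgroup H), Z ≤ center H → IsCyclic Z → CTy Z ⊤ →
    SylHyp Z → Z.index < n → Group.IsSolvable H

section Transfer

variable {n : ℕ} {H : Type u} [Group H] [Finite H]

theorem IndHyp.sub (ih : IndHyp.{u} n) {Z U : Subgroup H} (hZ : Z ≤ center H) [IsCyclic Z]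
    (h : Z ≤ U) (hc : CTy Z U) (hs : SylHyp Z) (hn : Z.relIndex U < n) : Group.IsSolvable U := by
  have : Z.Normal := normal_of_central hZ
  refine ih U (Z.subgroupOf U) (fun z hz => ?_) ((sgOf_cyclic_iff h).2 inferInstance)
    (fun x _ hx => hc x x.2 fun y hy hxy => ?_) (hs.subgroupOf le_rfl U) hn
  · exact mem_center_iff.2 fun g => Subtype.ext (mem_center_iff.1 (hZ hz) g)
  · exact congrArg Subtype.val (hx ⟨y, hy⟩ trivial hxy)

theorem IndHyp.rel (ih : IndHyp.{u} n) {N : Subgroup H} [N.Normal] {χ : IrrCharacter H}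
    {θ : IrrCharacter N} {e : ℕ} (he : e ^ 2 = N.index) (h : res N χ.1 = (e : ℂ) • θ.1)
    (hs : SylHyp N) (hn : N.index < n) : Group.IsSolvable (H ⧸ N) := by
  have he0 := ne_zero_of_res_eq_smul h
  obtain ⟨E⟩ := nonempty_centralExt N θ (forall_smul_iff.1
    (smul_eq_of_res_eq_smul (irr_isClassFunction χ) he0 h))
  let χ' : IrrCharacter (⊤ : Subgroup H) := (irrCongr topEquiv).symm χ
  have h1 : LiesOverLe le_top χ'.1 θ.1 := liesOver_of_res_eq_smul he0 h
  obtain ⟨β, hβ⟩ := CentralExt.exists_rel_right E le_top h1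
  obtain ⟨lam, hlam⟩ := CentralExt.exists_rel_self E
  have h2 := (CentralExt.Rel.liesOverLe_iff le_rfl le_top hβ hlam).1 h1
  have h3 : charDegree β.1 = e := by
    have h4 := hβ.degree_eq
    have h5 : charDegree χ.1 = e * charDegree θ.1 := by
      have := clifford_invariant_degree (smul_eq_of_res_eq_smul (irr_isClassFunction χ) he0 h)
        (liesOver_of_res_eq_smul he0 h)
      rwa [mult_eq_of_res_eq_smul h] at this
    rw [charDegree_irrCongr_symm, h5, mul_comm] at h4
    exact (Nat.eq_of_mul_eq_mul_left (irr_degree_pos θ) h4).symm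
  have h4 : CTy (E.star N) (E.star ⊤) :=
    (cty_iff E.star_self_le_center (E.star_mono le_top)
      (fun z hz => hlam.eq_one_of_lam_eq_one hz)).2
      ⟨⟨β, h2⟩, by rw [E.relIndex_star le_rfl le_top, relIndex_top_right, ← he]; exact congrArg (· ^ 2) h3⟩
  rw [E.star_top] at h4
  have h5 : SylHyp (E.star N) := by rw [E.star_self]; exact hs.ker E.ρ_surjective
  have := ih E.Q (E.star N) E.star_self_le_center E.isCyclic_star_self h4 h5
    (by rw [E.index_star le_rfl]; exact hn)
  exact Group.isSolvable_of_surjective E.ρ_surjective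

/-- a group of central type has a fully ramified character -/
theorem exists_fullyRamified {Z : Subgroup H} (hZ : Z ≤ center H) {lam : IrrCharacter Z}
    (hf : ∀ z : Z, lam.1 z = 1 → z = 1) (hc : CTy Z ⊤) :
    ∃ χ : IrrCharacter H, charDegree χ.1 ^ 2 = Z.index ∧
      res Z χ.1 = (charDegree χ.1 : ℂ) • lam.1 := by
  obtain ⟨χ, hχ⟩ := (cty_iff hZ le_top hf).1 hc
  refine ⟨irrCongr topEquiv χ.1, by rw [charDegree_irrCongr, hχ, relIndex_top_right], ?_⟩
  have := resLe_eq_smul_of_le_center hZ le_top χ.2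
  rw [charDegree_irrCongr, ← irr_apply_one]
  exact this

/-- The stabilizer of a character of a solvable normal subgroup is solvable. -/
theorem IndHyp.stabilizer {Z N : Subgroup H} (ih : IndHyp.{u} Z.index) (hZ : Z ≤ center H)
    {lam : IrrCharacter Z} (hf : ∀ z : Z, lam.1 z = 1 → z = 1) (hc : CTy Z ⊤) (hs : SylHyp Z)
    [N.Normal] (hlt : Z < N) [Group.IsSolvable N] (μ : Over hlt.le lam) :
    Group.IsSolvable (stabilizer H μ.1) ∧
      (stabilizer H μ.1).index * charDegree μ.1.1 ^ 2 = Z.relIndex N := by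
  have : Z.Normal := normal_of_central hZ
  obtain ⟨χ, hd, hχ⟩ := exists_fullyRamified hZ hf hc
  have h0 := (fullyRamified_iff_vanish hχ).1 hd
  have h1 := ip_of_vanish hZ hlt.le (φ := res N χ.1) (c := charDegree χ.1)
    (fun x hx => h0 x hx) (fun z => by
      have := congrFun hχ z
      rw [Pi.smul_apply, smul_eq_mul, mul_comm] at this
      exact this) μ
  rw [((irr_isCharacter χ).res N).ip_eq_mult (irr_isCharacter μ.1)] at h1
  have h2 : Z.relIndex N * mult (res N χ.1) μ.1.1 = charDegree χ.1 * charDegree μ.1.1 := by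
    exact_mod_cast h1
  have hdp := irr_degree_pos χ
  have hfp := irr_degree_pos μ.1
  have hm : 0 < mult (res N χ.1) μ.1.1 := by
    refine Nat.pos_of_ne_zero fun h => ?_
    rw [h, mul_zero] at h2
    exact (Nat.mul_pos hdp hfp).ne h2
  have h3 : LiesOver N χ.1 μ.1.1 :=
    (liesOver_iff_mult_pos (irr_isCharacter χ) (irr_isCharacter μ.1)).2 hm
  have h4 := clifford_degree h3
  set m := mult (res N χ.1) μ.1.1
  set T := MulAction.stabilizer H μ.1
  obtain ⟨ψ, -, -, hψ, -⟩ := exists_clifford_correspondent h3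
  have hNT : N ≤ T := le_inertia μ.1
  have h5 : T.index * charDegree μ.1.1 ^ 2 = Z.relIndex N := by
    apply Nat.eq_of_mul_eq_mul_right hm
    rw [h2, h4]; ring
  refine ⟨?_, h5⟩
  have hv : 1 < Z.relIndex N := by
    rcases Nat.lt_or_ge 1 (Z.relIndex N) with h | h
    · exact h
    · have h6 : Z.relIndex N ≠ 0 := index_ne_zero_of_finite
      exact absurd (relIndex_eq_one.1 (by omega)) hlt.not_ge
  have h6 : Z.relIndex N * (N.relIndex T * T.index) = Z.index := by
    rw [relIndex_mul_index hNT, relIndex_mul_index hlt.le]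
  have htp : 0 < T.index := Nat.pos_of_ne_zero index_ne_zero_of_finite
  have h7 : m ^ 2 = N.relIndex T := by
    apply Nat.eq_of_mul_eq_mul_left (Nat.mul_pos (by omega : 0 < Z.relIndex N) htp)
    rw [mul_assoc, mul_assoc, mul_comm T.index (N.relIndex T), h6, ← hd, h4, ← h5]; ring
  have h8 : N.relIndex T < Z.index := by
    have h9 : 0 < N.relIndex T := Nat.pos_of_ne_zero index_ne_zero_of_finite
    rw [← h6]; nlinarith [Nat.mul_le_mul_left (N.relIndex T) htp]
  have := ih.rel (N := N.subgroupOf T) (χ := ψ) (θ := irrOf hNT μ.1) h7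
    ((res_subgroupOf_eq_smul_irrOf_iff hNT).2 hψ) (hs.subgroupOf hlt.le T) h8
  have := isSolvable_subgroupOf N T
  exact isSolvable_of_quotient (N.subgroupOf T)

end Transfer

section PFour

variable {G : Type*} [Group G] [Finite G] {p : ℕ} [hp : Fact p.Prime]

theorem mul_card_le_of_lt {A B : Subgroup G} (hB : IsPGroup p B) (h : A < B) :
    p * Nat.card A ≤ Nat.card B := by
  obtain ⟨M, hAM, hMB, hM⟩ := exists_relIndex_eq_of_lt' hB h
  rw [← hM, mul_comm, card_mul_relIndex hAM]
  exact card_le_of_le hMB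

/-- In a group of order at most `p ^ 4`, a noncentral element of an abelian normal subgroup has the
same centralizer as the subgroup. -/
theorem cent_le_of_card_le {P V : Subgroup G} (hP : IsPGroup p P) (h4 : Nat.card P ≤ p ^ 4)
    (hV : V ≤ P) (hn : P ≤ 𝐍(V)) (hab : V ≤ 𝐂(V)) {v : G} (hv : v ∈ V) (hnv : v ∉ 𝐂(P)) :
    P ⊓ 𝐂[v] ≤ 𝐂(V) := by
  by_contra hne
  have hVp : IsPGroup p V := hP.to_le hV
  have hV1 : V ≠ ⊥ := fun h => hnv (by rw [h, mem_bot] at hv; rw [hv]; exact one_mem _)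
  have h1 : (⊥ : Subgroup G) < V ⊓ 𝐂(P) :=
    bot_lt_iff_ne_bot.2 (inf_centralizer_ne_bot_of_isPGroup hP hVp hV1 hn)
  have hvC : v ∈ 𝐂(P ⊓ 𝐂[v]) := fun y hy => (mem_centralizer_singleton_iff.1 hy.2)
  have h2 : V ⊓ 𝐂(P) < V ⊓ 𝐂(P ⊓ 𝐂[v]) :=
    lt_of_le_of_ne (inf_le_inf_left _ (centralizer_le inf_le_left))
      fun h => hnv (by have : v ∈ V ⊓ 𝐂(P) := h ▸ ⟨hv, hvC⟩; exact this.2)
  have h3 : V ⊓ 𝐂(P ⊓ 𝐂[v]) < V :=
    lt_of_le_of_ne inf_le_left fun h => hne (le_centralizer_iff.1 (h ▸ inf_le_right))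
  have h4' : V < P ⊓ 𝐂[v] :=
    lt_of_le_of_ne (le_inf hV fun y hy => mem_centralizer_singleton_iff.2 (hab hv y hy))
      fun h => hne (h ▸ hab)
  have h5 : P ⊓ 𝐂[v] < P := lt_of_le_of_ne inf_le_left fun h => hnv fun y hy =>
    mem_centralizer_singleton_iff.1 (by have : y ∈ P ⊓ 𝐂[v] := h.symm ▸ hy; exact this.2)
  have e1 := mul_card_le_of_lt (hVp.to_le inf_le_left) h1
  have e2 := mul_card_le_of_lt (hVp.to_le inf_le_left) h2
  have e3 := mul_card_le_of_lt hVp h3
  have e4 := mul_card_le_of_lt (hP.to_le inf_le_left) h4'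
  have e5 := mul_card_le_of_lt hP h5
  rw [card_bot, mul_one] at e1
  have e6 : p * (p * (p * (p * p))) ≤ Nat.card P :=
    (Nat.mul_le_mul_left _ ((Nat.mul_le_mul_left _ ((Nat.mul_le_mul_left _
      ((Nat.mul_le_mul_left _ e1).trans e2)).trans e3)).trans e4)).trans e5
  have e7 : p ^ 5 ≤ p ^ 4 := by
    calc p ^ 5 = p * (p * (p * (p * p))) := by ring
      _ ≤ _ := e6.trans h4
  exact absurd ((Nat.pow_le_pow_iff_right hp.out.one_lt).1 e7) (by norm_num)

omit [Finite G] in
theorem comm_of_card_dvd_sq {P : Subgroup G} (h : Nat.card P ∣ p ^ 2) : P ≤ 𝐂(P) := by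
  obtain ⟨k, hk, e⟩ := (Nat.dvd_prime_pow hp.out).1 h
  have : IsMulCommutative P := by
    interval_cases k
    · have : Subsingleton P := (Nat.card_eq_one_iff_unique.1 (by simpa using e)).1
      exact ⟨⟨fun a b => Subsingleton.elim _ _⟩⟩
    · have := isCyclic_of_prime_card (p := p) (by simpa using e)
      infer_instance
    · exact IsPGroup.isMulCommutative_of_card_eq_prime_sq e
  exact le_centralizer P

end PFour

section Small

variable {H : Type*} [Group H] [Finite H] {Z S : Subgroup H} {p : ℕ} [hp : Fact p.Prime]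

omit [Finite H] in
theorem card_map_mk [Z.Normal] (S : Subgroup H) :
    Nat.card (S.map (QuotientGroup.mk' Z)) = Z.relIndex S := by
  rw [← relIndex_ker, QuotientGroup.ker_mk']

omit [Finite H] in
theorem map_le_cent_iff [Z.Normal] {A B : Subgroup H} :
    A.map (QuotientGroup.mk' Z) ≤ 𝐂(B.map (QuotientGroup.mk' Z)) ↔ ⁅A, B⁆ ≤ Z := by
  rw [← commutator_eq_bot_iff_le_centralizer, ← map_commutator, Subgroup.map_eq_bot_iff,
    QuotientGroup.ker_mk']

omit [Finite H] in
theorem comm_le_of_relIndex_dvd [Z.Normal] (h : Z.relIndex S ∣ p ^ 2) : ⁅S, S⁆ ≤ Z :=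
  map_le_cent_iff.1 (comm_of_card_dvd_sq (p := p) (by rwa [card_map_mk]))

/-- A Sylow subgroup which is nonabelian modulo `Z` has order `p ^ 4` modulo `Z`. -/
theorem relIndex_eq_four (hZ : Z ≤ center H) [IsCyclic Z] (hc : CTy Z ⊤) (hs : SylHyp Z)
    (hS : IsSylowIn p S ⊤) (hna : ¬ ⁅S, S⁆ ≤ Z) : Z.relIndex S = p ^ 4 := by
  have : Z.Normal := normal_of_central hZ
  obtain ⟨lam, hf⟩ := exists_faithful hZ
  obtain ⟨-, a, ha, -⟩ := sylow_cty hZ le_top hf hS fun x hx _ hg => hc x hx hg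
  have h1 : ¬ p ^ 6 ∣ Z.relIndex S := fun h =>
    hna (hs p hp.out (h.trans (relIndex_dvd_index_of_normal Z S)) S hS.isPGroup)
  have h2 : ¬ Z.relIndex S ∣ p ^ 2 := fun h => hna (comm_le_of_relIndex_dvd h)
  rw [ha, Nat.pow_dvd_pow_iff_le_right hp.out.one_lt] at h1 h2
  rw [ha, show 2 * a = 4 by omega]

end Small

section Solv

variable {H : Type u} [Group H] [Finite H] {Z N : Subgroup H}

omit [Finite H] in
theorem isSolvable_of_der_le {D T : Subgroup H} (h : ⁅D, D⁆ ≤ T) [Group.IsSolvable T] :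
    Group.IsSolvable D := by
  have h1 : Group.IsSolvable (T.subgroupOf D) := isSolvable_subgroupOf T D
  have h2 : commutator D ≤ T.subgroupOf D := by
    rw [← sgOf_der]; exact comap_mono h
  have := isSolvable_of_le h2
  have := isMulCommutative_quotient_of_commutator_le (le_refl (commutator D))
  have : Group.IsSolvable (D ⧸ commutator D) := isSolvable_of_isMulCommutative
  exact isSolvable_of_quotient (commutator D)

/-- duality between `N / Z` and `D / C(N)` -/
theorem relIndex_le_of_pairing (hZ : Z ≤ center H) [IsCyclic Z] {D : Subgroup H}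
    (hD : ∀ v ∈ N, ∀ g ∈ D, ⁅v, g⁆ ∈ Z) (h0 : N ⊓ 𝐂(D) ≤ Z) :
    Z.relIndex N ≤ 𝐂(N).relIndex D := by
  obtain ⟨l, hl⟩ := exists_injective_units_hom (G := Z)
  let Φ : N →* (D →* ℂˣ) :=
    { toFun := fun v =>
        { toFun := fun g => l ⟨⁅(v : H), (g : H)⁆, hD v v.2 g g.2⟩
          map_one' := by rw [← l.map_one]; congr 1; ext; simp
          map_mul' := fun g g' => by
            rw [← l.map_mul]; congr 1; ext
            exact comm_mul_right hZ _ (hD v v.2 g' g'.2) }
      map_one' := by ext g; simp only [MonoidHom.coe_mk, OneHom.coe_mk, MonoidHom.one_apply]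
                     rw [← l.map_one]; congr 2; ext; simp
      map_mul' := fun v v' => by
        ext g; simp only [MonoidHom.coe_mk, OneHom.coe_mk, MonoidHom.mul_apply]
        rw [← l.map_mul]; congr 2; ext
        exact comm_mul_left hZ _ (hD v' v'.2 g g.2) }
  have hΦ : ∀ (v : N) (g : D), Φ v g = 1 ↔ ⁅(v : H), (g : H)⁆ = 1 := fun v g => by
    change l _ = 1 ↔ _
    rw [← l.map_one, hl.eq_iff, Subtype.ext_iff]; rfl
  have hk : Φ.ker ≤ Z.subgroupOf N := fun v hv => h0 ⟨v.2, fun g hg =>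
    (commutatorElement_eq_one_iff_mul_comm.1 ((hΦ v ⟨g, hg⟩).1 (by rw [hv]; rfl))).symm⟩
  have hDN : ⁅D, N⁆ ≤ Z := by
    rw [commutator_comm]; exact commutator_le.2 hD
  have hDD : ⁅D, D⁆ ≤ 𝐂(N) := by
    rw [← commutator_eq_bot_iff_le_centralizer]
    refine commutator_commutator_eq_bot_of_rotate ?_ ?_
    · rw [commutator_eq_bot_iff_le_centralizer]
      exact hDN.trans (hZ.trans (center_le_centralizer _))
    · rw [commutator_eq_bot_iff_le_centralizer, commutator_comm]
      exact hDN.trans (hZ.trans (center_le_centralizer _))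
  have h1 : commutator D ≤ 𝐂(N).subgroupOf D := by rw [← sgOf_der]; exact comap_mono hDD
  have : (𝐂(N).subgroupOf D).Normal := ⟨fun x hx g => by
    have : g * x * g⁻¹ = ⁅g, x⁆ * x := by rw [commutatorElement_def]; group
    rw [this]
    exact mul_mem (h1 (commutator_mem_commutator trivial trivial)) hx⟩
  have h2 := card_units_hom_le_ker h1
  calc Z.relIndex N ≤ Φ.ker.index := index_antitone hk
    _ = Nat.card Φ.range := index_ker Φ
    _ ≤ _ := by
      rw [relIndex, ← h2]
      refine Nat.card_le_card_of_injective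
        (fun f => ⟨f.1, fun g hg => ?_⟩) fun f f' e => Subtype.ext (Subtype.mk.inj e)
      obtain ⟨v, hv⟩ := f.2
      rw [MonoidHom.mem_ker, ← hv, hΦ, commutatorElement_eq_one_iff_mul_comm]
      exact hg v v.2

theorem IndHyp.solvable_chief (ih : IndHyp.{u} Z.index) (hZ : Z ≤ center H) [IsCyclic Z]
    (hc : CTy Z ⊤) (hs : SylHyp Z) (hN : IsChief Z N) [Group.IsSolvable N] :
    Group.IsSolvable H := by
  have := hN.normal_left
  have := hN.normal_right
  have hNN := hN.commutator_le_of_isSolvable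
  obtain ⟨lam, hf⟩ := exists_faithful hZ
  obtain ⟨μ⟩ : Nonempty (Over hN.lt.le lam) := inferInstance
  obtain ⟨hT, hi⟩ := ih.stabilizer hZ hf hc hs hN.lt μ
  set T := MulAction.stabilizer H μ.1
  have hv0 : Z.relIndex N ≠ 0 := index_ne_zero_of_finite
  have hZC : ∀ K : Subgroup H, Z ≤ 𝐂(K) := fun K => hZ.trans (center_le_centralizer _)
  rcases hN.eq_or_eq (N ⊓ 𝐂(N)) inferInstance (le_inf hN.le (hZC N)) inf_le_left with h1 | h1
  · have h2 : CTy Z N := fun x hx hg => h1.le ⟨hx, fun y hy =>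
      (commutatorElement_eq_one_iff_mul_comm.1
        (hg y hy (hNN (commutator_mem_commutator hx hy)))).symm⟩
    rw [h2.sq_eq hZ hf μ] at hi
    have h3 : T = ⊤ := index_eq_one.1 ((Nat.mul_eq_right hv0).1 hi)
    rw [h3] at hT
    exact isSolvable_of_mulEquiv topEquiv
  have hab : N ≤ 𝐂(N) := inf_eq_left.1 h1
  have hμ : charDegree μ.1.1 = 1 :=
    irr_degree_eq_one_of_comm (fun a b => Subtype.ext (hab b.2 a a.2)) _
  rw [hμ, one_pow, mul_one] at hi
  set D := 𝐂(N.map (QuotientGroup.mk' Z)).comap (QuotientGroup.mk' Z) with hDdef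
  have hD : ∀ v ∈ N, ∀ g ∈ D, ⁅v, g⁆ ∈ Z := fun v hv g hg => by
    rw [← QuotientGroup.ker_mk' Z, MonoidHom.mem_ker, map_commutatorElement,
      commutatorElement_eq_one_iff_mul_comm]
    exact hg _ (mem_map_of_mem _ hv)
  have hDn : D.Normal := inferInstance
  have hDT : D ⊓ T ≤ 𝐂(N) := fun g hg v hv => by
    have h2 : ⁅g, v⁆ ∈ Z := by rw [← commutatorElement_inv]; exact inv_mem (hD v hv g hg.1)
    have h3 := mem_inertia_iff.1 hg.2 ⟨v, hv⟩ (inclusion hN.le ⟨_, h2⟩ * ⟨v, hv⟩)
      (by simp [commutatorElement_def])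
    rw [μ.apply_central_mul hZ] at h3
    obtain ⟨f, hf'⟩ := (exists_linChar_eq_iff μ.1).2 hμ
    have h4 : μ.1.1 ⟨v, hv⟩ ≠ 0 := by rw [← hf', linChar_apply]; exact Units.ne_zero _
    have h5 := hf _ ((mul_eq_right₀ h4).1 h3)
    exact (commutatorElement_eq_one_iff_mul_comm.1 (congrArg Subtype.val h5)).symm
  have hCT : 𝐂(N) ≤ T := centralizer_le_inertia μ.1
  rcases hN.eq_or_eq (N ⊓ 𝐂(D)) inferInstance (le_inf hN.le (hZC D)) inf_le_left with h2 | h2
  · have h3 := relIndex_le_of_pairing hZ hD h2.le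
    have h4 : 𝐂(N).relIndex D = T.relIndex D := by
      rw [← inf_relIndex_right 𝐂(N), ← inf_relIndex_right T]
      congr 1
      exact le_antisymm (inf_le_inf_right _ hCT)
        (le_inf (fun g hg => hDT ⟨hg.2, hg.1⟩) inf_le_right)
    have h5 : T.relIndex D = T.index := by
      refine le_antisymm ?_ (by rw [hi, ← h4]; exact h3)
      rw [← relIndex_top_right]
      exact relIndex_le_of_le_right le_top index_ne_zero_of_finite
    have h6 : T ⊔ D = ⊤ := eq_top_iff.2 fun g _ => by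
      obtain ⟨k, hk, x, hx, rfl⟩ := exists_mul_eq_of_relIndex_eq_index h5 g
      exact mul_mem (mem_sup_right hk) (mem_sup_left hx)
    have hDN : ⁅D, N⁆ ≤ Z := by
      rw [commutator_comm]; exact commutator_le.2 hD
    have hDD : ⁅D, D⁆ ≤ 𝐂(N) := by
      rw [← commutator_eq_bot_iff_le_centralizer]
      refine commutator_commutator_eq_bot_of_rotate ?_ ?_
      · rw [commutator_eq_bot_iff_le_centralizer]
        exact hDN.trans (hZC _)
      · rw [commutator_eq_bot_iff_le_centralizer, commutator_comm]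
        exact hDN.trans (hZC _)
    have := isSolvable_of_der_le (hDD.trans hCT)
    have h7 := isSolvable_sup T D
    rw [h6] at h7
    exact isSolvable_of_mulEquiv topEquiv
  exfalso
  have hND : N ≤ 𝐂(D) := inf_eq_left.1 h2
  obtain ⟨p, k, hp, -, hk⟩ := hN.exists_relIndex_eq_pow
  have : Fact p.Prime := ⟨hp⟩
  obtain ⟨S, hS⟩ := exists_isSylowIn p (⊤ : Subgroup H)
  have hct := hc.sylow hZ le_top hS
  have hP := hS.map_top_of_surjective (QuotientGroup.mk'_surjective Z)
  have hV : IsPGroup p (N.map (QuotientGroup.mk' Z)) := IsPGroup.of_card (by rw [card_map_mk, hk])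
  have hVP := hP.le_of_normalizes hV le_top (by rw [normalizer_eq_top]; exact le_top)
  obtain ⟨v, hv, hvZ, h3⟩ : ∃ v ∈ N, v ∉ Z ∧ S.map (QuotientGroup.mk' Z) ⊓
      𝐂[QuotientGroup.mk' Z v] ≤ 𝐂(N.map (QuotientGroup.mk' Z)) := by
    by_cases h3 : N.map (QuotientGroup.mk' Z) ≤ 𝐂(S.map (QuotientGroup.mk' Z))
    · obtain ⟨v, hv, hvZ⟩ := SetLike.exists_of_lt hN.lt
      exact ⟨v, hv, hvZ, inf_le_left.trans (le_centralizer_iff.1 h3)⟩
    · obtain ⟨_, ⟨v, hv, rfl⟩, hv'⟩ := SetLike.not_le_iff_exists.1 h3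
      have h4 := relIndex_eq_four hZ hc hs hS fun h => h3 (hVP.trans (map_le_cent_iff.2 h))
      refine ⟨v, hv, fun h => hv' ?_, cent_le_of_card_le hP.isPGroup (by rw [card_map_mk, h4])
        hVP (by rw [normalizer_eq_top]; exact le_top) (map_le_cent_iff.2 hNN)
        (mem_map_of_mem _ hv) hv'⟩
      rw [show QuotientGroup.mk' Z v = 1 from (QuotientGroup.eq_one_iff v).2 h]
      exact one_mem _
  have hNS : N ≤ S ⊔ Z := by
    have := comap_mono (f := QuotientGroup.mk' Z) hVP
    rwa [comap_map_eq, comap_map_eq, QuotientGroup.ker_mk', sup_eq_left.2 hN.le] at this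
  refine hvZ (hct v (hNS hv) fun y hy hvy => ?_)
  have h4 : y ∈ D := h3 ⟨?_, ?_⟩
  · exact commutatorElement_eq_one_iff_mul_comm.2 (hND hv y h4).symm
  · have := mem_map_of_mem (QuotientGroup.mk' Z) hy
    rwa [Subgroup.map_sup, QuotientGroup.map_mk'_self, sup_bot_eq] at this
  · rw [← QuotientGroup.ker_mk' Z, MonoidHom.mem_ker, map_commutatorElement,
      commutatorElement_eq_one_iff_mul_comm] at hvy
    exact mem_centralizer_singleton_iff.2 hvy.symm

end Solv

end GAG
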