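import Cfsg.Agent.Lib.Gag.K
import Cfsg.Agent.Lib.Gag.W1
import Cfsg.Agent.Lib.Gag.MainA
import Cfsg.Agent.Lib.FT.Pf.BG4c

/-!
# Abelian sections of central type; transfer for Sylow subgroups of order `p ^ 3`
-/

set_option autoImplicit false

namespace GAG

open Cfsg CT GT FT Subgroup MulAction
open scoped Pointwise commutatorElement

section Ab

variable {H : Type*} [Group H] [Finite H] {Z N S : Subgroup H}

omit [Finite H] in
theorem map_mk_le_der [Z.Normal] (hperf : N ≤ ⁅N, N⁆ ⊔ Z) :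
    N.map (QuotientGroup.mk' Z) ≤ ⁅N.map (QuotientGroup.mk' Z), N.map (QuotientGroup.mk' Z)⁆ := by
  have := map_mono (f := QuotientGroup.mk' Z) hperf
  rwa [Subgroup.map_sup, QuotientGroup.map_mk'_self, sup_bot_eq, map_commutator] at this

theorem mem_norm_of_mk [Z.Normal] (hZ : Z ≤ center H) (hZN : Z ≤ N) {p : ℕ} [Fact p.Prime]
    {P : Subgroup H} (hP : IsSylowIn p P N) {n : H}
    (hn : QuotientGroup.mk' Z n ∈ 𝐍(P.map (QuotientGroup.mk' Z))) : n ∈ 𝐍(P) := by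
  have h1 : n ∈ 𝐍((P ⊔ Z : Subgroup H)) := by
    have := le_normalizer_comap (f := QuotientGroup.mk' Z) hn
    rwa [comap_map_eq, QuotientGroup.ker_mk'] at this
  exact (hP.of_le le_sup_left (sup_le hP.le hZN)).normalizer_le_normalizer
    (sup_le le_normalizer ((hZ.trans (center_le_centralizer _)).trans (cent_le_norm P))) h1

theorem cty_of_abelian [Z.Normal] [N.Normal] (hZ : Z ≤ center H) (hZN : Z ≤ N)
    (hperf : N ≤ ⁅N, N⁆ ⊔ Z) {p : ℕ} [Fact p.Prime]
    (hS : IsSylowIn p S ⊤) (hct : CTy Z (S ⊔ Z)) (hab : ⁅S ⊓ N, S ⊓ N⁆ ≤ Z) :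
    CTy Z ((S ⊓ N) ⊔ Z) := by
  have hP : IsSylowIn p (S ⊓ N) N := hS.inf_of_le_normalizer le_top (by rw [normalizer_eq_top])
  set P := S ⊓ N with hPd
  have hZC : ∀ K : Subgroup H, Z ≤ 𝐂(K) := fun K => hZ.trans (center_le_centralizer _)
  have hSP : S ≤ 𝐍(P) := le_normalizer_inf le_normalizer le_normalizer_of_normal
  obtain ⟨K, hK1, hK2, hK3⟩ := exists_compl_norm
    (hP.of_le (le_inf hP.le le_normalizer) inf_le_left) (inf_le_right (a := N))
  have hR : IsPGroup p (Zc P) := hP.isPGroup.to_le inf_le_left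
  have hc : CoprimeAct K (Zc P) :=
    coprimeAct_of_isPGroup_right ((hK1.trans inf_le_right).trans (norm_le_norm_Zc P)) hR hK3
  have := isMulCommutative_Zc P
  have h1 : ⁅Zc P, N ⊓ 𝐍(P)⁆ ≤ ⁅Zc P, K⁆ := by
    rw [commutator_le]
    intro r hr m hm
    rw [← hK2] at hm
    obtain ⟨k, hk, s, hs, rfl⟩ := (mem_sup_of_le_normalizer_right (H := K) (N := P)
      (hK1.trans inf_le_right)).1 (by rwa [sup_comm] at hm)
    have h2 : s * r⁻¹ = r⁻¹ * s := (inv_mem hr).2 s hs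
    have : ⁅r, k * s⁆ = ⁅r, k⁆ := by
      simp only [commutatorElement_def]
      calc r * (k * s) * r⁻¹ * (k * s)⁻¹ = r * k * (s * r⁻¹) * s⁻¹ * k⁻¹ := by group
        _ = _ := by rw [h2]; group
    rw [this]; exact commutator_mem_commutator hr hk
  have h2 : ⁅Zc P, N ⊓ 𝐍(P)⁆ = ⊥ := by
    by_contra hne
    have h3 := inf_centralizer_ne_bot_of_isPGroup hS.isPGroup
      (hR.to_le (h1.trans hc.commutator_le)) hne
      (le_normalizer_commutator (hSP.trans (norm_le_norm_Zc P))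
        (le_normalizer_inf le_normalizer_of_normal (hSP.trans le_normalizer)))
    refine h3 (eq_bot_iff.2 fun r hr => ?_)
    have h4 : r ∈ Z := hct r (mem_sup_left (hc.commutator_le (h1 hr.1)).1.1) fun y hy _ => by
      have : S ⊔ Z ≤ 𝐂[r] := sup_le (le_cent1_iff.2 hr.2) (hZ.trans (center_le_centralizer _))
      exact commutatorElement_eq_one_iff_mul_comm.2 (mem_cent1.1 (this hy)).symm
    exact (Subgroup.disjoint_def.1 hc.disjoint_commutator_centralizer) (h1 hr.1) (hZC K h4)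
  intro x hx hg
  obtain ⟨s, hs, z, hz, rfl⟩ := mem_sup_central hZ hx
  rw [good_mul_iff hZ hz] at hg
  refine mul_mem ?_ hz
  have h3 : s ∈ Zc P := ⟨hs, fun y hy => (commutatorElement_eq_one_iff_mul_comm.1
    (hg y (mem_sup_left hy) (hab (commutator_mem_commutator hs hy)))).symm⟩
  refine (QuotientGroup.eq_one_iff s).1 (der_inf_eq_bot (hP.map (QuotientGroup.mk' Z))
    (map_le_cent_iff.2 hab) (map_mk_le_der hperf (mem_map_of_mem _ hs.2)) (mem_map_of_mem _ hs) ?_)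
  rintro _ ⟨⟨n, hn, rfl⟩, hn'⟩
  have h4 := commutator_eq_bot_iff_le_centralizer.1 h2 h3 n ⟨hn, mem_norm_of_mk hZ hZN hP hn'⟩
  have h5 := congrArg (QuotientGroup.mk' Z) h4
  rw [map_mul, map_mul] at h5
  exact mem_cent1.2 h5

end Ab

section Orbit

theorem prod_eq_prod_fixed {Ω A : Type*} [DecidableEq Ω] [CommMonoid A] {p : ℕ} [hp : Fact p.Prime]
    (σ : Ω → Ω) (f : Ω → A) (s : Finset Ω) (hs : ∀ q ∈ s, σ q ∈ s) (hσ : ∀ q ∈ s, σ^[p] q = q)
    (hf : ∀ q ∈ s, σ q ≠ q → ∏ i ∈ Finset.range p, f (σ^[i] q) = 1) :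
    ∏ q ∈ s, f q = ∏ q ∈ s with σ q = q, f q := by
  induction s using Finset.strongInduction with
  | H s ih =>
  by_cases h : ∀ q ∈ s, σ q = q
  · rw [Finset.filter_true_of_mem h]
  push Not at h
  obtain ⟨q, hq, hne⟩ := h
  have hper : Function.IsPeriodicPt σ p q := hσ q hq
  have hm : Function.minimalPeriod σ q = p := Function.minimalPeriod_eq_prime hper hne
  set O := (Finset.range p).image fun i => σ^[i] q with hO
  have hmem : ∀ x, x ∈ O ↔ ∃ i, σ^[i] q = x := fun x => by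
    rw [hO, Finset.mem_image]
    exact ⟨fun ⟨i, _, e⟩ => ⟨i, e⟩, fun ⟨i, e⟩ => ⟨i % p,
      Finset.mem_range.2 (Nat.mod_lt _ hp.out.pos), by rw [hper.iterate_mod_apply, e]⟩⟩
  have hit : ∀ i, σ^[i] q ∈ s := fun i => by
    induction i with
    | zero => exact hq
    | succ i ih => rw [Function.iterate_succ_apply']; exact hs _ ih
  have hOs : O ⊆ s := fun x hx => by obtain ⟨i, rfl⟩ := (hmem x).1 hx; exact hit i
  have hqO : q ∈ O := (hmem q).2 ⟨0, rfl⟩
  have h1 : ∏ x ∈ O, f x = 1 := by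
    rw [hO, Finset.prod_image, hf q hq hne]
    intro i hi j hj e
    refine Function.iterate_injOn_Iio_minimalPeriod (f := σ) (x := q) ?_ ?_ e
    · rw [hm]; exact Finset.mem_range.1 hi
    · rw [hm]; exact Finset.mem_range.1 hj
  have h2 : ∀ x ∈ s, σ x ∈ O → x ∈ O := fun x hx hσx => by
    obtain ⟨i, e⟩ := (hmem _).1 hσx
    refine (hmem x).2 ⟨p - 1 + i, ?_⟩
    rw [Function.iterate_add_apply, e, ← Function.iterate_succ_apply, Nat.succ_eq_add_one,
      Nat.sub_add_cancel hp.out.pos, hσ x hx]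
  have h3 : ∀ x ∈ O, σ x ≠ x := fun x hx e => by
    obtain ⟨i, hi, rfl⟩ := Finset.mem_image.1 hx
    have h4 : σ^[p - i] (σ^[i] q) = q := by
      rw [← Function.iterate_add_apply, Nat.sub_add_cancel (Finset.mem_range.1 hi).le]; exact hper
    rw [Function.IsFixedPt.iterate e] at h4
    exact hne (by rw [← h4]; exact e)
  rw [← Finset.prod_sdiff hOs, h1, mul_one, ih (s \ O) (Finset.sdiff_ssubset hOs ⟨q, hqO⟩)
    (fun x hx => Finset.mem_sdiff.2 ⟨hs x (Finset.mem_sdiff.1 hx).1,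
      fun h => (Finset.mem_sdiff.1 hx).2 (h2 x (Finset.mem_sdiff.1 hx).1 h)⟩)
    (fun x hx => hσ x (Finset.mem_sdiff.1 hx).1) fun x hx => hf x (Finset.mem_sdiff.1 hx).1]
  congr 1
  ext x
  simp only [Finset.mem_filter, Finset.mem_sdiff]
  exact ⟨fun h => ⟨h.1.1, h.2⟩, fun h => ⟨⟨h.1, fun h' => h3 x h' h.2⟩, h.2⟩⟩

end Orbit

section Transfer

variable {G : Type*} [Group G] {M : Subgroup G} (φ : M →* ℂˣ)

open Classical in
/-- the factor of the transfer at a fixed coset -/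
noncomputable def cosetVal (y : G) (q : G ⧸ M) : ℂˣ :=
  if h : q.out⁻¹ * y * q.out ∈ M then φ ⟨_, h⟩ else 1

theorem smul_coset_eq_iff {y g : G} : y • (g : G ⧸ M) = g ↔ g⁻¹ * y * g ∈ M := by
  rw [MulAction.Quotient.smul_coe, smul_eq_mul, eq_comm, QuotientGroup.eq, mul_assoc]

theorem cosetVal_eq {y g : G} (h : g⁻¹ * y * g ∈ M) : cosetVal φ y (g : G ⧸ M) = φ ⟨_, h⟩ := by
  obtain ⟨m, hm⟩ := QuotientGroup.mk_out_eq_mul M g
  have e : (g * m)⁻¹ * y * (g * m) = (m : G)⁻¹ * (g⁻¹ * y * g) * m := by group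
  have h1 : (g : G ⧸ M).out⁻¹ * y * (g : G ⧸ M).out ∈ M := by
    rw [hm, e]; exact mul_mem (mul_mem (inv_mem m.2) h) m.2
  rw [cosetVal, dif_pos h1]
  have : (⟨_, h1⟩ : M) = m⁻¹ * ⟨_, h⟩ * m := Subtype.ext (by
    change (g : G ⧸ M).out⁻¹ * y * (g : G ⧸ M).out = _
    rw [hm, e]; rfl)
  rw [this, map_mul, map_mul, map_inv, inv_mul_cancel_comm]

theorem cosetVal_mul {y y' : G} {q : G ⧸ M} (h : y • q = q) (h' : y' • q = q) :
    cosetVal φ (y * y') q = cosetVal φ y q * cosetVal φ y' q := by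
  obtain ⟨g, rfl⟩ := QuotientGroup.mk_surjective q
  rw [smul_coset_eq_iff] at h h'
  have e : g⁻¹ * (y * y') * g = g⁻¹ * y * g * (g⁻¹ * y' * g) := by group
  rw [cosetVal_eq φ h, cosetVal_eq φ h', cosetVal_eq φ (e ▸ mul_mem h h'), ← map_mul]
  congr 1; exact Subtype.ext e

theorem cosetVal_pow {y : G} {q : G ⧸ M} (h : y • q = q) (i : ℕ) :
    cosetVal φ (y ^ i) q = cosetVal φ y q ^ i := by
  induction i with
  | zero =>
    have := cosetVal_mul φ (one_smul G q) (one_smul G q)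
    rw [mul_one] at this
    rw [pow_zero, pow_zero]; exact left_eq_mul.1 this
  | succ i ih =>
    rw [pow_succ, cosetVal_mul φ ((stabilizer G q).pow_mem h i) h, ih, pow_succ]

theorem cosetVal_smul {y a : G} {q : G ⧸ M} (h : (a⁻¹ * y * a) • q = q) :
    cosetVal φ y (a • q) = cosetVal φ (a⁻¹ * y * a) q := by
  obtain ⟨g, rfl⟩ := QuotientGroup.mk_surjective q
  rw [smul_coset_eq_iff] at h
  have e : (a * g)⁻¹ * y * (a * g) = g⁻¹ * (a⁻¹ * y * a) * g := by group
  rw [MulAction.Quotient.smul_coe, smul_eq_mul, cosetVal_eq φ h, cosetVal_eq φ (e ▸ h)]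
  congr 1; exact Subtype.ext e

open Classical in
theorem transfer_eq_prod_fixed [Finite G] [Fintype (G ⧸ M)] {x : G}
    (h : ∀ (k : ℕ) (g : G) (hk : g⁻¹ * x ^ k * g ∈ M), g⁻¹ * x * g ∉ M → φ ⟨_, hk⟩ = 1) :
    MonoidHom.transfer φ x = ∏ q : G ⧸ M with x • q = q, cosetVal φ x q := by
  have : Fintype (Quotient (orbitRel (zpowers x) (G ⧸ M))) := Fintype.ofFinite _
  rw [MonoidHom.transfer_eq_prod_quotient_orbitRel_zpowers_quot]
  symm
  refine Finset.prod_of_injOn (fun q => (Quotient.mk _ q : Quotient (orbitRel (zpowers x) (G ⧸ M))))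
    ?_ (fun _ _ => Finset.mem_coe.2 (Finset.mem_univ _)) ?_ ?_
  · intro q hq q' hq' e
    obtain ⟨z, hz⟩ := orbitRel_apply.1 (Quotient.exact e)
    have h1 : x ∈ stabilizer G q' := (Finset.mem_filter.1 hq').2
    exact hz.symm.trans (zpowers_le.2 h1 z.2)
  · intro o _ ho
    refine h _ _ _ fun h1 => ho ⟨o.out, ?_, Quotient.out_eq o⟩
    rw [← smul_coset_eq_iff, QuotientGroup.out_eq'] at h1
    exact Finset.mem_coe.2 (Finset.mem_filter.2 ⟨Finset.mem_univ _, h1⟩)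
  · intro q hq
    have h1 : x ∈ stabilizer G q := (Finset.mem_filter.1 hq).2
    have h2 : (Quotient.mk _ q : Quotient (orbitRel (zpowers x) (G ⧸ M))).out = q := by
      obtain ⟨z, hz⟩ := orbitRel_apply.1 (Quotient.exact (Quotient.out_eq
        (Quotient.mk _ q : Quotient (orbitRel (zpowers x) (G ⧸ M)))))
      exact hz.symm.trans (zpowers_le.2 h1 z.2)
    have h3 : Function.minimalPeriod (x • ·) q = 1 :=
      Function.minimalPeriod_eq_one_iff_isFixedPt.2 h1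
    have h4 : q.out⁻¹ * x * q.out ∈ M := by
      rw [← smul_coset_eq_iff, QuotientGroup.out_eq']; exact h1
    rw [cosetVal, dif_pos h4]
    congr 1
    exact Subtype.ext (by simp only [h2, h3, pow_one])

/-- Hall–Wielandt: the normalizer controls transfer for Sylow subgroups of order `p ^ 3`. -/
theorem hom_eq_one_of_cube [Finite G] {p : ℕ} [hp : Fact p.Prime] (hp2 : p ≠ 2) {Q : Subgroup G}
    (hQ : IsSylowIn p Q ⊤) (h3 : Nat.card Q = p ^ 3) (hna : ¬ IsMulCommutative Q)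
    (hperf : commutator G = ⊤) (φ : 𝐍(Q) →* ℂˣ) (x : G) (hx : x ∈ Q) :
    φ ⟨x, le_normalizer hx⟩ = 1 := by
  classical
  induction hn : orderOf x using Nat.strong_induction_on generalizing x with
  | _ n ih =>
  subst hn
  by_contra hne
  have : Fintype (G ⧸ 𝐍(Q)) := Fintype.ofFinite _
  obtain ⟨hc1, hc2⟩ := P4.p3_der h3 hna
  have hQN : IsSylowIn p Q 𝐍(Q) := hQ.of_le le_normalizer le_top
  have hmem : ∀ y, IsPElt p y → y ∈ 𝐍(Q) → y ∈ Q := fun y h1 h2 =>
    hQ.mem_of_mem_normalizer h1 trivial h2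
  have hQe : ∀ y ∈ Q, IsPElt p y := fun y hy => isPElt_of_mem hQ.isPGroup hy
  have hder : ∀ y (hy : y ∈ ⁅Q, Q⁆), φ ⟨y, le_normalizer (der_le Q hy)⟩ = 1 := by
    intro y hy
    have h1 : y ∈ ⁅𝐍(Q), 𝐍(Q)⁆ := commutator_mono le_normalizer le_normalizer hy
    exact Abelianization.commutator_subset_ker φ (by rw [← sgOf_der]; exact h1)
  have hcen : ∀ z ∈ ⁅Q, Q⁆, ∀ y ∈ Q, y * z = z * y := fun z hz y hy => (hc2.ge hz).2 y hy
  have hp1 : ∀ z ∈ ⁅Q, Q⁆, z ^ p = 1 := fun z hz => by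
    have := pow_card_eq_one' (x := (⟨z, hz⟩ : ↥⁅Q, Q⁆))
    rw [hc1] at this
    exact congrArg Subtype.val this
  have hpow : ∀ y ∈ Q, y ^ p ∈ ⁅Q, Q⁆ := fun y hy => hc2.le ⟨pow_mem hy p, fun w hw => by
    have h1 := commutator_mem_commutator hw hy
    rw [← commutatorElement_eq_one_iff_mul_comm, P4.comm_pow_right (hcen _ h1 y hy).symm, hp1 _ h1]⟩
  have hval : ∀ y ∈ Q, ∀ q : G ⧸ 𝐍(Q), y • q = q → cosetVal φ y q ^ p = 1 := by
    intro y hy q hq
    obtain ⟨g, rfl⟩ := QuotientGroup.mk_surjective q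
    rw [smul_coset_eq_iff] at hq
    have h1 : g⁻¹ * y * g ∈ Q := hmem _ (by simpa using (hQe y hy).conj g⁻¹) hq
    rw [cosetVal_eq φ hq, ← map_pow]
    exact hder _ (hpow _ h1)
  have hxQ : x ∉ ⁅Q, Q⁆ := fun h => hne (hder x h)
  obtain ⟨c, hc, hc0, -⟩ := exists_mem_pow_eq_one (p := p) (H := ⁅Q, Q⁆) hc1.symm.dvd
  have hcQ := der_le Q hc
  have hzc : zpowers c = ⁅Q, Q⁆ := ((eq_bot_or_eq_of_card_prime (hc1 ▸ hp.out)
    (zpowers_le.2 hc)).resolve_left (by simpa using hc0))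
  have hF : ⁅Q, Q⁆ ⊔ zpowers x < Q := lt_of_le_of_ne (sup_le (der_le Q) (zpowers_le.2 hx)) fun h => by
    have := isMulCommutative_Zc Q
    have h1 := isMulCommutative_sup_zpowers (A := Zc Q) (x := x) fun y hy => (hy.2 x hx).symm
    rw [hc2, h] at h1
    exact hna h1
  obtain ⟨a, ha, haF⟩ := SetLike.exists_of_lt hF
  have hQa : ⁅Q, Q⁆ ⊔ zpowers x ⊔ zpowers a = Q := by
    refine P4.sup_zpowers_eq_of_relIndex (p := p) hF.le ?_ ha haF
    have h1 : ⁅Q, Q⁆ < ⁅Q, Q⁆ ⊔ zpowers x := lt_of_le_of_ne le_sup_left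
      fun h => hxQ (h ▸ mem_sup_right (mem_zpowers x))
    have h2 := mul_card_le_of_lt (hQ.isPGroup.to_le hF.le) h1
    have h4 := P4.card_dvd_of_lt hF h3.dvd
    have h5 : Nat.card ↥(⁅Q, Q⁆ ⊔ zpowers x) = p ^ 2 :=
      le_antisymm (Nat.le_of_dvd (pow_pos hp.out.pos 2) h4) (by rw [hc1] at h2; rwa [sq])
    exact ((P4.relIndex_eq_of_card (m := 1) hF.le h5 h3).trans (pow_one p)).dvd
  have hit : ∀ (g : G) (i : ℕ) (q : G ⧸ 𝐍(Q)), (g • ·)^[i] q = g ^ i • q := fun g i q => by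
    rw [smul_iterate_apply]
  have e0 : MonoidHom.transfer φ x = 1 :=
    Abelianization.commutator_subset_ker _ (by rw [hperf]; trivial)
  rw [transfer_eq_prod_fixed, prod_eq_prod_fixed (p := p) (c • ·), prod_eq_prod_fixed (p := p) (a • ·),
    Finset.prod_eq_single ((1 : G) : G ⧸ 𝐍(Q)),
    cosetVal_eq φ (by simpa using le_normalizer hx)] at e0
  · exact hne (by rw [← e0]; congr 1; simp)
  · intro q hq hq1
    simp only [Finset.mem_filter, Finset.mem_univ, true_and] at hq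
    have h1 : Q ≤ stabilizer G q := by
      exact hQa.ge.trans (sup_le (sup_le (hzc.ge.trans (zpowers_le.2 hq.1.2))
        (zpowers_le.2 hq.1.1)) (zpowers_le.2 hq.2))
    obtain ⟨g, rfl⟩ := QuotientGroup.mk_surjective q
    refine absurd (QuotientGroup.eq.2 ?_) hq1
    rw [mul_one]
    refine mem_normalizer_of_conj_mem fun y hy => hmem _ ((hQe y hy).conj _) ?_
    rw [inv_inv]
    exact smul_coset_eq_iff.1 (h1 hy)
  · intro h
    refine absurd ?_ h
    simp only [Finset.mem_filter, Finset.mem_univ, true_and, smul_coset_eq_iff, inv_one, one_mul,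
      mul_one]
    exact ⟨⟨le_normalizer hx, le_normalizer hcQ⟩, le_normalizer ha⟩
  · intro q hq
    simp only [Finset.mem_filter, Finset.mem_univ, true_and] at hq ⊢
    have h1 : ⁅Q, Q⁆ ≤ stabilizer G q := hzc ▸ zpowers_le.2 hq.2
    have h2 : ⁅a⁻¹, x⁆ • q = q := h1 (commutator_mem_commutator (inv_mem ha) hx)
    refine ⟨?_, by rw [smul_smul, ← hcen c hc a ha, mul_smul, hq.2]⟩
    calc x • a • q = (a * ⁅a⁻¹, x⁆ * x) • q := by
          rw [smul_smul]; congr 1; rw [commutatorElement_def]; group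
      _ = _ := by rw [mul_smul, mul_smul, hq.1, h2]
  · intro q hq
    simp only [Finset.mem_filter, Finset.mem_univ, true_and] at hq
    have h1 : ⁅Q, Q⁆ ≤ stabilizer G q := hzc ▸ zpowers_le.2 hq.2
    rw [hit]; exact h1 (hpow a ha)
  · intro q hq _
    simp only [Finset.mem_filter, Finset.mem_univ, true_and] at hq
    have h1 : ⁅Q, Q⁆ ≤ stabilizer G q := hzc ▸ zpowers_le.2 hq.2
    have hz := commutator_mem_commutator (inv_mem ha) hx
    have h2 : ∀ i : ℕ, (a ^ i)⁻¹ * x * a ^ i = ⁅a⁻¹, x⁆ ^ i * x := fun i => by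
      induction i with
      | zero => simp
      | succ i ih =>
        calc (a ^ (i + 1))⁻¹ * x * a ^ (i + 1) = a⁻¹ * ((a ^ i)⁻¹ * x * a ^ i) * a := by
              rw [pow_succ]; group
          _ = (a⁻¹ * ⁅a⁻¹, x⁆ ^ i) * x * a := by rw [ih]; group
          _ = _ := by
              rw [hcen _ (pow_mem hz i) _ (inv_mem ha), pow_succ, commutatorElement_def a⁻¹ x]
              simp only [mul_assoc, inv_inv, inv_mul_cancel, mul_one]
    have h4 : ∀ i : ℕ, cosetVal φ x ((a • ·)^[i] q) =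
        cosetVal φ ⁅a⁻¹, x⁆ q ^ i * cosetVal φ x q := fun i => by
      have h5 : ⁅a⁻¹, x⁆ ^ i • q = q := h1 (pow_mem hz i)
      rw [hit, cosetVal_smul φ (by rw [h2, mul_smul, hq.1, h5]), h2, cosetVal_mul φ h5 hq.1,
        cosetVal_pow φ (h1 hz)]
    simp only [h4]
    rw [Finset.prod_mul_distrib, Finset.prod_const, Finset.card_range, hval x hx q hq.1, mul_one,
      Finset.prod_pow_eq_pow_sum]
    obtain ⟨k, hk⟩ : p ∣ ∑ i ∈ Finset.range p, i := by
      refine (Nat.Coprime.dvd_mul_right (k := p) (m := _) (n := 2) ?_).1 ?_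
      · exact (Nat.coprime_primes hp.out Nat.prime_two).2 hp2
      · rw [Finset.sum_range_id_mul_two]; exact Dvd.intro _ rfl
    rw [hk, pow_mul, hval _ (der_le Q hz) q (h1 hz), one_pow]
  · intro q hq
    simp only [Finset.mem_filter, Finset.mem_univ, true_and] at hq ⊢
    rw [smul_smul, hcen c hc x hx, mul_smul, hq]
  · intro q _
    rw [hit, hp1 c hc, one_smul]
  · intro q hq _
    simp only [Finset.mem_filter, Finset.mem_univ, true_and] at hq
    have h4 : ∀ i : ℕ, cosetVal φ x ((c • ·)^[i] q) = cosetVal φ x q := fun i => by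
      have h5 : (c ^ i)⁻¹ * x * c ^ i = x := by
        rw [mul_assoc, hcen _ (pow_mem hc i) x hx, inv_mul_cancel_left]
      rw [hit, cosetVal_smul φ (by rw [h5, hq]), h5]
    simp only [h4]
    rw [Finset.prod_const, Finset.card_range, hval x hx q hq]
  · intro k g hk hg
    have h1 : g⁻¹ * x ^ k * g ∈ Q := hmem _ (by simpa using ((hQe x hx).pow k).conj g⁻¹) hk
    refine ih _ ?_ _ h1 rfl
    have h2 : orderOf (g⁻¹ * x ^ k * g) = orderOf (x ^ k) := by
      simpa using GT.orderOf_conj' (x ^ k) g⁻¹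
    rw [h2]
    refine lt_of_le_of_ne (Nat.le_of_dvd (orderOf_pos x) (orderOf_pow_dvd k)) fun h4 => hg ?_
    have h5 : zpowers (x ^ k) = zpowers x := eq_of_le_of_card_ge
      (zpowers_le.2 (pow_mem (mem_zpowers x) k)) (by rw [Nat.card_zpowers, Nat.card_zpowers, h4])
    have h6 : zpowers (x ^ k) ≤ MulAut.conj g • 𝐍(Q) := zpowers_le.2 (mem_conj_smul.2 hk)
    exact mem_conj_smul.1 (h6 (h5 ▸ mem_zpowers x))

end Transfer

end GAG
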