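import Cfsg.Agent.Lib.Gag.B1

/-!
# Central type Sylow subgroups of order `p ^ 4` meeting a perfect normal subgroup in order `p ^ 3`
-/

set_option autoImplicit false

namespace GAG

open Cfsg CT GT FT Subgroup MulAction
open scoped Pointwise commutatorElement

theorem false_of_cube {G : Type*} [Group G] [Finite G] {p : ℕ} [hp : Fact p.Prime] (hp2 : p ≠ 2)
    {Q : Subgroup G} (hQ : IsSylowIn p Q ⊤) (h3 : Nat.card Q = p ^ 3) (hna : ¬ IsMulCommutative Q)
    (hperf : commutator G = ⊤) {b : G} (hb : b ∈ Q) (hbZ : b ∉ ⁅Q, Q⁆)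
    (h : ∀ m ∈ 𝐍(Q), ⁅b, m⁆ ∈ ⁅Q, Q⁆) : False := by
  have := subgroupOf_normal (norm_le_norm_der Q)
  have h1 : qmk 𝐍(Q) ⁅Q, Q⁆ ⟨b, le_normalizer hb⟩ ∉ commutator (Quo 𝐍(Q) ⁅Q, Q⁆) := fun h1 => by
    refine hbZ (qmk_eq_one_iff.1 (der_inf_eq_bot
      (sylow_qim_top (N := ⁅Q, Q⁆) (hQ.of_le le_normalizer le_top))
      ((qim_le_cent_iff le_normalizer le_normalizer).2 le_rfl) h1 (qmk_mem_qim hb) fun y _ => ?_))
    obtain ⟨m, rfl⟩ := qmk_surjective 𝐍(Q) ⁅Q, Q⁆ y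
    rw [mem_cent1, eq_comm, ← commutatorElement_eq_one_iff_mul_comm, ← map_commutatorElement,
      qmk_eq_one_iff]
    exact h m m.2
  rw [mem_commutator_iff_forall_units_hom] at h1
  exact h1 fun f => hom_eq_one_of_cube hp2 hQ h3 hna hperf (f.comp (qmk 𝐍(Q) ⁅Q, Q⁆)) b hb

section Mid

variable {G : Type*} [Group G] {p : ℕ} [hp : Fact p.Prime] {C B P : Subgroup G}

theorem relIndex_dvd_of_ne_top (h1 : C ≤ B) (h2 : B ≤ P) (h : C.relIndex P = p ^ 2) (hne : B ≠ P) :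
    C.relIndex B ∣ p := by
  have h3 := relIndex_mul_relIndex C B P h1 h2
  rw [h] at h3
  obtain ⟨k, hk, e⟩ := (Nat.dvd_prime_pow hp.out).1 (Dvd.intro _ h3)
  rw [e] at h3 ⊢
  by_cases hk2 : k = 2
  · subst hk2
    exact absurd (le_antisymm h2 (relIndex_eq_one.1
      ((Nat.mul_eq_left (pow_pos hp.out.pos 2).ne').1 h3))) hne
  · exact (pow_dvd_pow p (by omega : k ≤ 1)).trans (pow_one p).dvd

end Mid

variable {H : Type*} [Group H] [Finite H] {Z N S : Subgroup H}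

omit [Finite H] in
theorem comm_mem_iff [Z.Normal] {x y : H} :
    ⁅x, y⁆ ∈ Z ↔ QuotientGroup.mk' Z x ∈ 𝐂[QuotientGroup.mk' Z y] := by
  rw [mem_cent1, ← commutatorElement_eq_one_iff_mul_comm, ← map_commutatorElement,
    ← MonoidHom.mem_ker, QuotientGroup.ker_mk']

theorem false_of_odd [Z.Normal] [N.Normal] (hZ : Z ≤ center H) [IsCyclic Z] (hZN : Z ≤ N)
    (hperf : N ≤ ⁅N, N⁆ ⊔ Z) {p : ℕ} [hpp : Fact p.Prime]
    (hp : p ≠ 2) (hS : IsSylowIn p S ⊤) (hct : CTy Z (S ⊔ Z)) (_h4 : Z.relIndex S = p ^ 4)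
    (h3 : Z.relIndex (S ⊓ N) = p ^ 3) (hna : ¬ ⁅S ⊓ N, S ⊓ N⁆ ≤ Z) : False := by
  have hP : IsSylowIn p (S ⊓ N) N := hS.inf_of_le_normalizer le_top (by rw [normalizer_eq_top])
  set P := S ⊓ N with hPd
  set π := QuotientGroup.mk' Z with hπ
  have hπ1 : ∀ x, π x = 1 ↔ x ∈ Z := fun x => QuotientGroup.eq_one_iff x
  have hZC : ∀ K : Subgroup H, Z ≤ 𝐂(K) := fun K => hZ.trans (center_le_centralizer _)
  have hZC1 : ∀ y : H, Z ≤ 𝐂[y] := fun y => hZ.trans (center_le_centralizer _)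
  have hSP : S ≤ 𝐍(P) := le_normalizer_inf le_normalizer le_normalizer_of_normal
  have hPS : P ≤ S := inf_le_left
  have hQ3 : Nat.card (P.map π) = p ^ 3 := by rw [card_map_mk, h3]
  have hQna : ¬ IsMulCommutative (P.map π) := fun h =>
    hna (map_le_cent_iff.1 (comm_iff_le_cent.1 h))
  obtain ⟨hc1, hc2⟩ := P4.p3_der hQ3 hQna
  have hSp : IsPGroup p (S.map π) := hS.isPGroup.map π
  have hsmall : ∀ W : Subgroup (H ⧸ Z), W ≤ S.map π → S.map π ≤ 𝐍(W) → Nat.card W ∣ p →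
      W ≤ 𝐂(S.map π) := fun W h1 h2 h3 => by
    rcases (Nat.dvd_prime hpp.out).1 h3 with h | h
    · rw [card_eq_one.1 h]; exact bot_le
    · have h4 : W ≠ ⊥ := fun h' => by rw [h', card_bot] at h; exact hpp.out.one_lt.ne h
      exact inf_eq_left.1 ((eq_bot_or_eq_of_card_prime (h ▸ hpp.out) inf_le_left).resolve_left
        (inf_centralizer_ne_bot_of_isPGroup hSp (hSp.to_le h1) h4 h2))
  have hSQ : S.map π ≤ 𝐍(P.map π) := map_le_normalizer_map hSP π
  set C := P ⊓ ⁅P.map π, P.map π⁆.comap π with hCd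
  have hCP : C ≤ P := inf_le_left
  have hPPC : ⁅P, P⁆ ≤ C := le_inf (der_le P) (by rw [← map_le_iff_le_comap, map_commutator])
  have hCS : ∀ x ∈ C, ∀ y ∈ S, ⁅x, y⁆ ∈ Z := fun x hx y hy => comm_mem_iff.2 (cent_le_cent1
    (mem_map_of_mem π hy) (hsmall _ ((der_le _).trans (map_mono hPS))
      (hSQ.trans (norm_le_norm_der _)) hc1.dvd hx.2))
  have hmemC : ∀ x ∈ P, (∀ y ∈ P, ⁅x, y⁆ ∈ Z) → x ∈ C := fun x hx h =>
    ⟨hx, hc2.le ⟨mem_map_of_mem π hx, by
      rintro _ ⟨y, hy, rfl⟩; exact (mem_cent1.1 (comm_mem_iff.1 (h y hy))).symm⟩⟩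
  have hgen : ∀ c ∈ C, c ∉ Z → C ≤ zpowers c ⊔ Z := fun c hc hcZ x hx => by
    have h1 : zpowers (π c) = ⁅P.map π, P.map π⁆ := ((eq_bot_or_eq_of_card_prime (hc1 ▸ hpp.out)
      (zpowers_le.2 (mem_comap.1 hc.2))).resolve_left (by rwa [zpowers_eq_bot, hπ1]))
    have h2 : x ∈ ((zpowers c).map π).comap π := by rw [MonoidHom.map_zpowers, h1]; exact hx.2
    rwa [comap_map_eq, QuotientGroup.ker_mk'] at h2
  have hiC : C.relIndex P = p ^ 2 := by
    have h1 : C.relIndex P = ⁅P.map π, P.map π⁆.relIndex (P.map π) := by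
      rw [hCd, inf_comm, inf_relIndex_right, relIndex_comap]
    rw [h1]
    exact P4.relIndex_eq_of_card (k := 1) (der_le _) (by simpa using hc1) hQ3
  have hnC : 𝐍(P) ≤ 𝐍(C) := le_normalizer_inf le_rfl (by
    refine le_trans ?_ (le_normalizer_comap π)
    rw [← map_le_iff_le_comap]
    exact (map_normalizer_le P π).trans (norm_le_norm_der _))
  obtain ⟨c, hc, hcZ⟩ : ∃ c ∈ C, c ∉ Z := by
    obtain ⟨c, hc, hcZ⟩ := SetLike.not_le_iff_exists.1 hna
    exact ⟨c, hPPC hc, hcZ⟩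
  -- (1)
  have h1 : ¬ P ≤ 𝐂(C) := fun h1 => by
    have hCc : C ≤ 𝐂(P) := le_cent_comm.1 h1
    obtain ⟨B, hB0, hB1, hB2, hB3⟩ : ∃ B : Subgroup H, B ≤ P ∧ ¬ ⁅P, B⁆ ≤ Z ∧ ⁅B, S⁆ ≤ C ∧ ⁅S, P⁆ ≤ 𝐂(B) := by
      by_cases h2 : ⁅P, S⁆ ≤ C
      · exact ⟨P, le_rfl, hna, h2, by rw [commutator_comm]; exact h2.trans hCc⟩
      have h5 : ⁅P, S⁆ ≤ P := le_normalizer_iff_commutator_le_left.1 hSP
      have h6 : ⁅P.map π, S.map π⁆ < P.map π := commutator_lt_of_isPGroup hSp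
        (hSp.to_le (map_mono hPS)) hSQ fun h => hQna (h ▸ inferInstance)
      have hn : S.map π ≤ 𝐍(⁅P.map π, S.map π⁆) := le_normalizer_commutator hSQ le_normalizer
      have h7 : ⁅⁅P.map π, S.map π⁆, S.map π⁆ < ⁅P.map π, S.map π⁆ :=
        commutator_lt_of_isPGroup hSp (hSp.to_le (h6.le.trans (map_mono hPS))) hn fun h => h2 (by
          rw [← map_commutator, Subgroup.map_eq_bot_iff] at h
          exact le_inf h5 (h.trans (ker_le_comap _ _)))
      have h8 := hsmall _ (h7.le.trans (h6.le.trans (map_mono hPS)))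
        (le_normalizer_commutator hn le_normalizer)
        (by simpa using P4.card_dvd_of_lt (k := 1) h7 (P4.card_dvd_of_lt h6 hQ3.dvd))
      refine ⟨⁅P, S⁆, h5, fun h => h2 fun x hx => hmemC x (h5 hx) fun y hy => ?_, ?_, ?_⟩
      · rw [← commutatorElement_inv]; exact inv_mem (h (commutator_mem_commutator hy hx))
      · refine le_inf ((commutator_mono h5 le_rfl).trans h5) ?_
        rw [← map_le_iff_le_comap, map_commutator, map_commutator, ← hc2]
        exact le_inf (h7.le.trans h6.le) (h8.trans (centralizer_anti (map_mono hPS)))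
      · have h9 : C ⊔ ⁅P, S⁆ ≠ P := fun h => h6.not_ge (by
          conv_lhs => rw [← h]
          rw [Subgroup.map_sup, map_commutator]
          exact sup_le ((map_le_iff_le_comap.2 inf_le_right).trans
            (commutator_mono le_rfl (map_mono hPS))) le_rfl)
        have h10 := P4.comm_of_relIndex_dvd (p := p) (Z := C) (S := C ⊔ ⁅P, S⁆)
          (le_inf le_sup_left (hCc.trans (centralizer_anti (sup_le hCP h5))))
          (relIndex_dvd_of_ne_top le_sup_left (sup_le hCP h5) hiC h9)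
        rw [commutator_comm]
        exact le_sup_right.trans ((comm_iff_le_cent.1 h10).trans (centralizer_anti le_sup_right))
    have h2 := commutator_le_centralizer_of_rotate (hB2.trans hCc) hB3
    obtain ⟨x, hx, hxZ⟩ := SetLike.not_le_iff_exists.1 hB1
    have h3 : S ⊔ Z ≤ 𝐂[x] := sup_le (le_cent1_iff.2 (h2 hx)) (hZC1 x)
    exact hxZ (hct x (mem_sup_left (hPS (der_le P (commutator_mono le_rfl hB0 hx)))) fun y hy _ =>
      commutatorElement_eq_one_iff_mul_comm.2 (mem_cent1.1 (h3 hy)).symm)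
  -- (2)
  set B := P ⊓ 𝐂(C) with hBd
  have hBP : B ≤ P := inf_le_left
  have hCB : C ≤ B := le_inf hCP ((hgen c hc hcZ).trans (sup_le (zpowers_le.2 (le_cent1_iff.1
    ((hgen c hc hcZ).trans (sup_le (zpowers_le.2 (mem_cent1.2 rfl)) (hZC1 c))))) (hZC C)))
  have hBne : B ≠ P := fun h => h1 (h ▸ inf_le_right)
  have hiB : C.relIndex B ∣ p := relIndex_dvd_of_ne_top hCB hBP hiC hBne
  have hBab : B ≤ 𝐂(B) := comm_iff_le_cent.1 (P4.comm_of_relIndex_dvd (p := p)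
    (le_inf hCB (le_cent_comm.1 inf_le_right)) hiB)
  have hiP : B.relIndex P ∣ p := by
    let f : P →* H :=
      { toFun := fun x => ⁅c, (x : H)⁆
        map_one' := by simp
        map_mul' := fun x y => comm_mul_right hZ c (hCS c hc y (hPS y.2)) }
    have e1 : f.ker = B.subgroupOf P := by
      ext x
      rw [MonoidHom.mem_ker, mem_subgroupOf]
      change ⁅c, (x : H)⁆ = 1 ↔ _
      rw [commutatorElement_eq_one_iff_mul_comm]
      refine ⟨fun h => ⟨x.2, le_cent1_iff.1 ((hgen c hc hcZ).trans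
        (sup_le (zpowers_le.2 (mem_cent1.2 h)) (hZC1 _)))⟩, fun h => h.2 c hc⟩
    have e2 : f.range ≤ powKer Z p := by
      rintro _ ⟨x, rfl⟩
      have h2 := hCS c hc x (hPS x.2)
      refine mem_powKer.2 ⟨h2, ?_⟩
      change ⁅c, (x : H)⁆ ^ p = 1
      have h3 : c ^ p ∈ Z := by
        rw [← hπ1, map_pow]
        have := pow_card_eq_one' (x := (⟨π c, hc.2⟩ : ↥⁅P.map π, P.map π⁆))
        rw [hc1] at this
        exact congrArg Subtype.val this
      rw [← comm_pow_left hZ h2, commutatorElement_eq_one_iff_mul_comm]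
      exact mem_cent1.1 (hZC1 _ h3)
    rw [relIndex, ← e1, index_ker]
    exact (card_dvd_of_le e2).trans (card_powKer_dvd_of_isCyclic Z p)
  obtain ⟨b, hb, hbC⟩ : ∃ b ∈ B, b ∉ C := by
    by_contra h
    push Not at h
    rw [le_antisymm h hCB, hiC] at hiP
    have := Nat.le_of_dvd hpp.out.pos hiP
    nlinarith [hpp.out.one_lt]
  have hBb := P4.sup_zpowers_eq_of_relIndex hCB hiB hb hbC
  have hZPC : ∀ x ∈ P, x ∈ Z → x ∈ C := fun x hx h =>
    ⟨hx, mem_comap.2 (by rw [(hπ1 x).2 h]; exact one_mem _)⟩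
  -- (3)
  obtain ⟨y, hy, hy1, hy2⟩ : ∃ y ∈ S, ⁅b, y⁆ ∈ Z ∧ ⁅b, y⁆ ≠ 1 := by
    by_contra h
    push Not at h
    refine hbC (hZPC b (hBP hb) (hct b (mem_sup_left (hPS (hBP hb))) fun y hy hby => ?_))
    obtain ⟨s, hs, z, hz, rfl⟩ := mem_sup_central hZ hy
    have e : ⁅b, s * z⁆ = ⁅b, s⁆ := by
      rw [← commutatorElement_inv, comm_mul_central hZ _ _ hz, commutatorElement_inv]
    rw [e] at hby ⊢
    exact h s hs hby
  have hBy : ∀ x ∈ B, ⁅x, y⁆ ∈ Z := fun x hx => by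
    have : B ≤ 𝐂[π y].comap π := hBb.ge.trans (sup_le (fun c hc => comm_mem_iff.1 (hCS c hc y hy))
      (zpowers_le.2 (comm_mem_iff.1 hy1)))
    exact comm_mem_iff.2 (this hx)
  -- (4)
  have hnB : 𝐍(P) ≤ 𝐍(B) := le_normalizer_inf le_rfl (le_normalizer_centralizer hnC)
  set D := N ⊓ 𝐂(B.map π).comap π with hDd
  have hmemD : ∀ w, w ∈ D ↔ w ∈ N ∧ ∀ x ∈ B, ⁅x, w⁆ ∈ Z := fun w =>
    ⟨fun h => ⟨h.1, fun x hx => comm_mem_iff.2 (mem_cent1.2 (h.2 _ (mem_map_of_mem π hx)))⟩,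
      fun h => ⟨h.1, by
        rintro _ ⟨x, hx, rfl⟩; exact mem_cent1.1 (comm_mem_iff.1 (h.2 x hx))⟩⟩
  have hPD : P ⊓ D ≤ B := fun w hw => by
    by_contra hwB
    have h2 := P4.sup_zpowers_eq_of_relIndex hBP hiP hw.1 hwB
    refine hbC (hmemC b (hBP hb) fun v hv => ?_)
    have h3 : P ≤ 𝐂[π b].comap π := h2.ge.trans (sup_le (fun x hx => mem_comap.2 (mem_cent1.2 (by
      rw [← map_mul, hBab hb x hx, map_mul]))) (zpowers_le.2 (mem_comap.2
        (mem_cent1_comm.1 (comm_mem_iff.1 (((hmemD w).1 hw.2).2 b hb))))))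
    exact comm_mem_iff.2 (mem_cent1_comm.1 (h3 hv))
  have hPnD : P ≤ 𝐍(D) := le_normalizer_inf le_normalizer_of_normal (by
    refine le_trans ?_ (le_normalizer_comap π)
    rw [← map_le_iff_le_comap]
    exact le_normalizer_centralizer (map_le_normalizer_map (le_normalizer.trans hnB) π))
  have hSyl : IsSylowIn p (P ⊓ D) D :=
    (hP.of_le le_sup_right (sup_le inf_le_left hP.le)).inf_of_le_normalizer le_sup_left
      (sup_le le_normalizer hPnD)
  have hDB : ∀ x ∈ B, D ≤ 𝐂[x] := fun x hx => le_of_forall_exists_isSylowIn_le fun q hq => by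
    by_cases hqp : q = p
    · subst hqp
      exact ⟨_, hSyl, hPD.trans (le_cent1_iff.2 (hBab hx))⟩
    obtain ⟨R, hR⟩ := exists_isSylowIn q D
    refine ⟨R, hR, fun w hw => mem_cent1.2 (commutatorElement_eq_one_iff_mul_comm.1 ?_).symm⟩
    have h2 := ((hmemD w).1 (hR.le hw)).2 x hx
    obtain ⟨i, hi⟩ := (isPElt_of_mem hP.isPGroup (hBP hx)).exists_pow_eq_one
    obtain ⟨j, hj⟩ := (isPElt_of_mem hR.isPGroup hw).exists_pow_eq_one
    have e1 : ⁅x, w⁆ ^ p ^ i = 1 := by rw [← comm_pow_left hZ h2, hi]; simp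
    have e2 : ⁅x, w⁆ ^ q ^ j = 1 := by rw [← comm_pow_right hZ h2, hj]; simp
    exact (pow_eq_one_iff_of_coprime (Nat.Coprime.pow i j
      ((Nat.coprime_primes hpp.out hq.out).2 (Ne.symm hqp)))).1 ⟨e1, e2⟩
  have hker : ∀ m ∈ N ⊓ 𝐍(P), ⁅b, m⁆ ∈ B ⊓ 𝐂[y] := fun m hm => by
    have hmB : ∀ x ∈ B, m * x * m⁻¹ ∈ B := fun x hx => conj_mem_of_mem_normalizer (hnB hm.2) hx
    have e1 : ∀ x, ⁅m * x * m⁻¹, y⁆ = m * ⁅x, m⁻¹ * y * m⁆ * m⁻¹ := fun x => by
      simp only [commutatorElement_def]; group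
    have e2 : ∀ x ∈ B, ⁅x, m⁻¹ * y * m⁆ ∈ Z := fun x hx =>
      (conj_mem_iff hZ m).1 (e1 x ▸ hBy _ (hmB x hx))
    have hw : m⁻¹ * y * m * y⁻¹ ∈ D := (hmemD _).2 ⟨by
      have := N.mul_mem (N.inv_mem hm.1) (Normal.conj_mem inferInstance m hm.1 y)
      simpa only [mul_assoc] using this, fun x hx => by
        rw [comm_mem_iff, mem_cent1_comm, map_mul, map_inv]
        exact mul_mem (mem_cent1_comm.1 (comm_mem_iff.1 (e2 x hx)))
          (inv_mem (mem_cent1_comm.1 (comm_mem_iff.1 (hBy x hx))))⟩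
    have e3 : ⁅m * b * m⁻¹, y⁆ = ⁅b, y⁆ := by
      rw [e1, conj_eq_of_mem hZ m (e2 b hb), show m⁻¹ * y * m = m⁻¹ * y * m * y⁻¹ * y by group,
        comm_mul_right hZ b hy1,
        commutatorElement_eq_one_iff_mul_comm.2 (mem_cent1.1 (hDB b hb hw)).symm, one_mul]
    have e4 : ⁅b, m⁆ = b * (m * b * m⁻¹)⁻¹ := by rw [commutatorElement_def]; group
    have h5 : ⁅b, m⁆ ∈ B := e4 ▸ mul_mem hb (inv_mem (hmB b hb))
    refine ⟨h5, mem_cent1.2 (commutatorElement_eq_one_iff_mul_comm.1 ?_)⟩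
    have e5 := comm_mul_left hZ (x := ⁅b, m⁆) y (hBy _ (hmB b hb))
    rw [e3, e4, inv_mul_cancel_right, ← e4] at e5
    exact (mul_eq_right.1 e5.symm)
  -- (5)
  have hCy : C ≤ 𝐂[y] := by
    obtain ⟨x, hx, hxZ⟩ : ∃ x ∈ P, ⁅b, x⁆ ∉ Z := by
      by_contra h
      push Not at h
      exact hbC (hmemC b (hBP hb) h)
    exact (hgen _ (hPPC (commutator_mem_commutator (hBP hb) hx)) hxZ).trans
      (sup_le (zpowers_le.2 (hker x ⟨hx.2, le_normalizer hx⟩).2) (hZC1 y))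
  have hKC : B ⊓ 𝐂[y] ≤ C := fun k hk => by
    by_contra hkC
    have h2 := P4.sup_zpowers_eq_of_relIndex hCB hiB hk.1 hkC
    exact hy2 (commutatorElement_eq_one_iff_mul_comm.2 (mem_cent1.1
      ((h2.ge.trans (sup_le hCy (zpowers_le.2 hk.2))) hb)))
  have hle : P.map π ≤ N.map π := map_mono hP.le
  refine false_of_cube (G := N.map π) (Q := (P.map π).subgroupOf (N.map π))
    (b := ⟨π b, hle (mem_map_of_mem π (hBP hb))⟩) hp
    ((isSylowIn_subgroupOf_top_iff hle).2 (hP.map π)) (by rw [card_subgroupOf_of_le hle, hQ3])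
    (fun h => hQna ((sgOf_comm_iff hle).1 h))
    (by rw [← sgOf_der, subgroupOf_eq_top]; exact map_mk_le_der hperf)
    (mem_map_of_mem π (hBP hb)) (fun h => hbC ⟨hBP hb, ?_⟩) ?_
  · rw [← sgOf_commutator hle hle] at h
    exact h
  · rintro ⟨_, m, hm, rfl⟩ h
    rw [← sgOf_norm hle] at h
    rw [← sgOf_commutator hle hle]
    have := mem_comap.1 (hKC (hker m ⟨hm, mem_norm_of_mk hZ hZN hP h⟩)).2
    rw [map_commutatorElement] at this
    exact this

end GAG
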