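import Cfsg.Agent.Lib.Gag.B2
import Cfsg.Agent.Lib.Gag.D8A
import Cfsg.Agent.Lib.Block.BSuz

/-!
# No simple group has a nonabelian Sylow `2`-subgroup of order `16` and central type
-/

set_option autoImplicit false

namespace GAG

open Cfsg CT GT FT Subgroup MulAction
open scoped Pointwise commutatorElement

section Aux

variable {G : Type*} [Group G]

theorem eq_or_of_mem_zpowers {c g : G} (hc : c * c = 1) (h : g ∈ zpowers c) : g = 1 ∨ g = c := by
  obtain ⟨k, rfl⟩ := h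
  have h2 : c ^ (2 : ℤ) = 1 := by rw [zpow_two, hc]
  rcases Int.even_or_odd' k with ⟨j, rfl | rfl⟩
  · left; change c ^ (2 * j) = 1; rw [zpow_mul, h2, one_zpow]
  · right; change c ^ (2 * j + 1) = c; rw [zpow_add, zpow_mul, h2, one_zpow, one_mul, zpow_one]

theorem der_le_zpowers {P : Subgroup G} (h : ⁅P, P⁆ ≤ 𝐂(P)) {x y : G} (hx : x ∈ P) (hy : y ∈ P)
    (hP : P ≤ Zc P ⊔ zpowers x ⊔ zpowers y) : ⁅P, P⁆ ≤ zpowers ⁅x, y⁆ := by
  have hn : P ≤ 𝐍(zpowers ⁅x, y⁆) := le_normalizer_of_le_centralizer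
    (le_cent_comm.1 ((zpowers_le.2 (commutator_mem_commutator hx hy)).trans h))
  have := subgroupOf_normal hn
  refine (qim_le_cent_iff (M := P) le_rfl le_rfl).1 ?_
  have h1 : ∀ w ∈ P, ⁅x, w⁆ ∈ zpowers ⁅x, y⁆ → ⁅y, w⁆ ∈ zpowers ⁅x, y⁆ →
      qim P (zpowers ⁅x, y⁆) P ≤ 𝐂(qim P (zpowers ⁅x, y⁆) (zpowers w)) := fun w hw h1 h2 => by
    refine (qim_mono hP).trans ?_
    rw [qim_sup (sup_le inf_le_left (zpowers_le.2 hx)) (zpowers_le.2 hy),
      qim_sup inf_le_left (zpowers_le.2 hx)]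
    have h3 : ∀ v (hv : v ∈ P), ⁅v, w⁆ ∈ zpowers ⁅x, y⁆ → qim P (zpowers ⁅x, y⁆) (zpowers v) ≤
        𝐂(qim P (zpowers ⁅x, y⁆) (zpowers w)) := fun v hv h => by
      rw [P4.qim_zpowers ⟨v, hv⟩, P4.qim_zpowers ⟨w, hw⟩, centralizer_zpowers, zpowers_le, mem_cent1,
        ← commutatorElement_eq_one_iff_mul_comm, ← map_commutatorElement, qmk_eq_one_iff]
      exact h
    exact sup_le (sup_le (qim_le_cent (inf_le_right.trans (centralizer_anti (zpowers_le.2 hw))))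
      (h3 x hx h1)) (h3 y hy h2)
  rw [le_cent_comm]
  refine (qim_mono hP).trans ?_
  rw [qim_sup (sup_le inf_le_left (zpowers_le.2 hx)) (zpowers_le.2 hy),
    qim_sup inf_le_left (zpowers_le.2 hx)]
  refine sup_le (sup_le (qim_le_cent (inf_le_right : Zc P ≤ _)) (le_cent_comm.1 (h1 x hx ?_ ?_)))
    (le_cent_comm.1 (h1 y hy (mem_zpowers ⁅x, y⁆) ?_))
  · rw [commutatorElement_self]; exact one_mem _
  · rw [← commutatorElement_inv x y]; exact inv_mem (mem_zpowers ⁅x, y⁆)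
  · rw [commutatorElement_self]; exact one_mem _

variable [Finite G]

theorem sup_eq_of_sq_notMem {C A : Subgroup G} (hCA : C ≤ A) (hn : A ≤ 𝐍(C))
    (h : C.relIndex A = 4) {a : G} (ha : a ∈ A) (h2 : a * a ∉ C) : C ⊔ zpowers a = A := by
  have := subgroupOf_normal hn
  rw [sup_comm, ← qim_eq_top_iff hCA (zpowers_le.2 ha), P4.qim_zpowers ⟨a, ha⟩]
  have h3 : Nat.card (Quo A C) = 2 ^ 2 := by rw [card_quo, h]; rfl
  refine eq_top_of_card_eq _ ?_
  rw [Nat.card_zpowers, h3]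
  refine orderOf_eq_prime_pow (n := 1) ?_ (by rw [← h3]; exact pow_card_eq_one')
  rw [pow_one, sq, ← map_mul, qmk_eq_one_iff]
  exact h2

end Aux

section Sixteen

variable {G : Type*} [Group G] [Finite G] {P : Subgroup G} {K : G → Subgroup G}

/-- the data coming from a central type extension of a group of order `16` -/
structure Six (P : Subgroup G) (K : G → Subgroup G) : Prop where
  card : Nat.card P = 2 ^ 4
  na : ¬ IsMulCommutative P
  symm : ∀ x y, y ∈ K x → x ∈ K y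
  self : ∀ x, x ∈ K x
  conj : ∀ g x y, y ∈ K x → g * y * g⁻¹ ∈ K (g * x * g⁻¹)
  sq : ∀ x y, x * y = y * x → y * y ∈ K x → y ∈ K (x * x)
  ct : ∀ x ∈ P, P ⊓ 𝐂[x] ≤ K x → x = 1
  rad : ∀ A ≤ P, Nat.card A = 2 ^ 3 → A ≤ 𝐂(A) → ∃ r ∈ A, r ≠ 1 ∧ A ≤ K r

namespace Six

variable (h : Six P K)
include h

omit [Finite G] in
theorem two : IsPGroup 2 P := IsPGroup.of_card h.card

theorem card_cent_dvd {t : G} (ht : t ∉ 𝐂(P)) : Nat.card ↥(P ⊓ 𝐂[t]) ∣ 2 ^ 3 :=
  P4.card_dvd_of_lt (lt_of_le_of_ne inf_le_left fun e => ht (le_cent1_iff.1 (inf_eq_left.1 e)))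
    h.card.dvd

theorem cent_eq {A : Subgroup G} (hA : A ≤ P) (h8 : Nat.card A = 2 ^ 3) {t : G} (ht : t ∉ 𝐂(P))
    (hAt : A ≤ 𝐂[t]) : P ⊓ 𝐂[t] = A :=
  (eq_of_le_of_card_ge (le_inf hA hAt) (h8 ▸ Nat.le_of_dvd (by norm_num) (h.card_cent_dvd ht))).symm

theorem rad_mem {A : Subgroup G} (hA : A ≤ P) (h8 : Nat.card A = 2 ^ 3) (hab : A ≤ 𝐂(A)) {r : G}
    (hr : r ∈ A) (hK : A ≤ K r) : r ∈ Zc P := by
  refine ⟨hA hr, by_contra fun hn => hn ?_⟩
  rw [h.ct r (hA hr) ((h.cent_eq hA h8 hn (hab.trans (cent_le_cent1 hr))).le.trans hK)]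
  exact one_mem _

theorem card_Zc_dvd : Nat.card (Zc P) ∣ 2 ^ 2 := by
  have h1 : Zc P < P := lt_of_le_of_ne inf_le_left fun he => h.na (he ▸ isMulCommutative_Zc P)
  by_contra h2
  have h3 := P4.eq_of_dvd_of_not_dvd (P4.card_dvd_of_lt h1 h.card.dvd) h2
  exact h.na (P4.comm_of_relIndex_dvd (p := 2) le_rfl
    ((P4.relIndex_eq_of_card (m := 1) h1.le h3 h.card).trans (pow_one 2)).dvd)

theorem card_Zc : Nat.card (Zc P) = 2 ^ 2 := by
  refine P4.eq_of_dvd_of_not_dvd h.card_Zc_dvd fun h2 => ?_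
  have hP1 : P ≠ ⊥ := fun e => h.na (e ▸ inferInstance)
  have hC1 : Zc P ≠ ⊥ := inf_centralizer_ne_bot_of_isPGroup h.two h.two hP1 le_normalizer
  have hC : Nat.card (Zc P) = 2 ^ 1 := P4.eq_of_dvd_of_not_dvd h2 fun h3 =>
    hC1 (card_eq_one.1 (by simpa using h3))
  obtain ⟨b, hb, hbC, hbP⟩ : ∃ b ∈ P, b ∉ 𝐂(P) ∧ ∀ v ∈ P, ⁅b, v⁆ ∈ Zc P := by
    obtain ⟨M, -, h1, -, h3, h4⟩ := exists_normal_relIndex_eq_of_lt h.two
      (K := center P) (L := ⊤) (lt_top_iff_ne_top.2 fun e => h.na ⟨⟨fun a b =>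
        (mem_center_iff.1 (e ▸ mem_top b) a)⟩⟩)
    obtain ⟨b, hb, hbC⟩ : ∃ b ∈ M, b ∉ center P := by
      by_contra h5
      push Not at h5
      rw [relIndex_eq_one.2 h5] at h3
      exact absurd h3 (by norm_num)
    refine ⟨b, b.2, fun h5 => hbC (mem_center_iff.2 fun g => Subtype.ext (h5 g g.2)), fun v hv => ?_⟩
    rw [Zc_eq_map]
    exact ⟨_, h4 (commutator_mem_commutator hb (mem_top ⟨v, hv⟩)), rfl⟩
  set A := P ⊓ 𝐂[b] with hAd
  have hAP : A ≤ P := inf_le_left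
  have hCA : Zc P ≤ A := inf_le_inf_left _ (cent_le_cent1 hb)
  have hbA : b ∈ A := ⟨hb, mem_cent1.2 rfl⟩
  have hi : A.relIndex P ∣ 2 := by
    let f : P →* G :=
      { toFun := fun x => ⁅b, (x : G)⁆
        map_one' := by simp
        map_mul' := fun x y => by
          have e := (hbP y y.2).2 x x.2
          calc ⁅b, ((x * y : P) : G)⁆ = ⁅b, (x : G)⁆ * (x * ⁅b, (y : G)⁆) * (x : G)⁻¹ := by
                simp only [commutatorElement_def, coe_mul]; group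
            _ = _ := by rw [e]; group }
    have e1 : f.ker = A.subgroupOf P := by
      ext x
      rw [MonoidHom.mem_ker, mem_subgroupOf]
      change ⁅b, (x : G)⁆ = 1 ↔ _
      rw [commutatorElement_eq_one_iff_mul_comm]
      exact ⟨fun e => ⟨x.2, mem_cent1.2 e.symm⟩, fun e => (mem_cent1.1 e.2).symm⟩
    have e2 : f.range ≤ Zc P := by rintro _ ⟨x, rfl⟩; exact hbP x x.2
    rw [relIndex, ← e1, index_ker]
    exact (card_dvd_of_le e2).trans hC.dvd
  have h8 : Nat.card A = 2 ^ 3 := by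
    refine P4.eq_of_dvd_of_not_dvd (h.card_cent_dvd hbC) fun h3 => ?_
    have h4 := card_mul_relIndex hAP
    have h5 := Nat.le_of_dvd (by norm_num) (mul_dvd_mul h3 hi)
    rw [h4, h.card] at h5
    omega
  have hi4 : (Zc P).relIndex A = 2 ^ 2 := P4.relIndex_eq_of_card hCA hC h8
  have hB : Zc P < Zc P ⊔ zpowers b := lt_of_le_of_ne le_sup_left fun e =>
    hbC (by have : b ∈ Zc P := e ▸ mem_sup_right (mem_zpowers b); exact this.2)
  have hBA : Zc P ⊔ zpowers b ≤ A := sup_le hCA (zpowers_le.2 hbA)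
  have hab : A ≤ 𝐂(A) := by
    refine comm_iff_le_cent.1 (P4.comm_of_relIndex_dvd (p := 2) (Z := Zc P ⊔ zpowers b)
      (le_inf hBA (sup_le (inf_le_right.trans (centralizer_anti hAP))
        (zpowers_le.2 (le_cent1_iff.1 inf_le_right)))) ?_)
    have h3 := mul_card_le_of_lt (h.two.to_le (hBA.trans hAP)) hB
    have h4 := card_mul_relIndex hBA
    obtain ⟨k, hk⟩ := (h.two.to_le hAP).exists_relIndex_eq_pow (Zc P ⊔ zpowers b)
    rw [hk] at h4 ⊢
    rw [hC] at h3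
    rw [h8] at h4
    have h5 : 2 ^ k ≤ 2 ^ 1 := by nlinarith
    exact pow_dvd_pow 2 ((Nat.pow_le_pow_iff_right (by norm_num)).1 h5)
  obtain ⟨r, hr, hr1, hrK⟩ := h.rad A hAP h8 hab
  have hrC := h.rad_mem hAP h8 hab hr hrK
  have hzr : zpowers r = Zc P := (eq_bot_or_eq_of_card_prime (hC ▸ Nat.prime_two)
    (zpowers_le.2 hrC)).resolve_left (by simpa using hr1)
  have hr2 : r * r = 1 := by
    have := pow_card_eq_one' (x := (⟨r, hrC⟩ : Zc P))
    rw [hC, pow_one, _root_.sq] at this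
    exact congrArg Subtype.val this
  have hcyc : ∀ a ∈ A, Zc P ⊔ zpowers a ≠ A := fun a ha e => by
    have h3 : ∀ c ∈ A, a ∈ K c → A ≤ K c := fun c hc h4 =>
      e.ge.trans (sup_le (hzr.ge.trans (zpowers_le.2 (h.symm _ _ (hrK hc)))) (zpowers_le.2 h4))
    exact hbC (by rw [h.ct b hb (h3 b hbA (h.symm _ _ (h3 a ha (h.self a) hbA)))]; exact one_mem _)
  have hsq : ∀ a ∈ A, a * a ∈ Zc P := fun a ha => by_contra fun h3 => hcyc a ha
    (sup_eq_of_sq_notMem hCA (hAP.trans (le_normalizer.trans (norm_le_norm_Zc P))) hi4 ha h3)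
  obtain ⟨y, hy, hyA⟩ : ∃ y ∈ P, y ∉ A := by
    by_contra h3
    push Not at h3
    exact hbC (le_cent1_iff.1 fun v hv => (h3 v hv).2)
  have hPy := P4.sup_zpowers_eq_of_relIndex hAP hi hy hyA
  have hfix : ∀ a ∈ A, y * a = a * y → a ∈ Zc P := fun a ha e => ⟨hAP ha, le_cent1_iff.1
    (hPy.ge.trans (sup_le (le_cent1_iff.2 (hab ha)) (zpowers_le.2 (mem_cent1.2 e))))⟩
  have hi2 : A.relIndex P = 2 := ((Nat.dvd_prime Nat.prime_two).1 hi).resolve_left fun e =>
    hyA (relIndex_eq_one.1 e hy)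
  have hyn : y ∈ 𝐍(A) := le_normalizer_of_relIndex_eq h.two hAP hi2 hy
  have hyy : y * y ∈ Zc P := hfix _ (by
    have := (A.subgroupOf P).mul_self_mem_of_index_two hi2 ⟨y, hy⟩
    exact this) (by group)
  have hd : ∀ a ∈ A, a ∉ Zc P → a * y * a⁻¹ = r * y := fun a ha haC => by
    have h3 : y * a * y⁻¹ ∈ A := conj_mem_of_mem_normalizer hyn ha
    have h4 : a * (y * a * y⁻¹)⁻¹ ∈ Zc P := hfix _ (mul_mem ha (inv_mem h3)) (by
      have e1 := hyy.2 a (hAP ha)
      have e2 := (hsq a ha).2 y hy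
      have e3 := hab h3 a ha
      have e4 : y * y * a⁻¹ * (y * y)⁻¹ = a⁻¹ := by
        rw [mul_inv_eq_iff_eq_mul, mul_inv_eq_iff_eq_mul, mul_assoc, ← e1, inv_mul_cancel_left]
      have e5 : y * a * y⁻¹ * a⁻¹ = a⁻¹ * (y * a * y⁻¹) := by
        rw [mul_inv_eq_iff_eq_mul, mul_assoc a⁻¹, ← e3, inv_mul_cancel_left]
      calc y * (a * (y * a * y⁻¹)⁻¹) = (y * a * y⁻¹) * ((y * y) * a⁻¹ * (y * y)⁻¹) * y := by group
        _ = a⁻¹ * (y * (a * a) * y⁻¹) * (y * a * y⁻¹)⁻¹ * y := by rw [e4, e5]; group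
        _ = _ := by rw [e2]; group)
    rcases eq_or_of_mem_zpowers hr2 (hzr ▸ h4) with e | e
    · exact absurd (hfix a ha (mul_inv_eq_iff_eq_mul.1 (mul_inv_eq_one.1 e).symm)) haC
    · rw [← e]; group
  obtain ⟨a, ha, haB⟩ := SetLike.exists_of_lt (lt_of_le_of_ne hBA (hcyc b hbA))
  have e1 := hd a ha fun h3 => haB (mem_sup_left h3)
  rw [← hd b hbA fun h3 => hbC h3.2] at e1
  have h3 := hfix _ (mul_mem (inv_mem hbA) ha) (by
    calc y * (b⁻¹ * a) = b⁻¹ * (b * y * b⁻¹) * a := by group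
      _ = _ := by rw [← e1]; group)
  exact haB (by
    have := mul_mem (mem_sup_right (mem_zpowers b)) (mem_sup_left h3 : _ ∈ Zc P ⊔ zpowers b)
    rwa [mul_inv_cancel_left] at this)

theorem relIndex_Zc : (Zc P).relIndex P = 2 ^ 2 :=
  P4.relIndex_eq_of_card inf_le_left h.card_Zc h.card

theorem sq_mem {v : G} (hv : v ∈ P) : v * v ∈ Zc P := by_contra fun h1 => by
  have := isMulCommutative_Zc P
  have h2 := isMulCommutative_sup_zpowers (A := Zc P) (x := v) fun y hy => (hy.2 v hv).symm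
  rw [sup_eq_of_sq_notMem inf_le_left (le_normalizer.trans (norm_le_norm_Zc P))
    h.relIndex_Zc hv h1] at h2
  exact h.na h2

theorem der_le : ⁅P, P⁆ ≤ Zc P :=
  P4.der_le_of_relIndex_dvd_sq (p := 2) (le_normalizer.trans (norm_le_norm_Zc P)) h.relIndex_Zc.dvd

theorem sq_eq_one {z : G} (hz : z ∈ Zc P) : z * z = 1 := by_contra fun h1 => by
  have h2 := sup_eq_of_sq_notMem (C := ⊥) (A := Zc P) bot_le (by rw [normalizer_eq_top]; exact le_top)
    (by rw [relIndex_bot_left, h.card_Zc]; rfl) hz h1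
  rw [bot_sup_eq] at h2
  exact h1 (h.ct _ (mul_mem hz hz).1 fun y hy => h.sq z y (hz.2 y hy.1).symm
    (zpowers_le.2 (h.self z) (h2 ▸ h.sq_mem hy.1)))

theorem cent_data {t : G} (ht : t ∈ P) (htC : t ∉ 𝐂(P)) :
    P ⊓ 𝐂[t] = Zc P ⊔ zpowers t ∧ Nat.card ↥(P ⊓ 𝐂[t]) = 2 ^ 3 ∧ P ⊓ 𝐂[t] ≤ 𝐂(P ⊓ 𝐂[t]) := by
  have h1 : Zc P < Zc P ⊔ zpowers t := lt_of_le_of_ne le_sup_left fun e =>
    htC (by have : t ∈ Zc P := e ▸ mem_sup_right (mem_zpowers t); exact this.2)
  have h2 : Zc P ⊔ zpowers t ≤ P ⊓ 𝐂[t] :=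
    sup_le (inf_le_inf_left _ (cent_le_cent1 ht)) (zpowers_le.2 ⟨ht, mem_cent1.2 rfl⟩)
  have h3 := mul_card_le_of_lt (h.two.to_le (h2.trans inf_le_left)) h1
  rw [h.card_Zc] at h3
  have h4 := Nat.le_of_dvd (by norm_num) (h.card_cent_dvd htC)
  have h5 := eq_of_le_of_card_ge h2 (h4.trans h3)
  have := isMulCommutative_Zc P
  have h6 := isMulCommutative_sup_zpowers (A := Zc P) (x := t) fun y hy => (hy.2 t ht).symm
  refine ⟨h5.symm, le_antisymm h4 (h5 ▸ h3), ?_⟩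
  rw [← h5]; exact comm_iff_le_cent.1 h6

theorem exists_der : ∃ z0 z1 : G, z0 ≠ 1 ∧ z0 ∈ ⁅P, P⁆ ∧ (∀ w ∈ ⁅P, P⁆, w = 1 ∨ w = z0) ∧
    z1 ∈ Zc P ∧ z1 ≠ 1 ∧ z1 ≠ z0 ∧ ∀ z ∈ Zc P, z = 1 ∨ z = z0 ∨ z = z1 ∨ z = z0 * z1 := by
  obtain ⟨x, hx, hxC⟩ := SetLike.not_le_iff_exists.1 fun e => h.na (comm_iff_le_cent.2 e)
  obtain ⟨y, hy, hyx⟩ := SetLike.not_le_iff_exists.1 fun e => hxC (le_cent1_iff.1 e)
  obtain ⟨h1, h2, -⟩ := h.cent_data hx hxC
  have h3 := P4.sup_zpowers_eq_of_relIndex (p := 2) inf_le_left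
    ((P4.relIndex_eq_of_card (m := 1) inf_le_left h2 h.card).trans (pow_one 2)).dvd hy
    fun e => hyx e.2
  rw [h1] at h3
  have h4 := der_le_zpowers (h.der_le.trans inf_le_right) hx hy h3.ge
  have h5 := commutator_mem_commutator hx hy
  have h6 : ⁅x, y⁆ ≠ 1 := fun e =>
    hyx (mem_cent1.2 (commutatorElement_eq_one_iff_mul_comm.1 e).symm)
  have h7 := h.sq_eq_one (h.der_le h5)
  have h8 : Nat.card (zpowers ⁅x, y⁆) = 2 ^ 1 :=
    card_zpowers_of_pow_eq_one (p := 2) (by rw [_root_.sq, h7]) h6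
  have h9 : zpowers ⁅x, y⁆ ≤ Zc P := zpowers_le.2 (h.der_le h5)
  have h10 := (P4.relIndex_eq_of_card (m := 1) h9 h8 h.card_Zc).trans (pow_one 2)
  obtain ⟨z1, hz1, hz1'⟩ := SetLike.not_le_iff_exists.1 fun e : Zc P ≤ zpowers ⁅x, y⁆ => by
    rw [relIndex_eq_one.2 e] at h10; exact absurd h10 (by norm_num)
  have h11 := P4.sup_zpowers_eq_of_relIndex h9 h10.dvd hz1 hz1'
  refine ⟨⁅x, y⁆, z1, h6, h5, fun w hw => eq_or_of_mem_zpowers h7 (h4 hw), hz1,
    fun e => hz1' (e ▸ one_mem _), fun e => hz1' (e ▸ mem_zpowers _), fun z hz => ?_⟩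
  rw [← h11] at hz
  obtain ⟨a, ha, b, hb, rfl⟩ := (mem_sup_of_le_normalizer_left (le_normalizer_of_le_centralizer
    (zpowers_le.2 (centralizer_anti (h9.trans inf_le_left) hz1.2)))).1 hz
  rcases eq_or_of_mem_zpowers h7 ha with rfl | rfl <;>
    rcases eq_or_of_mem_zpowers (h.sq_eq_one hz1) hb with rfl | rfl <;> simp

theorem false_of_simple [IsSimpleGroup G] (hP : IsSylowIn 2 P ⊤) : False := by
  obtain ⟨z0, z1, h01, h0, hder, hz1, h11, h10, hC⟩ := h.exists_der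
  have hz0 := h.der_le h0
  have h00 := h.sq_eq_one hz0
  have hGna : ¬ IsMulCommutative G := fun e => h.na inferInstance
  have hperf : commutator G = ⊤ := (inferInstance : (commutator G).Normal).eq_bot_or_eq_top.resolve_left
    fun e => hGna ⟨⟨fun a b => commutatorElement_eq_one_iff_mul_comm.1
      (mem_bot.1 (e ▸ commutator_mem_commutator (mem_top a) (mem_top b)))⟩⟩
  have hO : pPrimeCore 2 G = ⊥ := (inferInstance : (pPrimeCore 2 G).Normal).eq_bot_or_eq_top.resolve_right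
    fun e => not_dvd_card_pPrimeCore 2 G (by
      rw [e]; exact (h.card ▸ dvd_pow_self 2 (by norm_num) : 2 ∣ Nat.card P).trans (card_dvd_of_le le_top))
  have hn0 : 𝐍(P) ≤ 𝐂[z0] := fun n hn => by
    rcases hder _ (conj_mem_of_mem_normalizer (norm_le_norm_der P hn) h0) with e | e
    · exact absurd (by simpa using e) h01
    · exact mem_cent1.2 (mul_inv_eq_iff_eq_mul.1 e)
  have hn1 : 𝐍(P) ≤ 𝐂[z1] := le_of_forall_isPElt_mem fun q hq n hn hnq => by
    by_cases h2 : q = 2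
    · subst h2
      exact mem_cent1.2 (hz1.2 n (hP.mem_of_mem_normalizer hnq trivial hn))
    refine mem_cent1.2 (mul_inv_eq_iff_eq_mul.1 (E8.conj_eq_of_small hnq (X := {z1, z0 * z1})
      ?_ ?_ (Set.mem_insert _ _)))
    · have e0 : n * z0 * n⁻¹ = z0 := mul_inv_eq_iff_eq_mul.2 (mem_cent1.1 (hn0 hn))
      have e1 : n * z1 * n⁻¹ = z1 ∨ n * z1 * n⁻¹ = z0 * z1 := by
        rcases hC _ (conj_mem_of_mem_normalizer (norm_le_norm_Zc P hn) hz1) with e | e | e
        · exact absurd (by simpa using e) h11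
        · rw [← e0] at e; exact absurd (by simpa using e) h10
        · exact e
      rintro x (rfl | rfl)
      · exact e1
      · rw [show n * (z0 * z1) * n⁻¹ = n * z0 * n⁻¹ * (n * z1 * n⁻¹) by group, e0]
        rcases e1 with e | e <;> rw [e]
        · exact Or.inr rfl
        · exact Or.inl (by rw [← mul_assoc, h00, one_mul])
    · exact lt_of_le_of_lt ((Set.ncard_insert_le _ _).trans (by rw [Set.ncard_singleton])) (lt_of_le_of_ne hq.out.two_le (Ne.symm h2))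
  have nofus : ∀ z ∈ Zc P, ∀ g : G, g * z * g⁻¹ ∈ Zc P → g * z * g⁻¹ = z := fun z hz g hg => by
    obtain ⟨n, hn, e⟩ := exists_mem_normalizer_conj_eq_of_mem_centralizer hP.toSylowTop hz.2 hg.2
    rw [← e, mul_inv_eq_iff_eq_mul]
    rcases hC z hz with rfl | rfl | rfl | rfl
    · simp
    · exact mem_cent1.1 (hn0 hn)
    · exact mem_cent1.1 (hn1 hn)
    · rw [← mul_assoc, mem_cent1.1 (hn0 hn), mul_assoc, mem_cent1.1 (hn1 hn), mul_assoc]
  have hconj : ∀ t ∈ P, t ∉ 𝐂(P) → IsConj t (z0 * t) := fun t ht htC => by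
    obtain ⟨v, hv, hvt⟩ := SetLike.not_le_iff_exists.1 fun e => htC (le_cent1_iff.1 e)
    rcases hder _ (commutator_mem_commutator hv ht) with e | e
    · exact absurd (mem_cent1.2 (commutatorElement_eq_one_iff_mul_comm.1 e)) hvt
    · exact isConj_iff.2 ⟨v, by rw [← e, commutatorElement_def]; group⟩
  have key : ∀ z ∈ Zc P, z ≠ 1 → z ≠ z0 → (∀ r ∈ Zc P, r = 1 ∨ r = z0 ∨ r = z ∨ r = z0 * z) →
      ∃ a ∈ P, a ∉ 𝐂(P) ∧ a * a = 1 ∧ IsConj a z0 ∧ P ⊓ 𝐂[a] ≤ K (z0 * z) := by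
    intro z hz hz1 hz0' hcase
    have hzz := h.sq_eq_one hz
    obtain ⟨g, hg, hgz⟩ : ∃ g : G, Commute z (g * z * g⁻¹) ∧ g * z * g⁻¹ ≠ z := by
      by_contra h1
      push Not at h1
      have h2 : z ∈ center G := mem_center_iff.2 fun g => by
        have h3 := BT.zstar G (BT.isol_of_forall_commute hzz h1) g
        rw [hO, mem_bot] at h3
        calc g * z = z * z * (g * z * g⁻¹) * g := by rw [hzz]; group
          _ = _ := by rw [mul_assoc z z, h3, mul_one]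
      rcases (inferInstance : (center G).Normal).eq_bot_or_eq_top with e | e
      · exact hz1 (mem_bot.1 (e ▸ h2))
      · exact hGna ⟨⟨fun a b => mem_center_iff.1 (e ▸ mem_top b) a⟩⟩
    have hPz : IsSylowIn 2 P 𝐂[z] := hP.of_le (le_cent1_iff.2 hz.2) le_top
    have hze : IsPElt 2 z := isPElt_of_mem h.two hz.1
    obtain ⟨c, hc, ht⟩ := hPz.exists_conj_mem (hze.conj g) (mem_cent1.2 hg.eq.symm)
    set t := c * (g * z * g⁻¹) * c⁻¹ with htd
    have e1 : t = c * g * z * (c * g)⁻¹ := by rw [htd]; group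
    have htz : t ≠ z := fun e => hgz (by
      calc g * z * g⁻¹ = c⁻¹ * t * c := by rw [htd]; group
        _ = c⁻¹ * (z * c) := by rw [e, mul_assoc]
        _ = z := by rw [← mem_cent1.1 hc, inv_mul_cancel_left])
    have htC : t ∉ 𝐂(P) := fun e => htz (e1 ▸ nofus z hz _ (e1 ▸ ⟨ht, e⟩))
    obtain ⟨-, hA8, hAab⟩ := h.cent_data ht htC
    have h1 : MulAut.conj (c * g)⁻¹ • (P ⊓ 𝐂[t]) ≤ 𝐂[z] := by
      refine (conj_smul_mono _ inf_le_right).trans ?_
      rw [conj_smul_centralizer_singleton, e1]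
      exact le_of_eq (by congr 2; group)
    obtain ⟨c', hc', h2⟩ := hPz.exists_conj_le (isPGroup_conj_smul _ (h.two.to_le inf_le_left)) h1
    rw [conj_smul_conj_smul] at h2
    set k := c' * (c * g)⁻¹ with hk
    have e2 : k * t * k⁻¹ = z := by
      calc k * t * k⁻¹ = c' * z * c'⁻¹ := by rw [hk, e1]; group
        _ = z := by rw [mem_cent1.1 hc', mul_inv_cancel_right]
    obtain ⟨r, hr, hr1, hrK⟩ := h.rad _ inf_le_left hA8 hAab
    have hrC := h.rad_mem inf_le_left hA8 hAab hr hrK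
    have e3 : k * r * k⁻¹ = r := nofus r hrC k (h.rad_mem h2 (by rw [card_conj_smul, hA8])
      (by rw [← conj_smul_centralizer]; exact conj_smul_mono k hAab) (conj_mem_conj_smul.2 hr)
      fun y hy => by
        obtain ⟨w, hw, rfl⟩ := mem_conj_smul'.1 hy
        exact h.conj k r w (hrK hw))
    have e4 : r = z0 * z := by
      rcases hcase r hrC with e | e | e | e
      · exact absurd e hr1
      · obtain ⟨v, hv⟩ := isConj_iff.1 (hconj t ht htC)
        have e5 : k * v * k⁻¹ * z * (k * v * k⁻¹)⁻¹ = z0 * z := by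
          calc _ = k * (v * t * v⁻¹) * k⁻¹ := by rw [← e2]; group
            _ = k * z0 * k⁻¹ * (k * t * k⁻¹) := by rw [hv]; group
            _ = _ := by rw [e2, ← e, e3]
        have e6 := nofus z hz _ (e5 ▸ mul_mem hz0 hz)
        rw [e5] at e6
        exact absurd (mul_eq_right.1 e6) h01
      · rw [← e, ← e3] at e2
        have e5 : t = r := by simpa using e2
        exact absurd (e5 ▸ hrC.2) htC
      · exact e
    refine ⟨t * r, mul_mem ht hrC.1, fun e => htC ((𝐂(P).mul_mem_cancel_right hrC.2).1 e), ?_,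
      isConj_iff.2 ⟨k, ?_⟩, fun y hy => e4 ▸ hrK ⟨hy.1, mem_cent1.2 ?_⟩⟩
    · have e5 : t * t = 1 := by rw [e1, BT.conj_mul_self_of_sq hzz]
      calc t * r * (t * r) = t * (r * t) * r := by group
        _ = t * t * (r * r) := by rw [← hrC.2 t ht]; group
        _ = 1 := by rw [e5, h.sq_eq_one hrC, one_mul]
    · calc k * (t * r) * k⁻¹ = k * t * k⁻¹ * (k * r * k⁻¹) := by group
        _ = z0 := by rw [e2, e3, e4, ← mul_assoc, hz0.2 z hz.1, mul_assoc, hzz, mul_one]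
    · have e5 := mem_cent1.1 hy.2
      rw [← mul_assoc y t r, mul_assoc t r y, ← hrC.2 y hy.1, ← mul_assoc t y r] at e5
      exact mul_right_cancel e5
  have e01 : z0 * (z0 * z1) = z1 := by rw [← mul_assoc, h00, one_mul]
  obtain ⟨a, ha, haC, haa, haz, haK⟩ := key z1 hz1 h11 h10 hC
  obtain ⟨b, hb, hbC, hbb, hbz, hbK⟩ := key (z0 * z1) (mul_mem hz0 hz1)
    (fun e => h10 (by rw [← e01, e, mul_one])) (fun e => h11 (mul_eq_left.1 e))
    fun r hr => by rw [e01]; rcases hC r hr with e | e | e | e <;> simp [e]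
  rw [e01] at hbK
  have hab : ⁅a, b⁆ = z0 := by
    refine (hder _ (commutator_mem_commutator ha hb)).resolve_left fun e => haC ?_
    have h1 : z1 ∈ K a :=
      h.symm _ _ (hbK ⟨ha, mem_cent1.2 (commutatorElement_eq_one_iff_mul_comm.1 e)⟩)
    have h2 : z0 * z1 ∈ K a := h.symm _ _ (haK ⟨ha, mem_cent1.2 rfl⟩)
    rw [h.ct a ha ((h.cent_data ha haC).1.le.trans (sup_le (fun r hr => ?_)
      (zpowers_le.2 (h.self a))))]
    · exact one_mem _
    · rcases hC r hr with rfl | rfl | rfl | rfl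
      exacts [one_mem _, (mul_mem_cancel_right h1).1 h2, h1, h2]
  have habab : a * b * (a * b) = z0 := by
    rw [← hab, commutatorElement_def, inv_eq_of_mul_eq_one_right haa,
      inv_eq_of_mul_eq_one_right hbb]; group
  have hzz : zpowers z0 ≤ P := zpowers_le.2 hz0.1
  have hV : zpowers z0 ⊔ zpowers a ≤ P := sup_le hzz (zpowers_le.2 ha)
  have hD : zpowers z0 ⊔ zpowers a ⊔ zpowers b ≤ P := sup_le hV (zpowers_le.2 hb)
  have hPP : ⁅P, P⁆ ≤ zpowers z0 := fun w hw => by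
    rcases hder w hw with rfl | rfl
    exacts [one_mem _, mem_zpowers _]
  have hnorm : ∀ W, zpowers z0 ≤ W → W ≤ P → P ≤ 𝐍(W) := fun W h1 h2 =>
    le_normalizer_iff_commutator_le_left.2 ((commutator_mono h2 le_rfl).trans (hPP.trans h1))
  have hmemV : ∀ v ∈ zpowers z0 ⊔ zpowers a, v = 1 ∨ v = z0 ∨ v = a ∨ v = z0 * a := fun v hv => by
    obtain ⟨x, hx, y, hy, rfl⟩ := (mem_sup_of_le_normalizer_left
      ((zpowers_le.2 ha).trans (hnorm _ le_rfl hzz))).1 hv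
    rcases eq_or_of_mem_zpowers h00 hx with rfl | rfl <;>
      rcases eq_or_of_mem_zpowers haa hy with rfl | rfl <;> simp
  have hinv : ∀ w ∈ zpowers z0 ⊔ zpowers a ⊔ zpowers b, w * w = 1 → w = 1 ∨ IsConj w z0 := by
    intro w hw hww
    obtain ⟨x, hx, y, hy, rfl⟩ := (mem_sup_of_le_normalizer_left
      ((zpowers_le.2 hb).trans (hnorm _ le_sup_left hV))).1 hw
    rcases eq_or_of_mem_zpowers hbb hy with rfl | rfl
    · rw [mul_one]
      rcases hmemV x hx with rfl | rfl | rfl | rfl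
      exacts [Or.inl rfl, Or.inr (IsConj.refl _), Or.inr haz,
        Or.inr ((hconj a ha haC).symm.trans haz)]
    · rcases hmemV x hx with rfl | rfl | rfl | rfl
      · rw [one_mul]; exact Or.inr hbz
      · exact Or.inr ((hconj y hb hbC).symm.trans hbz)
      · exact absurd (habab.symm.trans hww) h01
      · refine absurd (habab.symm.trans ?_) h01
        rw [← hww, ← one_mul (a * y * (a * y)), ← h00]
        calc z0 * z0 * (a * y * (a * y)) = z0 * (z0 * (a * y)) * (a * y) := by group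
          _ = _ := by rw [← hz0.2 _ (mul_mem ha hb)]; group
  have hnc : ∀ g : G, g * z1 * g⁻¹ ∉ zpowers z0 ⊔ zpowers a ⊔ zpowers b := fun g hg => by
    rcases hinv _ hg (BT.conj_mul_self_of_sq (h.sq_eq_one hz1) g) with e | e
    · exact h11 (by simpa using e)
    · obtain ⟨u, hu⟩ := isConj_iff.1 e
      have e1 : u * g * z1 * (u * g)⁻¹ = z0 := by rw [← hu]; group
      exact h10 ((nofus z1 hz1 _ (e1 ▸ hz0)).symm.trans e1)
  have l1 : (⊥ : Subgroup G) < zpowers z0 := bot_lt_iff_ne_bot.2 (by simpa using h01)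
  have l2 : zpowers z0 < zpowers z0 ⊔ zpowers a := lt_of_le_of_ne le_sup_left fun e =>
    haC (zpowers_le.2 hz0.2 (e ▸ mem_sup_right (mem_zpowers a)))
  have l3 : zpowers z0 ⊔ zpowers a < zpowers z0 ⊔ zpowers a ⊔ zpowers b :=
    lt_of_le_of_ne le_sup_left fun e => h01 (by
      have h1 : zpowers z0 ⊔ zpowers a ≤ 𝐂[a] :=
        sup_le (zpowers_le.2 (cent_le_cent1 ha hz0.2)) (zpowers_le.2 (mem_cent1.2 rfl))
      rw [← hab, commutatorElement_eq_one_iff_mul_comm]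
      exact (mem_cent1.1 (h1 (e ▸ mem_sup_right (mem_zpowers b)))).symm)
  have l4 : zpowers z0 ⊔ zpowers a ⊔ zpowers b < P :=
    lt_of_le_of_ne hD fun e => hnc 1 (by rw [e]; simpa using hz1.1)
  have c1 := mul_card_le_of_lt (h.two.to_le hzz) l1
  have c2 := mul_card_le_of_lt (h.two.to_le hV) l2
  have c3 := mul_card_le_of_lt (h.two.to_le hD) l3
  have c4 := mul_card_le_of_lt h.two l4
  rw [card_bot] at c1
  rw [h.card] at c4
  have c5 : Nat.card ↥(zpowers z0 ⊔ zpowers a ⊔ zpowers b) = 2 ^ 3 := by omega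
  have c6 := (P4.relIndex_eq_of_card (m := 1) hD c5 h.card).trans (pow_one 2)
  obtain ⟨g, hg⟩ := E8.exists_conj_mem_of_index (m := P.index)
    (Nat.odd_iff.2 (Nat.two_dvd_ne_zero.1 (isSylowIn_top_iff'.1 hP).2))
    (by rw [← relIndex_mul_index hD, c6]) (h.sq_eq_one hz1) (hperf ▸ mem_top z1)
  exact hnc g hg

end Six

end Sixteen

theorem false_of_sixteen {H : Type*} [Group H] [Finite H] {Z S : Subgroup H} [Z.Normal]
    (hZ : Z ≤ center H) [IsCyclic Z] [IsSimpleGroup (H ⧸ Z)]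
    (hS : IsSylowIn 2 S ⊤) (hct : CTy Z (S ⊔ Z)) (h16 : Z.relIndex S = 16) (hna : ¬ ⁅S, S⁆ ≤ Z) :
    False := by
  set π := QuotientGroup.mk' Z with hπ
  have hK : ∀ x y : H, π y ∈ 𝐂[(π x).out].map π ↔ ⁅x, y⁆ = 1 := fun x y => by
    obtain ⟨z, hz⟩ := QuotientGroup.mk_out_eq_mul Z x
    have e : 𝐂[(π x).out] = 𝐂[x] := by
      ext w
      rw [mem_cent1, mem_cent1, ← commutatorElement_eq_one_iff_mul_comm,
        ← commutatorElement_eq_one_iff_mul_comm, ← commutatorElement_inv, inv_eq_one,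
        ← commutatorElement_inv x, inv_eq_one]
      change ⁅(x : H ⧸ Z).out, w⁆ = 1 ↔ _
      rw [hz, comm_mul_central hZ _ _ z.2]
    rw [e, ← mem_comap, comap_map_eq, QuotientGroup.ker_mk',
      sup_eq_left.2 (hZ.trans (center_le_centralizer _)), mem_cent1,
      commutatorElement_eq_one_iff_mul_comm, eq_comm]
  have hs := QuotientGroup.mk'_surjective Z
  refine Six.false_of_simple (K := fun x => 𝐂[x.out].map π)
    ⟨by rw [card_map_mk, h16]; rfl, fun h => hna (map_le_cent_iff.1 (comm_iff_le_cent.1 h)),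
      fun x y => ?_, fun x => ?_, fun g x y => ?_, fun x y => ?_, ?_, fun A hA h8 hab => ?_⟩
    (hS.map_top_of_surjective hs)
  · obtain ⟨x, rfl⟩ := hs x
    obtain ⟨y, rfl⟩ := hs y
    rw [hK, hK, ← commutatorElement_inv x, inv_eq_one]; exact id
  · obtain ⟨x, rfl⟩ := hs x
    rw [hK, commutatorElement_self]
  · obtain ⟨x, rfl⟩ := hs x
    obtain ⟨y, rfl⟩ := hs y
    obtain ⟨g, rfl⟩ := hs g
    rw [← map_inv, ← map_mul, ← map_mul, ← map_mul, ← map_mul, hK, hK,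
      ← conjugate_commutatorElement]
    intro e; rw [e]; group
  · obtain ⟨x, rfl⟩ := hs x
    obtain ⟨y, rfl⟩ := hs y
    intro e
    have h1 : ⁅x, y⁆ ∈ Z := comm_mem_iff.2 (mem_cent1.2 e)
    rw [← map_mul, ← map_mul, hK, hK, comm_mul_right hZ x h1, comm_mul_left hZ y h1]; exact id
  · rintro _ ⟨x, hx, rfl⟩ h
    refine (QuotientGroup.eq_one_iff x).2 (hct x (mem_sup_left hx) fun y hy hxy => (hK x y).1 (h ⟨?_,
      mem_cent1_comm.1 (comm_mem_iff.1 hxy)⟩))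
    have := mem_map_of_mem π hy
    rwa [Subgroup.map_sup, QuotientGroup.map_mk'_self, sup_bot_eq] at this
  · have hZA : Z ≤ A.comap π := (QuotientGroup.ker_mk' Z).ge.trans (ker_le_comap _ _)
    have h1 : ¬ CTy Z (A.comap π) := fun hc => by
      obtain ⟨lam, hf⟩ := exists_faithful hZ
      obtain ⟨χ⟩ : Nonempty (Over hZA lam) := inferInstance
      have h2 := hc.sq_eq hZ hf χ
      rw [← card_map_mk, map_comap_eq_self_of_surjective hs, h8] at h2
      have h3 : charDegree χ.1.1 ≤ 2 := by nlinarith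
      interval_cases charDegree χ.1.1 <;> omega
    simp only [CTy, not_forall] at h1
    obtain ⟨r, hr, hg, hrZ⟩ := h1
    refine ⟨π r, hr, fun e => hrZ ((QuotientGroup.eq_one_iff r).1 e), fun y hy => ?_⟩
    obtain ⟨y, rfl⟩ := hs y
    exact (hK r y).2 (hg y hy (comm_mem_iff.2 (mem_cent1.2 (hab hy _ hr))))

end GAG
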