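import Cfsg.Agent.Lib.Gag.D8B

/-!
# The dihedral case over a central subgroup of odd order
-/

set_option autoImplicit false
set_option linter.unusedSectionVars false
set_option linter.style.haveILetI false

namespace GAG.E8
open Cfsg CT GT FT Subgroup
open scoped Pointwise commutatorElement ComplexConjugate

variable {G : Type*} [Group G] [Finite G]

open Classical in
theorem sum_sub [Fintype G] (U : Subgroup G) [Fintype U] (φ : G → ℂ) :
    ∑ y : U, φ y = ∑ y, if y ∈ U then φ y else 0 := by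
  rw [← Finset.sum_filter]
  exact (Finset.sum_subtype _ (by simp) φ).symm

open Classical in
theorem sum_ite_mem' [Fintype G] (U : Subgroup G) (c : ℂ) :
    ∑ y : G, (if y ∈ U then c else 0) = Nat.card U * c := by
  haveI := Fintype.ofFinite U
  rw [← sum_sub U fun _ => c, Finset.sum_const, Finset.card_univ, ← Nat.card_eq_fintype_card,
    nsmul_eq_mul]

open Classical in
/-- the weight of a good element -/
noncomputable def wt (Z : Subgroup G) (x : G) : ℂ := if Good Z ⊤ x then Nat.card 𝐂[x] else 0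

variable {Z T K O U : Subgroup G} {u : G}

theorem wt_class (hZ : Z ≤ center G) : IsClassFunction G (wt Z) := fun x g => by
  unfold wt
  rw [good_conj_iff hZ (le_normalizer (mem_top g)), ← conj_smul_centralizer_singleton, card_conj_smul]

open Classical in
theorem card_over' (hZ : Z ≤ center G) (h : Z ≤ U) {lam : IrrCharacter Z}
    (hf : ∀ z : Z, lam.1 z = 1 → z = 1) [Fintype G] :
    (Nat.card (Over h lam) : ℂ) * Nat.card U * Nat.card Z =
      ∑ x, if x ∈ U then (if Good Z U x then (Nat.card ↥(U ⊓ 𝐂[x]) : ℂ) else 0) else 0 := by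
  haveI := Fintype.ofFinite U
  rw [← sum_sub U fun x => if Good Z U x then (Nat.card ↥(U ⊓ 𝐂[x]) : ℂ) else 0]
  exact_mod_cast card_over hZ h hf

open Classical in
theorem sum_wt_section (hZ : Z ≤ center G) (ho : ¬ 2 ∣ Nat.card Z) [Fintype G] {v : G}
    (hv : IsPElt 2 v) :
    (Nat.card 𝐂[v] : ℂ) * ∑ x, (if IsConj v (pPart 2 x) then wt Z x else 0) =
      Nat.card G * ∑ y, if y ∈ 𝐂[v] ∧ IsPRegular 2 y ∧ Good Z 𝐂[v] y then
        (Nat.card ↥(𝐂[v] ⊓ 𝐂[y]) : ℂ) else 0 := by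
  haveI := Fintype.ofFinite 𝐂[v]
  rw [sum_section hv (wt_class hZ)]
  simp_rw [← isPRegular_coe (K := 𝐂[v])]
  rw [sum_sub 𝐂[v] fun y => if IsPRegular 2 y then wt Z (v * y) else 0]
  congr 1
  refine Finset.sum_congr rfl fun y _ => ?_
  by_cases h1 : y ∈ 𝐂[v]
  · by_cases h2 : IsPRegular 2 y
    · have hc : Commute v y := (mem_centralizer_singleton_iff.1 h1).symm
      simp only [h1, h2, if_true, true_and, wt, good_part_iff hZ ho hc hv h2,
        centralizer_part hc hv h2]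
    · simp [h2]
  · simp [h1]

theorem le_centralizer_of_mem (hZ : Z ≤ center G) {z : G} (hz : z ∈ Z) : U ≤ 𝐂[z] :=
  fun y _ => mem_centralizer_singleton_iff.2 (mem_center_iff.1 (hZ hz) y)

theorem le_centralizer' (hZ : Z ≤ center G) (v : G) : Z ≤ 𝐂[v] :=
  fun _ hz => mem_centralizer_singleton_iff.2 (mem_center_iff.1 (hZ hz) v).symm

open Classical in
theorem sum_wt_triv (hZ : Z ≤ center G) (ho : ¬ 2 ∣ Nat.card Z) [Fintype G] {v : G}
    (hv : IsPElt 2 v) (h : ∀ y ∈ 𝐂[v], IsPRegular 2 y → Good Z 𝐂[v] y → y ∈ Z) :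
    ∑ x, (if IsConj v (pPart 2 x) then wt Z x else 0) = Nat.card G * Nat.card Z := by
  refine mul_left_cancel₀ (card_cast_ne_zero (G := 𝐂[v])) ?_
  rw [sum_wt_section hZ ho hv, mul_left_comm, mul_comm (Nat.card 𝐂[v] : ℂ), ← sum_ite_mem']
  congr 1
  refine Finset.sum_congr rfl fun y _ => ?_
  by_cases h1 : y ∈ Z
  · rw [if_pos h1, if_pos ⟨le_centralizer' hZ v h1, isPRegular_of_mem ho h1, good_of_mem hZ h1⟩,
      inf_of_le_left (le_centralizer_of_mem hZ h1)]
  · rw [if_neg h1, if_neg fun h2 => h1 (h y h2.1 h2.2.1 h2.2.2)]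

/-- the configuration obtained after factoring out the `2`-part of the centre -/
structure D8 (Z T K : Subgroup G) (u : G) : Prop extends Oct T u where
  hZ : Z ≤ center G
  odd : ¬ 2 ∣ Nat.card Z
  perf : commutator G ⊔ Z = ⊤
  idx : K.relIndex 𝐂[u * u] = 2
  sq : ∀ x, x * x = u * u → x ∈ K
  h1 : ∀ y, IsPRegular 2 y → Good Z ⊤ y → y ∈ Z
  hu : ∀ y ∈ 𝐂[u], IsPRegular 2 y → Good Z 𝐂[u] y → y ∈ Z
  ht : ∀ y ∈ 𝐂[u * u], IsPRegular 2 y → Good Z 𝐂[u * u] y → ¬ 𝐂[u * u] ⊓ 𝐂[y] ≤ K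

namespace D8
variable (h : D8 Z T K u)
include h

theorem le_K : zpowers u ≤ K := zpowers_le.2 (h.sq u rfl)

theorem not_mem_K {x : G} (hx : x ∈ T) (hn : x ∉ zpowers u) : x ∉ K := fun hK => by
  have h1 : T ≤ K := fun y hy => by
    by_cases h2 : y ∈ zpowers u
    · exact h.le_K h2
    · exact (mul_mem_cancel_left hK).1 (h.le_K ((mul_mem_of_relIndex_two h.relIndex_S hx hy).2
        (by tauto)))
  have h2 := relIndex_eq_one.2 (le_of_relIndex_two h.idx le_rfl h.syl_C h1)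
  have := h.idx
  omega

theorem dih (x : G) (hx : x ∈ T) (hn : x ∉ zpowers u) : x * x = 1 :=
  (h.sq_cases hx hn).resolve_right fun e => h.not_mem_K hx hn (h.sq x e)

theorem isConj_t {a : G} (ha : a * a = 1) (h1 : a ≠ 1) : IsConj (u * u) a := by
  have h2 : (commutator G).index ∣ Nat.card Z := by
    rw [← relIndex_top_right, ← h.perf, relIndex_sup_left]
    exact relIndex_dvd_card _ _
  have h3 : a ∈ commutator G :=
    (isPElt_of_pow_eq_one (p := 2) (k := 1) (by simpa [pow_two] using ha)).mem_of_coprime_index _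
      ((Nat.Prime.coprime_iff_not_dvd Nat.prime_two).2 fun hd => h.odd (hd.trans h2))
  obtain ⟨g, hg⟩ := exists_conj_mem_of_index (R := zpowers u) (m := T.index)
    (Nat.not_even_iff_odd.1 fun e => (isSylowIn_top_iff'.1 h.syl).2 e.two_dvd)
    (by rw [← relIndex_mul_index h.le, h.relIndex_S]) ha h3
  rcases h.cases_of_sq' hg (by
    rw [show g * a * g⁻¹ * (g * a * g⁻¹) = g * (a * a) * g⁻¹ by group, ha]
    group) with e | e
  · exact absurd (conj_eq_one_iff.1 e) h1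
  · exact (isConj_iff.2 ⟨g, e⟩).symm

theorem classes {x : G} (hx : IsPElt 2 x) : IsConj 1 x ∨ IsConj (u * u) x ∨ IsConj u x := by
  obtain ⟨g, -, hg⟩ := h.syl.exists_conj_mem hx trivial
  have h1 : IsConj (g * x * g⁻¹) x := (isConj_iff.2 ⟨g, rfl⟩).symm
  generalize g * x * g⁻¹ = y at hg h1
  by_cases h2 : y ∈ zpowers u
  · rcases h.cases h2 with rfl | rfl | rfl | rfl
    exacts [Or.inl h1, Or.inr (Or.inr h1), Or.inr (Or.inl h1),
      Or.inr (Or.inr (h.isConj_inv.trans h1))]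
  · exact Or.inr (Or.inl ((h.isConj_t (h.dih y hg h2) fun e => h2 (e ▸ one_mem _)).trans h1))

theorem npc : HasNormalPComplement 2 𝐂[u * u] := by
  have h1 : zpowers u ≤ K ⊓ 𝐂[u * u] := le_inf h.le_K (h.le.trans h.le_C)
  have h2 : (K ⊓ 𝐂[u * u]).relIndex 𝐂[u * u] = 2 := by rw [inf_relIndex_right, h.idx]
  have h3 : IsSylowIn 2 (zpowers u) (K ⊓ 𝐂[u * u]) := by
    refine ⟨h1, (h.isPElt h.mem).isPGroup_zpowers, fun hd => h.syl_C.not_dvd ?_⟩
    have e1 := relIndex_mul_relIndex _ _ _ h1 (inf_le_right : K ⊓ 𝐂[u * u] ≤ _)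
    have e2 := relIndex_mul_relIndex _ _ _ h.le h.le_C
    rw [h2] at e1
    rw [h.relIndex_S] at e2
    omega
  haveI : IsCyclic (h3.toSylow : Subgroup ↥(K ⊓ 𝐂[u * u])) :=
    isCyclic_of_surjective _ (subgroupOfEquivOfLe h1).symm.surjective
  haveI := normal_of_index_eq_two (H := (K ⊓ 𝐂[u * u]).subgroupOf 𝐂[u * u]) h2
  exact hasNormalPComplement_of_index_eq_pow ((K ⊓ 𝐂[u * u]).subgroupOf 𝐂[u * u]) (k := 1) h2
    (hasNormalPComplement_of_mulEquiv (hasNormalPComplement_two_of_isCyclic h3.toSylow)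
      (subgroupOfEquivOfLe inf_le_right).symm)

theorem card_syl {y : G} (hy : y ∈ 𝐂[u * u]) (hr : IsPRegular 2 y) (hg : Good Z 𝐂[u * u] y)
    (hn : y ∉ Z) {R : Subgroup G} (hR : IsSylowIn 2 R (𝐂[u * u] ⊓ 𝐂[y])) : Nat.card R = 4 := by
  obtain ⟨c, hc, hle⟩ := h.syl_C.exists_conj_le hR.isPGroup (hR.le.trans inf_le_left)
  have h1 := hR.conj c
  rw [smul_inf, conj_smul_centralizer_singleton, conj_smul_centralizer_singleton,
    mem_centralizer_singleton_iff.1 hc, mul_inv_cancel_right] at h1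
  rw [← card_conj_smul c]
  have hy' : c * y * c⁻¹ ∈ 𝐂[u * u] := mul_mem (mul_mem hc hy) (inv_mem hc)
  have hr' := hr.conj c
  have hg' := hg.conj h.hZ (le_normalizer hc)
  have hn' : c * y * c⁻¹ ∉ Z := fun e => hn ((conj_mem_iff h.hZ c).1 e)
  generalize c * y * c⁻¹ = w at *
  generalize MulAut.conj c • R = S at *
  have h2 : ¬ S ≤ K := fun e => h.ht w hy' hr' hg' (le_of_relIndex_two h.idx inf_le_left h1 e)
  have h3 : u ∉ S := fun e => hn' (h.hu w (mem_centralizer_singleton_iff.2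
    (mem_centralizer_singleton_iff.1 (h1.le e).2).symm) hr' (hg'.mono h.C_le))
  have h4 : u * u ∈ S := h1.mem_of_mem_normalizer (h.isPElt h.t_mem)
    ⟨mem_centralizer_singleton_iff.2 rfl,
      mem_centralizer_singleton_iff.2 (mem_centralizer_singleton_iff.1 hy').symm⟩
    (mem_normalizer_of_conj_mem fun x hx => by
      rw [← mem_centralizer_singleton_iff.1 (h1.le hx).1, mul_inv_cancel_right]; exact hx)
  have h5 : Nat.card S ∣ 8 := h.card ▸ card_dvd_of_le hle
  have h6 : Nat.card S ≠ 8 := fun e =>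
    h3 ((eq_of_le_of_card_ge hle (by rw [e, h.card])).symm ▸ h.mem)
  have h7 : 2 ∣ Nat.card S := by
    rw [← h.ord_t, ← Nat.card_zpowers]; exact card_dvd_of_le (zpowers_le.2 h4)
  have h8 : Nat.card S ≠ 2 := fun e => h2 (by
    rw [← eq_of_le_of_card_ge (zpowers_le.2 h4) (by rw [e, Nat.card_zpowers, h.ord_t])]
    exact zpowers_le.2 (mul_mem (h.sq u rfl) (h.sq u rfl)))
  have h9 := Nat.le_of_dvd (by omega) h5
  generalize Nat.card S = n at *
  interval_cases n <;> omega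

variable (hO : ∀ y, y ∈ O ↔ y ∈ 𝐂[u * u] ∧ IsPRegular 2 y)
include hO

theorem Z_le : Z ≤ O := fun _ hz =>
  (hO _).2 ⟨le_centralizer' h.hZ _ hz, isPRegular_of_mem h.odd hz⟩

theorem O_le : O ≤ 𝐂[u * u] := fun _ hy => ((hO _).1 hy).1

theorem odd_O : ¬ 2 ∣ Nat.card O := not_dvd_card_iff_forall_isPRegular.2 fun y hy => ((hO y).1 hy).2

theorem card_C : Nat.card 𝐂[u * u] = 8 * Nat.card O := by
  rw [card_eq_of_reg (O := O) (fun y hy => by simp [hO, hy]) h.syl_C, h.card,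
    inf_of_le_left (h.O_le hO)]

theorem good_C {y : G} (hy : y ∈ O) (hg : Good Z O y) : Good Z 𝐂[u * u] y :=
  good_of_reg h.hZ (fun y h1 h2 => (hO y).2 ⟨h1, h2⟩) ((hO y).1 hy).2 hg

theorem card_inf {y : G} (hy : y ∈ O) (hg : Good Z O y) (hn : y ∉ Z) :
    Nat.card ↥(𝐂[u * u] ⊓ 𝐂[y]) = 4 * Nat.card ↥(O ⊓ 𝐂[y]) := by
  obtain ⟨R, hR⟩ := exists_isSylowIn 2 (𝐂[u * u] ⊓ 𝐂[y])
  rw [card_eq_of_reg (O := O) (D := 𝐂[u * u] ⊓ 𝐂[y])
    (fun y hy => (hO y).trans (and_iff_right hy.1)) hR,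
    h.card_syl (h.O_le hO hy) ((hO y).1 hy).2 (h.good_C hO hy hg) hn hR, ← inf_assoc,
    inf_of_le_left (h.O_le hO)]

theorem count {lam : IrrCharacter Z} (hf : ∀ z : Z, lam.1 z = 1 → z = 1) :
    2 * Nat.card (Over (le_top : Z ≤ ⊤) lam) = 5 + Nat.card (Over (h.Z_le hO) lam) := by
  classical
  haveI := Fintype.ofFinite G
  have h1 := card_over' h.hZ le_top hf
  have h2 := card_over' h.hZ (h.Z_le hO) hf
  have h3 := sum_wt_triv h.hZ h.odd isPElt_one fun y _ hr hg => h.h1 y hr (hg.mono fun x _ => by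
    simp [mem_centralizer_singleton_iff])
  have h4 := sum_wt_triv h.hZ h.odd (h.isPElt h.mem) h.hu
  have h5 := sum_wt_section h.hZ h.odd (h.isPElt h.t_mem)
  have h6 : ∑ y, (if y ∈ 𝐂[u * u] ∧ IsPRegular 2 y ∧ Good Z 𝐂[u * u] y then
      (Nat.card ↥(𝐂[u * u] ⊓ 𝐂[y]) : ℂ) else 0) =
      4 * ∑ y, (if y ∈ O then (if Good Z O y then (Nat.card ↥(O ⊓ 𝐂[y]) : ℂ) else 0) else 0) +
        ∑ y : G, (if y ∈ Z then (4 * Nat.card O : ℂ) else 0) := by
    rw [Finset.mul_sum, ← Finset.sum_add_distrib]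
    refine Finset.sum_congr rfl fun y _ => ?_
    by_cases e1 : y ∈ Z
    · have e2 := h.Z_le hO e1
      rw [if_pos ⟨h.O_le hO e2, ((hO y).1 e2).2, good_of_mem h.hZ e1⟩, if_pos e2, if_pos e1,
        if_pos (good_of_mem h.hZ e1), inf_of_le_left (le_centralizer_of_mem h.hZ e1),
        inf_of_le_left (le_centralizer_of_mem h.hZ e1), h.card_C hO]
      push_cast; ring
    rw [if_neg e1, add_zero]
    by_cases e2 : y ∈ O
    · by_cases e3 : Good Z O y
      · rw [if_pos ⟨h.O_le hO e2, ((hO y).1 e2).2, h.good_C hO e2 e3⟩, if_pos e2, if_pos e3,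
          h.card_inf hO e2 e3 e1]
        push_cast; ring
      · rw [if_neg fun e => e3 (e.2.2.mono (h.O_le hO)), if_pos e2, if_neg e3, mul_zero]
    · rw [if_neg fun e => e2 ((hO y).2 ⟨e.1, e.2.1⟩), if_neg e2, mul_zero]
  have h7 : ∑ x, (if x ∈ (⊤ : Subgroup G) then
      (if Good Z ⊤ x then (Nat.card ↥(⊤ ⊓ 𝐂[x]) : ℂ) else 0) else 0) =
      ∑ x, (if IsConj 1 (pPart 2 x) then wt Z x else 0) +
      ∑ x, (if IsConj u (pPart 2 x) then wt Z x else 0) +
      ∑ x, (if IsConj (u * u) (pPart 2 x) then wt Z x else 0) := by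
    rw [← Finset.sum_add_distrib, ← Finset.sum_add_distrib]
    refine Finset.sum_congr rfl fun x _ => ?_
    rw [if_pos (mem_top x), top_inf_eq]
    change wt Z x = _
    have a1 : IsConj 1 (pPart 2 x) → orderOf (pPart 2 x) = 1 := fun e => by
      rw [← orderOf_eq_of_isConj e, orderOf_one]
    have a2 : IsConj u (pPart 2 x) → orderOf (pPart 2 x) = 4 := fun e => by
      rw [← orderOf_eq_of_isConj e, h.ord]
    have a3 : IsConj (u * u) (pPart 2 x) → orderOf (pPart 2 x) = 2 := fun e => by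
      rw [← orderOf_eq_of_isConj e, h.ord_t]
    rcases h.classes (isPElt_pPart 2 x) with e | e | e
    · rw [if_pos e, if_neg fun e' => by have := a1 e; have := a2 e'; omega,
        if_neg fun e' => by have := a1 e; have := a3 e'; omega, add_zero, add_zero]
    · rw [if_pos e, if_neg fun e' => by have := a1 e'; have := a3 e; omega,
        if_neg fun e' => by have := a2 e'; have := a3 e; omega, add_zero, zero_add]
    · rw [if_pos e, if_neg fun e' => by have := a1 e'; have := a2 e; omega,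
        if_neg fun e' => by have := a2 e; have := a3 e'; omega, add_zero, zero_add]
  rw [h7, h3, h4, card_top] at h1
  rw [h6, ← h2, sum_ite_mem', h.card_C hO] at h5
  push_cast at h5
  have h8 : (Nat.card G : ℂ) * Nat.card Z * Nat.card O ≠ 0 :=
    mul_ne_zero (mul_ne_zero card_cast_ne_zero card_cast_ne_zero) card_cast_ne_zero
  have h9 : (2 * Nat.card (Over (le_top : Z ≤ ⊤) lam) : ℂ) =
      5 + Nat.card (Over (h.Z_le hO) lam) :=
    mul_left_cancel₀ h8 (by linear_combination 2 * Nat.card O * h1 + h5 / 4)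
  exact_mod_cast h9

/-- good elements of prime power order outside the centre are `3`-elements -/
theorem mem_of_good {p : ℕ} [hp : Fact p.Prime] (h3 : p ≠ 3) {y : G} (hy : y ∈ O)
    (hyp : IsPElt p y) (hg : Good Z O y) : y ∈ Z := by
  by_contra hn
  have hr := ((hO y).1 hy).2
  have h2 : p ≠ 2 := fun e => hn (by
    subst e
    rw [hyp.eq_one_of_isPRegular hr]; exact one_mem _)
  have h5 : 5 ≤ p := hp.out.five_le_of_ne_two_of_ne_three h2 h3
  have h6 := h.h1 y hr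
  unfold Good at h6
  obtain ⟨g, hg1, hg2⟩ : ∃ g, ⁅y, g⁆ ∈ Z ∧ ⁅y, g⁆ ≠ 1 := by
    by_contra h7
    push Not at h7
    exact hn (h6 fun g _ => h7 g)
  have ht : u * u ∈ 𝐂[y] :=
    mem_centralizer_singleton_iff.2 (mem_centralizer_singleton_iff.1 (h.O_le hO hy)).symm
  obtain ⟨R, hR, hle⟩ := exists_isSylowIn_ge (h.isPElt h.t_mem).isPGroup_zpowers (zpowers_le.2 ht)
  obtain ⟨n, hn', w, hw, rfl⟩ := hR.frattini (g := g) (mem_normalizer_of_conj_mem fun x hx => by
    have e : g⁻¹ * y * g = y * ⁅y⁻¹, g⁻¹⁆ := by rw [commutatorElement_def]; group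
    have e1 : ⁅y⁻¹, g⁻¹⁆ ∈ Z := by
      rw [← conj_mem_iff h.hZ (g * y), show g * y * ⁅y⁻¹, g⁻¹⁆ * (g * y)⁻¹ = ⁅y, g⁆ by
        simp only [commutatorElement_def]; group]
      exact hg1
    have e2 : Commute x (g⁻¹ * y * g) := by
      rw [e]
      exact Commute.mul_right (mem_centralizer_singleton_iff.1 hx) (mem_center_iff.1 (h.hZ e1) x)
    rw [mem_centralizer_singleton_iff]
    calc g * x * g⁻¹ * y = g * (x * (g⁻¹ * y * g)) * g⁻¹ := by group
      _ = _ := by rw [e2.eq]; group)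
  have e1 : ⁅y, n * w⁆ = n * ⁅y, w⁆ * n⁻¹ := by
    have e := mem_centralizer_singleton_iff.1 hn'
    calc ⁅y, n * w⁆ = y * n * w * y⁻¹ * w⁻¹ * n⁻¹ := by simp only [commutatorElement_def]; group
      _ = _ := by rw [← e, commutatorElement_def]; group
  rw [e1] at hg1 hg2
  have e2 := (conj_mem_iff h.hZ n).1 hg1
  rw [conj_eq_of_mem h.hZ n e2, comm_eq_pPart h.hZ hyp e2] at hg2
  have e3 := h.toOct.conj_eq h.dih h5 hR.isPGroup (isPElt_pPart p w) (pPart_mem p hw)
    (hle (mem_zpowers _))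
  exact hg2 (h.good_C hO hy hg _ (by rw [mem_centralizer_singleton_iff, ← mul_inv_eq_iff_eq_mul, e3])
    (comm_mem_of_zpowers h.hZ e2 (pPart_mem_zpowers p w)))

theorem ne_five {lam : IrrCharacter Z} (hf : ∀ z : Z, lam.1 z = 1 → z = 1) :
    Nat.card (Over (h.Z_le hO) lam) ≠ 5 := fun h5 => by
  haveI := Fintype.ofFinite (Over (h.Z_le hO) lam)
  have h1 := sum_odd_sq Finset.univ (fun χ : Over (h.Z_le hO) lam => charDegree χ.1.1) fun χ =>
    Nat.not_even_iff_odd.1 fun e => h.odd_O hO (e.two_dvd.trans (irr_degree_dvd_card χ.1))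
  rw [sum_sq h.hZ, Finset.card_univ, ← Nat.card_eq_fintype_card, h5] at h1
  obtain ⟨s, hs⟩ := exists_sq_or (q := 3) (relIndex_pos Z O).ne' fun p hp h3 => by
    haveI := Fact.mk hp
    obtain ⟨R, hR⟩ := exists_isSylowIn p O
    obtain ⟨-, a, ha, -⟩ := sylow_cty h.hZ (h.Z_le hO) hf hR fun x hx hxp hg =>
      h.mem_of_good hO h3 hx hxp hg
    rw [factorization_relIndex h.hZ (h.Z_le hO) hR ha]
    exact even_two_mul a
  have h2 : s ^ 2 % 8 = 0 ∨ s ^ 2 % 8 = 1 ∨ s ^ 2 % 8 = 4 := by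
    rw [Nat.pow_mod]
    have := Nat.mod_lt s (show 0 < 8 by omega)
    generalize s % 8 = r at *
    interval_cases r <;> simp
  omega

omit hO in
theorem not_all_odd {lam : IrrCharacter Z} (hf : ∀ z : Z, lam.1 z = 1 → z = 1)
    (h8 : Nat.card (Over (le_top : Z ≤ ⊤) lam) = 8) :
    ¬ ∀ χ : Over (le_top : Z ≤ ⊤) lam, Odd (charDegree χ.1.1) := fun ho => by
  classical
  haveI := Fintype.ofFinite (Over (le_top : Z ≤ ⊤) lam)
  have hZu := le_centralizer' h.hZ u
  obtain ⟨m, hm, hc, hd⟩ := exists_odd_dvd h.hZ hZu h.odd hf h.syl_S h.hu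
  have hu : u ∈ 𝐂[u] := mem_centralizer_singleton_iff.2 rfl
  have h1 : ∀ χ : Over (le_top : Z ≤ ⊤) lam,
      (m : ℝ) ^ 2 ≤ Complex.normSq (χ.1.1 ⟨u, trivial⟩) := fun χ => by
    have hχ := (irr_isCharacter χ.1).resLe (le_top : 𝐂[u] ≤ ⊤)
    let n : IrrCharacter 𝐂[u] → ℕ := fun ψ =>
      mult (resLe le_top χ.1.1) ψ.1 * charDegree ψ.1 / m
    have hn : ∀ ψ, m * n ψ = mult (resLe le_top χ.1.1) ψ.1 * charDegree ψ.1 := fun ψ => by
      refine Nat.mul_div_cancel' ?_
      by_cases h0 : 0 < mult (resLe le_top χ.1.1) ψ.1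
      · exact (hd ⟨ψ, χ.resLe_mem h.hZ hZu le_top
          ((hχ.mult_pos_iff (irr_isCharacter ψ)).1 h0)⟩).mul_left _
      · rw [Nat.eq_zero_of_not_pos h0, zero_mul]; exact dvd_zero m
    have hz : (⟨u, hu⟩ : 𝐂[u]) ∈ center 𝐂[u] :=
      mem_center_iff.2 fun x => Subtype.ext (mem_centralizer_singleton_iff.1 x.2)
    have h2 := one_le_of_roots Finset.univ n (fun ψ => ψ.1 ⟨u, hu⟩ / ψ.1 1) (fun ψ _ => by
      have e := irr_apply_central_mul ψ hz
      have e4 : (⟨u, hu⟩ : 𝐂[u]) * (⟨u, hu⟩ * (⟨u, hu⟩ * (⟨u, hu⟩ * 1))) = 1 :=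
        Subtype.ext (by
          change u * (u * (u * (u * 1))) = 1
          rw [mul_one, ← mul_assoc, h.t_sq])
      have e5 := congrArg ψ.1 e4
      rw [e, e, e, e] at e5
      exact mul_right_cancel₀ (irr_apply_one_ne_zero ψ) (by linear_combination e5)) (by
      have e := hχ.degree_eq_sum_mult
      simp_rw [← hn] at e
      rw [← Finset.mul_sum, charDegree_resLe] at e
      exact (Nat.odd_mul.1 (e ▸ ho χ)).2)
    have h3 : χ.1.1 ⟨u, trivial⟩ = m * ∑ ψ, (n ψ : ℂ) * (ψ.1 ⟨u, hu⟩ / ψ.1 1) := by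
      have e := congrFun hχ.eq_sum_mult ⟨u, hu⟩
      rw [Finset.sum_apply] at e
      rw [Finset.mul_sum]
      refine e.trans (Finset.sum_congr rfl fun ψ _ => ?_)
      rw [← mul_assoc, ← Nat.cast_mul, hn, Nat.cast_mul, ← irr_apply_one, mul_assoc,
        mul_div_cancel₀ _ (irr_apply_one_ne_zero ψ)]
      rfl
    rw [h3, map_mul, Complex.normSq_natCast, ← pow_two]
    exact le_mul_of_one_le_right (by positivity) h2
  have h2 := sum_over_good h.hZ le_top lam (x := ⟨u, trivial⟩) (by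
    have := (good_part_iff h.hZ h.odd (Commute.one_right u) (h.isPElt h.mem) isPRegular_one).2
      (good_of_mem h.hZ (one_mem _))
    rwa [mul_one] at this)
  rw [top_inf_eq, ← card_mul_relIndex hZu, hc, h.card_S, Nat.cast_mul] at h2
  have h3 := mul_left_cancel₀ card_cast_ne_zero h2
  simp_rw [Complex.mul_conj] at h3
  have h4 : ∑ χ : Over (le_top : Z ≤ ⊤) lam, Complex.normSq (χ.1.1 ⟨u, trivial⟩) =
      4 * (m : ℝ) ^ 2 := by exact_mod_cast h3
  have h5 := Finset.sum_le_sum fun χ (_ : χ ∈ Finset.univ) => h1 χ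
  rw [h4, Finset.sum_const, Finset.card_univ, ← Nat.card_eq_fintype_card, h8, nsmul_eq_mul] at h5
  have h6 : (0 : ℝ) < m := by exact_mod_cast hm.pos
  push_cast at h5
  nlinarith

omit hO in
theorem false [IsCyclic Z] : False := by
  obtain ⟨lam, hf⟩ := exists_faithful h.hZ
  obtain ⟨O, hO⟩ := exists_reg h.npc
  haveI := Fintype.ofFinite (Over (le_top : Z ≤ ⊤) lam)
  obtain ⟨f, hf1, hf2, hf3⟩ := exists_odd_dvd h.hZ le_top h.odd hf h.syl fun y _ => h.h1 y
  choose d hd using hf3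
  have h1 := sum_sq h.hZ le_top lam
  simp_rw [hd, mul_pow] at h1
  rw [← Finset.mul_sum, hf2, h.card, mul_comm] at h1
  have h2 := sum_eight d (fun χ => Nat.pos_of_mul_pos_left (hd χ ▸ irr_degree_pos χ.1))
    (Nat.eq_of_mul_eq_mul_right (pow_pos hf1.pos 2) h1)
  have h3 := h.count hO hf
  have h4 := h.ne_five hO hf
  have h5 : 0 < Nat.card (Over (h.Z_le hO) lam) := Nat.card_pos
  rw [← Nat.card_eq_fintype_card] at h2
  rcases h2 with e | e | ⟨e, e'⟩
  · omega
  · omega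
  · exact h.not_all_odd hf e fun χ => by rw [hd, e', mul_one]; exact hf1

end D8

end GAG.E8
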