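import Cfsg.Agent.Lib.Gag.D8C

/-!
# The case of a non-abelian Sylow `2`-subgroup of order `8` in the socle
-/

set_option autoImplicit false
set_option linter.unusedSectionVars false
set_option linter.style.haveILetI false

namespace GAG
open Cfsg CT GT FT Subgroup
open scoped Pointwise commutatorElement ComplexConjugate

namespace E8

variable {G : Type*} [Group G] [Finite G]

theorem eq_of_mul_self {Z : Subgroup G} [IsCyclic Z] {a b : G} (ha : a ∈ Z) (hb : b ∈ Z)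
    (h1 : a * a = 1) (h2 : b * b = 1) (h3 : a ≠ 1) (h4 : b ≠ 1) : a = b := by
  obtain ⟨f, hf⟩ := exists_injective_units_hom (G := Z)
  have key : ∀ c : Z, c * c = 1 → c ≠ 1 → (f c : ℂ) = -1 := fun c e1 e2 => by
    have e3 : (f c : ℂ) * f c = 1 := by rw [← Units.val_mul, ← map_mul, e1, map_one, Units.val_one]
    exact (mul_self_eq_one_iff.1 e3).resolve_left fun e => e2 (hf (by
      rw [map_one]; exact Units.ext e))
  exact congrArg Subtype.val (hf (Units.ext
    ((key ⟨a, ha⟩ (Subtype.ext h1) fun e => h3 (congrArg Subtype.val e)).trans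
      (key ⟨b, hb⟩ (Subtype.ext h2) fun e => h4 (congrArg Subtype.val e)).symm)))

theorem false_of_two_classes {Z S : Subgroup G} (hZ : Z ≤ center G) [IsCyclic Z]
    (hS : IsSylowIn 2 S ⊤) (h8 : Z.relIndex S = 8) (hna : ¬ ⁅S, S⁆ ≤ Z)
    (hperf : commutator G ⊔ Z = ⊤)
    (h2 : ∀ x y, Good Z ⊤ x → Good Z ⊤ y → x ∉ Z → y ∉ Z → ∃ z ∈ Z, IsConj (z * x) y) :
    False := by
  haveI := normal_of_le_center' hZ
  haveI : (S ⊓ Z).Normal := normal_of_le_center' (inf_le_right.trans hZ)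
  obtain ⟨π, hπ, hk⟩ : ∃ π : G →* G ⧸ (S ⊓ Z), Function.Surjective π ∧ π.ker = S ⊓ Z :=
    ⟨QuotientGroup.mk' _, QuotientGroup.mk'_surjective _, QuotientGroup.ker_mk' _⟩
  have hkZ : π.ker ≤ Z := hk.le.trans inf_le_right
  have mZ : ∀ x, π x ∈ Z.map π ↔ x ∈ Z := fun x => by
    rw [← mem_comap, comap_map_eq_self hkZ]
  have m1 : ∀ x, π x = 1 → x ∈ Z ∧ IsPElt 2 x := fun x hx => by
    rw [← MonoidHom.mem_ker, hk] at hx
    exact ⟨hx.2, isPElt_of_mem hS.isPGroup hx.1⟩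
  have m2 : ∀ x ∈ Z, IsPElt 2 x → π x = 1 := fun x hx hp => by
    rw [← MonoidHom.mem_ker, hk]
    exact ⟨hS.mem_of_mem_normalizer hp trivial (mem_normalizer_of_conj_mem fun y hy => by
      rwa [← mem_center_iff.1 (hZ hx) y, mul_inv_cancel_right]), hx⟩
  have hZ' : Z.map π ≤ Subgroup.center _ := by
    rintro _ ⟨z, hz, rfl⟩
    refine mem_center_iff.2 fun g => ?_
    obtain ⟨g, rfl⟩ := hπ g
    rw [← map_mul, ← map_mul, mem_center_iff.1 (hZ hz)]
  have ho : ¬ 2 ∣ Nat.card (Z.map π) := by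
    rw [← relIndex_ker, hk]
    exact (hS.inf_of_le_normalizer le_top (normalizer_eq_top Z).ge).not_dvd
  haveI : IsCyclic (Z.map π) :=
    isCyclic_of_surjective _ (MonoidHom.subgroupMap_surjective π Z)
  obtain ⟨u, hu⟩ := exists_oct (hS.map_top_of_surjective hπ)
    (by rw [← relIndex_ker, hk, inf_relIndex_left, h8]) fun h => hna (commutator_le.2
      fun x hx y hy => hkZ (by
        rw [MonoidHom.mem_ker, map_commutatorElement, commutatorElement_eq_one_iff_mul_comm]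
        exact h _ (mem_map_of_mem π hx) _ (mem_map_of_mem π hy)))
  obtain ⟨u₀, -, rfl⟩ := hu.mem
  have A : ∀ y g, IsPRegular 2 y → ⁅π y, π g⁆ = 1 → ⁅y, g⁆ = 1 := fun y g hy h => by
    obtain ⟨h3, h4⟩ := m1 _ ((map_commutatorElement π y g).trans h)
    exact h4.eq_one_of_isPRegular (isPRegular_of_pow_eq_one (n := orderOf y) hy (by
      rw [← comm_pow_left hZ h3, pow_orderOf_eq_one, commutatorElement_one_left]))
  have B : ∀ v y g, IsPElt 2 (π v) → IsPRegular 2 y → π y ∈ 𝐂[π v] →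
      Good (Z.map π) 𝐂[π v] (π y) → ⁅v * y, g⁆ ∈ Z →
      π g ∈ 𝐂[π v] ∧ ⁅y, g⁆ = 1 ∧ ⁅v * y, g⁆ = ⁅v, g⁆ := fun v y g hv hy hc hg h => by
    have hc' : Commute (π v) (π y) := (mem_centralizer_singleton_iff.1 hc).symm
    have h3 : ⁅π v * π y, π g⁆ ∈ Z.map π := by
      rw [← map_mul, ← map_commutatorElement, mZ]; exact h
    have h4 := mem_of_comm_mem hZ' ho hc' hv (hy.map π) h3
    rw [comm_of_commute hc' h4] at h3
    have h5 := A y g hy (hg _ h4 h3)
    refine ⟨h4, h5, ?_⟩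
    rw [comm_mul_left hZ g (by rw [h5]; exact one_mem _), h5, mul_one]
  have hu2 := hu.isPElt hu.mem
  have ht2 : IsPElt 2 (π (u₀ * u₀)) := by rw [map_mul]; exact hu.isPElt hu.t_mem
  have hg₀ : Good Z ⊤ u₀ := fun g _ hz => by
    have h3 := (B u₀ 1 g hu2 isPRegular_one (by rw [map_one]; exact one_mem _)
      (by rw [map_one]; exact good_of_mem hZ' (one_mem _)) (by rwa [mul_one])).1
    have h4 := hu.mem_of_isPElt (pPart_mem 2 h3) (isPElt_pPart 2 _)
    rw [← map_pPart, ← MonoidHom.map_zpowers, ← mem_comap, comap_map_eq] at h4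
    obtain ⟨s, hs, w, hw, e⟩ := mem_sup_central (hkZ.trans hZ) h4
    have h5 : IsPElt 2 u₀ := (isPElt_map_iff_of_ker (by
      rw [hk]; exact hS.isPGroup.to_inf_left)).1 hu2
    rw [comm_eq_pPart hZ h5 hz, e, comm_mul_right hZ u₀ (by
      rw [commutatorElement_eq_one_iff_mul_comm.2 (mem_center_iff.1 (hZ (hkZ hw)) u₀)]
      exact one_mem _), commutatorElement_eq_one_iff_mul_comm.2 (mem_center_iff.1 (hZ (hkZ hw)) u₀),
      commutatorElement_eq_one_iff_commute.2 (commute_of_mem_zpowers hs (Commute.refl _)).symm,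
      mul_one]
  have hn : ∀ v y, IsPElt 2 (π v) → π v ≠ 1 → IsPRegular 2 y → π y ∈ 𝐂[π v] → v * y ∉ Z :=
    fun v y hv h1 hy hc h => h1 (by
      rw [← pPart_mul_eq (mem_centralizer_singleton_iff.1 hc).symm hv (hy.map π), ← map_mul]
      exact (isPRegular_of_mem ho ((mZ _).2 h)).pPart_eq)
  have hu1 : π u₀ ≠ 1 := fun e => hu.t_ne_one (by rw [e, mul_one])
  have C : ∀ x, Good Z ⊤ x → x ∉ Z →
      IsConj (π u₀) (pPart 2 (π x)) ∧ pRegPart 2 (π x) ∈ Z.map π := fun x hx hxZ => by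
    obtain ⟨z, hz, h⟩ := h2 u₀ x hg₀ hx (by
      simpa using hn u₀ 1 hu2 hu1 isPRegular_one (by rw [map_one]; exact one_mem _)) hxZ
    have h3 := π.map_isConj h
    have hc : Commute (π u₀) (π z) := mem_center_iff.1 (hZ' ((mZ z).2 hz)) _
    have hr := isPRegular_of_mem ho ((mZ z).2 hz)
    rw [map_mul] at h3
    have h4 := isConj_pPart (p := 2) h3
    obtain ⟨c, h5⟩ := isConj_iff.1 (isConj_pRegPart (p := 2) h3)
    rw [pPart_mul_eq' hc hu2 hr] at h4
    rw [pRegPart_mul_eq' hc hu2 hr] at h5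
    exact ⟨h4, by rw [← h5, conj_mem_iff hZ']; exact (mZ z).2 hz⟩
  have mK : ∀ g, π g ∈ 𝐂[u₀ * u₀].map π ↔ ⁅u₀ * u₀, g⁆ = 1 := fun g => by
    rw [← mem_comap, comap_map_eq_self (hkZ.trans (le_centralizer' hZ _)),
      mem_centralizer_singleton_iff, commutatorElement_eq_one_iff_mul_comm, eq_comm]
  have D : ∀ y, IsPRegular 2 y → π y ∈ 𝐂[π (u₀ * u₀)] → Good (Z.map π) 𝐂[π (u₀ * u₀)] (π y) →
      ∃ g, π g ∈ 𝐂[π (u₀ * u₀)] ∧ ⁅y, g⁆ = 1 ∧ ⁅u₀ * u₀, g⁆ ≠ 1 := fun y hy hc hg => by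
    by_contra h
    push Not at h
    have h3 := (C (u₀ * u₀ * y) (fun g _ hz => by
      obtain ⟨e1, e2, e3⟩ := B _ y g ht2 hy hc hg hz
      rw [e3, h g e1 e2]) (hn _ y ht2 (by rw [map_mul]; exact hu.t_ne_one) hy hc)).1
    rw [map_mul, pPart_mul_eq (mem_centralizer_singleton_iff.1 hc).symm ht2 (hy.map π)] at h3
    have h4 := orderOf_eq_of_isConj h3
    rw [map_mul, hu.ord, hu.ord_t] at h4
    omega
  have E : ∀ g, π g ∈ 𝐂[π (u₀ * u₀)] →
      ⁅u₀ * u₀, g⁆ ∈ Z ∧ ⁅u₀ * u₀, g⁆ * ⁅u₀ * u₀, g⁆ = 1 := fun g hg => by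
    have h3 := (m1 ⁅u₀ * u₀, g⁆ (by
      rw [map_commutatorElement, commutatorElement_eq_one_iff_mul_comm]
      exact (mem_centralizer_singleton_iff.1 hg).symm)).1
    refine ⟨h3, ?_⟩
    rw [← comm_mul_left hZ g h3, commutatorElement_eq_one_iff_mul_comm]
    exact (mem_center_iff.1 (hZ (m1 _ (by simp only [map_mul]; exact hu.t_sq)).1) g).symm
  refine D8.false (Z := Z.map π) (K := 𝐂[u₀ * u₀].map π) ⟨hu, hZ', ho, ?_, ?_, ?_, ?_, ?_, ?_⟩
  · rw [_root_.commutator_def, ← map_top_of_surjective π hπ, ← map_commutator, ← Subgroup.map_sup,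
      ← _root_.commutator_def, hperf]
  · rw [← map_mul]
    obtain ⟨a, ha, -, ha'⟩ := D 1 isPRegular_one (by rw [map_one]; exact one_mem _)
      (by rw [map_one]; exact good_of_mem hZ' (one_mem _))
    refine relIndex_eq_two_iff_exists_notMem_and.2 ⟨π a, ha, fun e => ha' ((mK a).1 e),
      fun b hb => ?_⟩
    obtain ⟨b, rfl⟩ := hπ b
    rw [← map_mul, mK, mK, or_iff_not_imp_right]
    intro hb'
    rw [comm_mul_right hZ _ (E a ha).1,
      eq_of_mul_self (E b hb).1 (E a ha).1 (E b hb).2 (E a ha).2 hb' ha', (E a ha).2]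
  · intro x hx
    obtain ⟨x, rfl⟩ := hπ x
    have h3 := (m1 ((x * x)⁻¹ * (u₀ * u₀)) (by
      rw [map_mul, map_inv, map_mul, map_mul, hx, inv_mul_cancel])).1
    rw [mK, ← mul_inv_cancel_left (x * x) (u₀ * u₀), comm_mul_central hZ _ _ h3,
      commutatorElement_eq_one_iff_mul_comm, mul_assoc]
  · intro y hy hg
    obtain ⟨y, hr, rfl⟩ := hy.exists_lift hπ
    rw [mZ]
    by_contra hyZ
    have h3 := (C y (fun g _ hz => A y g hr (hg _ trivial (by
      rw [← map_commutatorElement, mZ]; exact hz))) hyZ).1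
    rw [hy.pPart_eq, isConj_one_left] at h3
    exact hu1 h3
  · intro y hc hy hg
    obtain ⟨y, hr, rfl⟩ := hy.exists_lift hπ
    have h3 := (C (u₀ * y) (fun g _ hz => by
      obtain ⟨-, -, e3⟩ := B _ y g hu2 hr hc hg hz
      rw [e3] at hz ⊢
      exact hg₀ g trivial hz) (hn _ y hu2 hu1 hr hc)).2
    rwa [map_mul, pRegPart_mul_eq (mem_centralizer_singleton_iff.1 hc).symm hu2 hy] at h3
  · intro y hc hy hg hle
    obtain ⟨y, hr, rfl⟩ := hy.exists_lift hπ
    rw [← map_mul] at hc hg hle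
    obtain ⟨g, e1, e2, e3⟩ := D y hr hc hg
    refine e3 ((mK g).1 (hle ⟨e1, mem_centralizer_singleton_iff.2 ?_⟩))
    rw [← map_mul, ← map_mul, commutatorElement_eq_one_iff_mul_comm.1 e2]

end E8

variable {H : Type*} [Group H] [Finite H] {Z N S : Subgroup H} [Z.Normal] [N.Normal]

theorem false_of_eight (hZ : Z ≤ center H) [IsCyclic Z] (hc : IsChief Z N)
    (hns : ¬ Group.IsSolvable N) (hi : N.index = 2) (hct : CTy Z ⊤) (hS : IsSylowIn 2 S ⊤)
    (h8 : Z.relIndex (S ⊓ N) = 8) (hna : ¬ ⁅S ⊓ N, S ⊓ N⁆ ≤ Z) : False := by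
  have hZN := hc.le
  have hZ' : Z.subgroupOf N ≤ center N := fun z hz =>
    mem_center_iff.2 fun g => Subtype.ext (mem_center_iff.1 (hZ hz) g)
  haveI : IsCyclic (Z.subgroupOf N) :=
    isCyclic_of_surjective _ (subgroupOfEquivOfLe hZN).symm.surjective
  refine E8.false_of_two_classes hZ' (S := (S ⊓ N).subgroupOf N)
    ((isSylowIn_subgroupOf_top_iff inf_le_right).2
      (hS.inf_of_le_normalizer le_top (normalizer_eq_top N).ge))
    (by rw [relIndex_subgroupOf inf_le_right, h8])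
    (fun h => hna (commutator_le.2 fun x hx y hy =>
      commutator_le.1 h ⟨x, hx.2⟩ hx ⟨y, hy.2⟩ hy)) ?_ fun x y hx hy hxZ hyZ => ?_
  · rcases hc.eq_or_eq (⁅N, N⁆ ⊔ Z) inferInstance le_sup_right
      (sup_le (commutator_le_self N) hZN) with e | e
    · refine absurd ⟨⟨2, ?_⟩⟩ hns
      have h1 : commutator N ≤ center N := commutator_le.2 fun x _ y _ =>
        hZ' (e.le (mem_sup_left (commutator_mem_commutator x.2 y.2)))
      rw [derivedSeries_succ, derivedSeries_one, eq_bot_iff]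
      exact commutator_le.2 fun x hx y _ =>
        commutatorElement_eq_one_iff_mul_comm.2 (mem_center_iff.1 (h1 hx) y).symm
    · refine map_injective N.subtype_injective ?_
      rw [Subgroup.map_sup, ← der_eq_map, map_subgroupOf_eq_of_le hZN, e,
        ← MonoidHom.range_eq_map, range_subtype]
  · by_contra h
    push Not at h
    obtain ⟨lam, hf⟩ := exists_faithful hZ
    have h1 := card_over_le hZ hZN le_top (normalizer_eq_top N).ge hf hct
    have hg : ∀ w : N, Good (Z.subgroupOf N) ⊤ w → Good Z N w := fun w hw g hg hz =>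
      congrArg Subtype.val (hw ⟨g, hg⟩ trivial hz)
    have hm : ∀ z : Z, inclusion hZN z ∈ Z.subgroupOf N := fun z => z.2
    have a1 : ∀ w : N, w ∉ Z.subgroupOf N → ∀ z : Z, ¬ IsConj (inclusion hZN z * 1) w :=
      fun w hw z hc => by
        obtain ⟨c, hc⟩ := isConj_iff.1 hc
        exact hw (by rw [← hc, conj_mem_iff hZ', mul_one]; exact hm z)
    have a2 : ∀ w : N, w ∉ Z.subgroupOf N → ∀ z : Z, ¬ IsConj (inclusion hZN z * w) 1 :=
      fun w hw z hc => hw ((mul_mem_cancel_left (hm z)).1 (isConj_one_left.1 hc ▸ one_mem _))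
    have a3 : ∀ z : Z, ¬ IsConj (inclusion hZN z * y) x := fun z hc => by
      obtain ⟨c, hc⟩ := isConj_iff.1 hc
      refine h _ (inv_mem (hm z)) (isConj_iff.2 ⟨c⁻¹, ?_⟩)
      rw [← hc, show c⁻¹ * ((inclusion hZN z)⁻¹ * (c * (inclusion hZN z * y) * c⁻¹)) * c⁻¹⁻¹ =
        c⁻¹ * (inclusion hZN z)⁻¹ * c⁻¹⁻¹ * (inclusion hZN z * y) by group,
        conj_eq_of_mem hZ' _ (inv_mem (hm z)), inv_mul_cancel_left]
    have h2 := E8.card_le_card_over hZ hZN lam ![1, x, y] (fun i => by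
      fin_cases i
      exacts [good_of_mem hZ Z.one_mem, hg x hx, hg y hy]) fun i j hij => by
      fin_cases i <;> fin_cases j
      exacts [(hij rfl).elim, a1 x hxZ, a1 y hyZ, a2 x hxZ, (hij rfl).elim,
        fun z => h _ (hm z), a2 y hyZ, a3, (hij rfl).elim]
    rw [relIndex_top_right, hi] at h1
    rw [Fintype.card_fin] at h2
    omega

end GAG
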