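import Cfsg.Agent.Lib.Gag.K
import Cfsg.Agent.Lib.Gag.Sig

/-!
# No simple group of central type has a Sylow `2`-subgroup of order four
-/

set_option autoImplicit false
set_option linter.unusedSectionVars false
set_option linter.style.haveILetI false

namespace GAG
open Cfsg CT GT BT FT Subgroup
open scoped Pointwise commutatorElement ComplexConjugate

theorem sq_of_isConj' {L : Type*} [Group L] {t a : L} (ht : t * t = 1) (h : IsConj t a) :
    a * a = 1 := by
  obtain ⟨g, rfl⟩ := isConj_iff.1 h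
  rw [show g * t * g⁻¹ * (g * t * g⁻¹) = g * (t * t) * g⁻¹ by group, ht]; group

theorem clMul_klein {L : Type*} [Group L] [Finite L] {V : Subgroup L} (hV : IsSylowIn 2 V ⊤)
    (h4 : Nat.card V = 4) {t : L} (ht : t ∈ V) (ht1 : t ≠ 1) (ht2 : t * t = 1)
    (hc : ∀ v ∈ V, v ≠ 1 → IsConj t v) :
    ∃ N : ℕ, clMul t t t = N ∧ N ≠ 0 ∧ N * Nat.card 𝐂(V) ≤ 2 * Nat.card 𝐂[t] := by
  have h2 : ∀ v ∈ V, v * v = 1 := fun v hv => by
    by_cases h1 : v = 1
    · rw [h1, one_mul]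
    · exact sq_of_isConj' ht2 (hc v hv h1)
  have hi : ∀ c ∈ V, c⁻¹ = c := fun c hc => inv_eq_of_mul_eq_one_left (h2 c hc)
  have hab : ∀ a ∈ V, ∀ b ∈ V, a * b = b * a := fun a ha b hb => by
    rw [← hi _ (mul_mem ha hb), mul_inv_rev, hi a ha, hi b hb]
  obtain ⟨τ, D⟩ := exists_dihSyl_of_card_eq_four hV h4 (not_isCyclic_of_four h4 h2) ht
    (orderOf_eq_prime (by rwa [sq]) ht1)
  have hτ := hc τ D.τ_mem fun h => D.not_mem (h ▸ one_mem _)
  have hσ := hc (t * τ) (mul_mem ht D.τ_mem) fun h =>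
    D.mul_τ_not_mem (mem_zpowers t) (h ▸ one_mem _)
  refine ⟨_, clMul_apply t t t, ?_, ?_⟩
  · haveI : Nonempty {ab : L × L // IsConj t ab.1 ∧ IsConj t ab.2 ∧ ab.1 * ab.2 = t} :=
      ⟨⟨(t * τ, τ), hσ, hτ, by rw [mul_assoc, D.τ_sq, mul_one]⟩⟩
    exact Nat.card_pos.ne'
  have key : ∀ u ∈ V, u ∉ zpowers t →
      {v : L | ∃ g ∈ 𝐂[t], g * u * g⁻¹ = v}.ncard * Nat.card 𝐂(V) = Nat.card 𝐂[t] :=
    fun u hu hu' => by
      rw [ncard_conj_eq_relIndex, ← inf_relIndex_right, mul_comm,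
        ← card_mul_relIndex (inf_le_right : 𝐂[u] ⊓ 𝐂[t] ≤ 𝐂[t]), ← D.centralizer_pair hu hu']
      congr 3
      ext x
      simp [mem_centralizer_iff, and_comm]
  have h5 : Nat.card {ab : L × L // IsConj t ab.1 ∧ IsConj t ab.2 ∧ ab.1 * ab.2 = t} ≤
      ({v : L | ∃ g ∈ 𝐂[t], g * τ * g⁻¹ = v} ∪
        {v : L | ∃ g ∈ 𝐂[t], g * (t * τ) * g⁻¹ = v}).ncard := by
    rw [← Nat.card_coe_set_eq]
    refine Nat.card_le_card_of_injective (fun ab => ⟨ab.1.1, ?_⟩) ?_
    · obtain ⟨⟨a, b⟩, h6, h7, h8⟩ := ab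
      simp only at h6 h7 h8 ⊢
      have ha := sq_of_isConj' ht2 h6
      have hb := sq_of_isConj' ht2 h7
      have h9 : a ∈ 𝐂[t] := mem_cent1.2 (by
        have e : b * a = t := by
          rw [← inv_eq_of_mul_eq_one_left ht2, ← h8, mul_inv_rev, inv_eq_of_mul_eq_one_left ha,
            inv_eq_of_mul_eq_one_left hb]
        nth_rewrite 1 [← e]
        rw [← mul_assoc, h8])
      have h10 : IsSylowIn 2 V 𝐂[t] :=
        hV.of_le (fun v hv => mem_cent1.2 (hab v hv t ht)) le_top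
      obtain ⟨g, hg, h11⟩ := h10.exists_conj_mem
        (isPElt_of_pow_eq_one (k := 1) (by rw [pow_one, sq, ha])) h9
      have h12 : ∀ u, g * a * g⁻¹ = u → g⁻¹ * u * g⁻¹⁻¹ = a := by rintro _ rfl; group
      rcases D.cases_of_zero h11 (fun h => ht1 (isConj_one_left.1
        (conj_eq_one_iff.1 h ▸ h6))) with h | h | h
      · have h13 := h12 _ h
        rw [mem_cent1.1 (inv_mem hg), mul_inv_cancel_right] at h13
        rw [← h13, mul_eq_left] at h8
        exact (ht1 (isConj_one_left.1 (h8 ▸ h7))).elim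
      · exact Or.inl ⟨g⁻¹, inv_mem hg, h12 _ h⟩
      · exact Or.inr ⟨g⁻¹, inv_mem hg, h12 _ h⟩
    · rintro ⟨⟨a, b⟩, _, _, h6⟩ ⟨⟨a', b'⟩, _, _, h7⟩ h
      obtain rfl : a = a' := congrArg Subtype.val h
      obtain rfl : b = b' := mul_left_cancel (h6.trans h7.symm)
      rfl
  have h6 := key τ D.τ_mem D.not_mem
  have h7 := key _ (mul_mem ht D.τ_mem) (D.mul_τ_not_mem (mem_zpowers t))
  have h8 := Nat.mul_le_mul_right (Nat.card 𝐂(V)) (h5.trans (Set.ncard_union_le _ _))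
  rw [add_mul, h6, h7] at h8
  omega

theorem two_dvd_relIndex_of_inverts {L : Type*} [Group L] [Finite L] {a w : L} (ha : a * a = 1)
    (h : a * w * a⁻¹ = w⁻¹) (hw : w * w ≠ 1) : 2 * Nat.card 𝐂[w] ∣ Nat.card L := by
  have h1 : a ∈ 𝐍(𝐂[w]) := by
    rw [← conj_smul_eq_iff_mem_normalizer, conj_smul_centralizer_singleton, h]
    ext x
    rw [mem_cent1, mem_cent1]
    exact (Commute.inv_right_iff (a := x) (b := w))
  have h2 : orderOf ((⟨a, h1⟩ : 𝐍(𝐂[w])) : 𝐍(𝐂[w]) ⧸ 𝐂[w].subgroupOf 𝐍(𝐂[w])) = 2 := by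
    refine orderOf_eq_prime ?_ fun h3 => hw ?_
    · rw [sq, ← QuotientGroup.mk_mul, show (⟨a, h1⟩ * ⟨a, h1⟩ : 𝐍(𝐂[w])) = 1 from Subtype.ext ha]
      rfl
    · have h4 : a * w = w * a := mem_cent1.1 ((QuotientGroup.eq_one_iff (⟨a, h1⟩ : 𝐍(𝐂[w]))).1 h3)
      rw [h4, mul_inv_cancel_right] at h
      exact mul_eq_one_iff_eq_inv.2 h
  refine Dvd.dvd.trans ?_ (card_subgroup_dvd_card 𝐍(𝐂[w]))
  rw [← card_mul_relIndex (le_normalizer (H := 𝐂[w])), mul_comm]
  exact Nat.mul_dvd_mul_left _ (h2 ▸ orderOf_dvd_natCard _)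

theorem four_arith {ι : Type*} [Fintype ι] (h4 : Fintype.card ι = 4) (v : ι → ℂ) {α β : ℂ}
    (h : ∀ i, v i ^ 2 = α * v i + β) (h1 : ∑ i, v i = 0) (h3 : ∑ i, v i ^ 3 ≠ 0) :
    3 * (∑ i, v i ^ 3) ^ 2 = (∑ i, v i ^ 2) ^ 3 := by
  let e := (Fintype.equivFinOfCardEq h4).symm
  rw [← e.sum_comp, Fin.sum_univ_four] at h1 h3
  rw [← e.sum_comp, ← e.sum_comp fun i => v i ^ 2, Fin.sum_univ_four, Fin.sum_univ_four]
  have key : ∀ i, v (e i) = v (e 0) ∨ v (e i) = α - v (e 0) := fun i => by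
    have : (v (e i) - v (e 0)) * (v (e i) - (α - v (e 0))) = 0 := by
      linear_combination h (e i) - h (e 0)
    exact (mul_eq_zero.1 this).imp sub_eq_zero.1 sub_eq_zero.1
  generalize v (e 0) = a at *
  have k0 : 4 * a = 0 → a = 0 := fun h => by linear_combination h / 4
  have k1 : ∀ x y : ℂ, 3 * x + y = 0 →
      3 * (3 * x ^ 3 + y ^ 3) ^ 2 = (3 * x ^ 2 + y ^ 2) ^ 3 := fun x y h => by
    obtain rfl : y = -3 * x := by linear_combination h
    ring
  have k2 : ∀ x y : ℂ, 2 * x + 2 * y = 0 → 2 * x ^ 3 + 2 * y ^ 3 = 0 := fun x y h => by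
    obtain rfl : y = -x := by linear_combination h / 2
    ring
  rcases key 1 with e1 | e1 <;> rcases key 2 with e2 | e2 <;> rcases key 3 with e3 | e3 <;>
    rw [e1, e2, e3] at h1 h3 ⊢ <;>
    first
    | exact (h3 (by rw [k0 (by linear_combination h1)]; ring)).elim
    | exact (h3 (by linear_combination k2 a (α - a) (by linear_combination h1))).elim
    | linear_combination k1 a (α - a) (by linear_combination h1)
    | linear_combination k1 (α - a) a (by linear_combination h1)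

section Core
variable {H : Type*} [Group H] [Finite H] {Z U V : Subgroup H}

theorem sum_clMul_over (hZ : Z ≤ center H) (h : Z ≤ U) (lam : IrrCharacter Z) [Fintype Z]
    [Fintype (Over h lam)] (x y g : U) :
    ∑ z : Z, conj (lam.1 z) * clMul x y (inclusion h z * g) =
      (𝐂[x].index * 𝐂[y].index / Nat.card U : ℂ) * Nat.card Z *
        ∑ χ : Over h lam, conj (χ.1.1 x) * conj (χ.1.1 y) * χ.1.1 g / χ.1.1 1 := by
  classical
  calc _ = ∑ χ : IrrCharacter U, if LiesOverLe h χ.1 lam.1 then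
          (𝐂[x].index * 𝐂[y].index / Nat.card U : ℂ) * Nat.card Z *
            (conj (χ.1 x) * conj (χ.1 y) * χ.1 g / χ.1 1) else 0 := by
        simp_rw [clMul_eq_sum, Finset.sum_apply, Finset.mul_sum]
        rw [Finset.sum_comm]
        refine Finset.sum_congr rfl fun χ _ => ?_
        simp_rw [Pi.smul_apply, smul_eq_mul, mul_left_comm (conj (lam.1 _)), ← Finset.mul_sum,
          sum_conj_mul_central hZ h]
        split_ifs
        · ring
        · rw [mul_zero]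
    _ = _ := by
        rw [← Finset.sum_filter, Finset.mul_sum]
        exact Finset.sum_subtype _ (by simp) fun χ : IrrCharacter U =>
          (𝐂[x].index * 𝐂[y].index / Nat.card U : ℂ) * Nat.card Z *
            (conj (χ.1 x) * conj (χ.1 y) * χ.1 g / χ.1 1)

theorem degree_four (hZ : Z ≤ center H) (h : Z ≤ U) {lam : IrrCharacter Z}
    (hf : ∀ z : Z, lam.1 z = 1 → z = 1) (hodd : ¬ 2 ∣ Nat.card Z) (hV : IsSylowIn 2 V U)
    (h4 : Nat.card V = 4) (ha : ∀ x ∈ U, Odd (orderOf x) → Good Z U x → x ∈ Z) (hn : ¬ CTy Z U)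
    (χ : Over h lam) : 4 * charDegree χ.1.1 ^ 2 = Z.relIndex U := by
  have h1 : Z.relIndex V = 4 := by
    rw [← inf_relIndex_right, disjoint_iff.1 (disjoint_of_coprime_natCard (by
      rw [h4]; exact (Nat.Coprime.pow_left 2 ((Nat.Prime.coprime_iff_not_dvd Nat.prime_two).2
        hodd)).symm)), relIndex_bot_left, h4]
  have h2 : ∀ (p : ℕ) [Fact p.Prime], p ≠ 2 → ∃ S, IsSylowIn p S U ∧ ∃ a,
      Z.relIndex S = p ^ (2 * a) ∧ p ^ a ∣ charDegree χ.1.1 := fun p hp h2 => by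
    obtain ⟨S, hS⟩ := exists_isSylowIn (p := p) U
    obtain ⟨-, a, h3, h5⟩ := sylow_cty hZ h hf hS fun x hx ⟨k, hk⟩ =>
      ha x hx (hk ▸ (hp.out.odd_of_ne_two h2).pow)
    exact ⟨S, hS, a, h3, h5 χ⟩
  have hd := irr_degree_pos χ.1
  obtain ⟨k, hk⟩ := relIndex_dvd_of_forall hZ h (n := 4 * charDegree χ.1.1 ^ 2) (by positivity)
    fun p _ => by
      by_cases hp : p = 2
      · subst hp
        exact ⟨V, hV, h1 ▸ dvd_mul_right _ _⟩
      · obtain ⟨S, hS, a, h3, h5⟩ := h2 p hp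
        refine ⟨S, hS, Dvd.dvd.mul_left ?_ 4⟩
        rw [h3, mul_comm, pow_mul]
        exact pow_dvd_pow_of_dvd h5 2
  have h3 : charDegree χ.1.1 ^ 2 < Z.relIndex U :=
    (χ.sq_le hZ).lt_of_ne fun e => hn ((cty_iff hZ h hf).2 ⟨χ, e⟩)
  have h5 : k < 4 := by
    by_contra h5
    nlinarith
  have h6 : k ≠ 0 := by
    rintro rfl
    exact (by positivity : 4 * charDegree χ.1.1 ^ 2 ≠ 0) hk
  have h7 : k ≠ 2 := by
    rintro rfl
    obtain ⟨m, hm, e⟩ := relIndex_eq_mul hZ h hV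
    rw [e, h1] at hk
    obtain ⟨d, hd⟩ := Nat.prime_two.dvd_of_dvd_pow (n := 2) (m := charDegree χ.1.1) ⟨m, by omega⟩
    rw [hd] at hk
    exact hm ⟨d ^ 2, by nlinarith⟩
  have h8 : k ≠ 3 := by
    rintro rfl
    haveI : Fact (Nat.Prime 3) := Nat.fact_prime_three
    obtain ⟨S, hS, a, h9, -⟩ := h2 3 (by norm_num)
    obtain ⟨m, hm, e⟩ := relIndex_eq_mul hZ h hS
    have hm0 : m ≠ 0 := fun h0 => hm (h0 ▸ dvd_zero 3)
    have := congrArg (fun n : ℕ => n.factorization 3) hk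
    rw [e, h9, Nat.factorization_mul (by norm_num) (by positivity),
      Nat.factorization_mul (by positivity) (by norm_num),
      Nat.factorization_mul (by positivity) hm0, Nat.factorization_pow,
      Nat.prime_three.factorization_pow, Nat.prime_three.factorization] at this
    simp only [Finsupp.add_apply, Finsupp.smul_apply, Finsupp.single_eq_same, smul_eq_mul,
      Nat.factorization_eq_zero_of_not_dvd hm,
      Nat.factorization_eq_zero_of_not_dvd (show ¬ 3 ∣ 4 by norm_num)] at this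
    omega
  obtain rfl : k = 1 := by omega
  rw [hk, mul_one]

theorem four_core (hZ : Z ≤ center H) [IsCyclic Z] (h : Z ≤ U) (hodd : ¬ 2 ∣ Nat.card Z)
    (hV : IsSylowIn 2 V U) (h4 : Nat.card V = 4) (hper : U ≤ ⁅U, U⁆ ⊔ Z)
    (ha : ∀ x ∈ U, Odd (orderOf x) → Good Z U x → x ∈ Z)
    (hb : ∀ x ∈ U, Good Z U x → x ∉ Z → 4 ∣ Nat.card ↥(U ⊓ 𝐂[x])) : False := by
  classical
  obtain ⟨lam, hf⟩ := exists_faithful hZ
  haveI := Fintype.ofFinite (Over h lam)
  haveI := Fintype.ofFinite Z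
  haveI := normal_of_le_center' hZ
  have hfac : (Nat.card U).factorization 2 = 2 :=
    Nat.pow_right_injective le_rfl (hV.card_eq.symm.trans h4)
  have hper' : commutator U ⊔ pPrimeCore 2 U = ⊤ := by
    have h1 : Z.subgroupOf U ≤ pPrimeCore 2 U :=
      le_pPrimeCore (by
        rw [card_subgroupOf_of_le h]
        exact ((Nat.Prime.coprime_iff_not_dvd Nat.prime_two).2 hodd).symm)
    refine top_le_iff.1 (le_trans ?_ (sup_le_sup_left h1 _))
    rw [← sgOf_der, ← sgOf_sup ((commutator_le_sup U U).trans (sup_idem U).le) h]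
    exact fun x _ => hper x.2
  have hn : ¬ HasNormalPComplement 2 U := fun hn => by
    have h1 := index_pPrimeCore_of_hasNormalPComplement hn
    rw [hfac] at h1
    haveI := (IsPGroup.of_card (p := 2) (G := U ⧸ pPrimeCore 2 U) h1).isNilpotent
    haveI : Nontrivial (U ⧸ pPrimeCore 2 U) :=
      Finite.one_lt_card_iff_nontrivial.1 (by rw [← index_eq_card, h1]; norm_num)
    refine (Group.IsSolvable.commutator_lt_top_of_nontrivial (U ⧸ pPrimeCore 2 U)).ne ?_
    have h2 := congrArg (map (QuotientGroup.mk' (pPrimeCore 2 U))) hper'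
    rwa [Subgroup.map_sup, QuotientGroup.map_mk'_self, sup_bot_eq,
      map_top_of_surjective _ (QuotientGroup.mk'_surjective _), _root_.commutator_def,
      map_commutator, map_top_of_surjective _ (QuotientGroup.mk'_surjective _)] at h2
  obtain ⟨h2, hc⟩ := klein_of_four hV h4 hn
  obtain ⟨⟨t', ht⟩, ht1⟩ := (ne_bot_iff_exists_ne_one (H := V)).1 fun e => by
    rw [e, card_bot] at h4; norm_num at h4
  obtain ⟨t, rfl⟩ : ∃ t : U, (t : H) = t' := ⟨⟨t', hV.le ht⟩, rfl⟩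
  replace ht1 : t ≠ 1 := fun e => ht1 (Subtype.ext (show (t : H) = 1 from congrArg Subtype.val e))
  have ht2 : t * t = 1 := Subtype.ext (h2 t ht)
  have hV' := (isSylowIn_subgroupOf_top_iff hV.le).2 hV
  have h4' : Nat.card (V.subgroupOf U) = 4 := (card_subgroupOf_of_le hV.le).trans h4
  have hc' : ∀ v ∈ V.subgroupOf U, v ≠ 1 → IsConj t v := fun v hv h1 => by
    obtain ⟨g, hg, e⟩ := hc t ht (fun e => ht1 (Subtype.ext e)) v hv fun e => h1 (Subtype.ext e)
    exact isConj_iff.2 ⟨⟨g, hg.1⟩, Subtype.ext e⟩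
  have hlt := ((sigma_le' hV' h4' ht ht1 ht2 hc').2 hper').1
  obtain ⟨N, hN, hN0, hNle⟩ := clMul_klein hV' h4' ht ht1 ht2 hc'
  have hz1 : ∀ z ∈ Z, z * z = 1 → z = 1 := fun z hz e => by
    by_contra h1
    exact hodd (orderOf_eq_prime (by rwa [sq]) h1 ▸ orderOf_dvd_natCard Z hz)
  have htg : Good Z U t := fun y _ hy => hz1 _ hy (by
    rw [← sq, ← comm_pow_left hZ hy, sq, h2 t ht, commutatorElement_one_left])
  have htZ : (t : H) ∉ Z := fun e => ht1 (Subtype.ext (hz1 _ e (h2 t ht)))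
  have hdeg := degree_four hZ h hf hodd hV h4 ha fun e => htZ (e t t.2 htg)
  obtain ⟨f, hf0, hfd⟩ : ∃ f : ℕ, 0 < f ∧ ∀ χ : Over h lam, charDegree χ.1.1 = f := by
    obtain ⟨χ₀⟩ : Nonempty (Over h lam) := inferInstance
    exact ⟨_, irr_degree_pos χ₀.1, fun χ => Nat.pow_left_injective two_ne_zero
      (Nat.eq_of_mul_eq_mul_left four_pos ((hdeg χ).trans (hdeg χ₀).symm))⟩
  have hf4 : 4 * f ^ 2 = Z.relIndex U := by
    obtain ⟨χ₀⟩ : Nonempty (Over h lam) := inferInstance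
    rw [← hfd χ₀, hdeg]
  have hcard : Fintype.card (Over h lam) = 4 := by
    have := sum_sq hZ h lam
    simp_rw [hfd] at this
    rw [Finset.sum_const, Finset.card_univ, smul_eq_mul, ← hf4] at this
    exact Nat.eq_of_mul_eq_mul_right (pow_pos hf0 2) this
  have hχ1 : ∀ χ : Over h lam, χ.1.1 1 = f := fun χ => by rw [irr_apply_one, hfd]
  have hf0' : (f : ℂ) ≠ 0 := Nat.cast_ne_zero.2 hf0.ne'
  have hcl : ∀ w : U, Good Z U w → (w : H) ∉ Z → w * w ≠ 1 → clMul t t w = 0 :=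
    fun w hw hwZ hww => clMul_eq_zero fun a b h5 h6 e => by
      have h7 := sq_of_isConj' ht2 h5
      have h8 := sq_of_isConj' ht2 h6
      have h9 := two_dvd_relIndex_of_inverts (w := w) h7 (by
        rw [← e, mul_inv_rev, inv_eq_of_mul_eq_one_left h7, inv_eq_of_mul_eq_one_left h8,
          ← mul_assoc, h7, one_mul]) hww
      rw [card_centralizer_coe] at h9
      have h10 := (Nat.prime_two.pow_dvd_iff_le_factorization (k := 3) Nat.card_pos.ne').1
        ((Nat.mul_dvd_mul_left 2 (hb w w.2 hw hwZ)).trans h9)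
      omega
  have hK : (𝐂[t].index * 𝐂[t].index / Nat.card U : ℂ) * Nat.card Z ≠ 0 :=
    mul_ne_zero (div_ne_zero (mul_ne_zero (Nat.cast_ne_zero.2 index_ne_zero_of_finite)
      (Nat.cast_ne_zero.2 index_ne_zero_of_finite)) card_cast_ne_zero) card_cast_ne_zero
  have hΨ : ∀ g : U, ∑ z : Z, conj (lam.1 z) * clMul t t (inclusion h z * g) =
      (𝐂[t].index * 𝐂[t].index / Nat.card U : ℂ) * Nat.card Z *
        ((∑ χ : Over h lam, χ.1.1 t ^ 2 * χ.1.1 g) / f) := fun g => by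
    rw [sum_clMul_over hZ h lam, Finset.sum_div]
    simp_rw [conj_irr_of_sq _ ht2, hχ1, sq]
  have hsq : ∀ (z : Z) (y : U), Commute t y →
      ((inclusion h z * (t * y) * (inclusion h z * (t * y)) : U) : H) = z * z * (y * y) :=
    fun z y hy => by
      have h5 := mem_center_iff.1 (hZ z.2)
      have h6 : (t : H) * y = y * t := congrArg Subtype.val hy.eq
      calc (z : H) * (t * y) * (z * (t * y)) = z * ((t * y) * z) * (t * y) := by group
        _ = z * z * (y * (t * t) * y) := by rw [h5]; nth_rewrite 1 [h6]; group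
        _ = _ := by rw [h2 t ht, mul_one]
  have hmZ : ∀ (z : Z) (w : U), ((inclusion h z * w : U) : H) ∈ Z ↔ (w : H) ∈ Z := fun z w =>
    mul_mem_cancel_left z.2
  have hs3 : (𝐂[t].index * 𝐂[t].index / Nat.card U : ℂ) * Nat.card Z *
      ((∑ χ : Over h lam, χ.1.1 t ^ 3) / f) = N := by
    have := hΨ t
    simp_rw [← pow_succ] at this
    rw [← this, Finset.sum_eq_single 1 (fun z _ hz => ?_) (by simp), map_one, one_mul, hN,
      lam_one hZ, map_one, one_mul]
    rw [hcl _ ((good_mul_iff' hZ z.2).2 htg) (mt (hmZ z t).1 htZ) fun e => hz (Subtype.ext ?_),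
      mul_zero]
    have h5 := hsq z 1 (Commute.one_right t)
    rw [mul_one t, e] at h5
    exact hz1 _ z.2 (by simpa using h5.symm)
  have hs2 : (Nat.card Z : ℂ) * ∑ χ : Over h lam, χ.1.1 t ^ 2 = Nat.card 𝐂[t] := by
    rw [card_centralizer_coe, ← sum_over_good hZ h lam htg]
    simp_rw [conj_irr_of_sq _ ht2, sq]
  have hs0 : ∀ w : U, (w : H) ∉ Z → ∑ χ : Over h lam, χ.1.1 w = 0 := fun w hw => by
    have := sum_over_eq_zero hZ h lam (x := w) (y := 1) fun z e =>
      hw ((hmZ z w).1 (by rw [isConj_one_left.1 e]; exact Z.one_mem))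
    simp_rw [hχ1, map_natCast] at this
    rw [← Finset.sum_mul] at this
    exact (mul_eq_zero.1 this).resolve_right hf0'
  set s2 := ∑ χ : Over h lam, χ.1.1 t ^ 2 with hs2d
  set s3 := ∑ χ : Over h lam, χ.1.1 t ^ 3 with hs3d
  have hs20 : s2 ≠ 0 := fun e => card_cast_ne_zero (by rw [← hs2, e, mul_zero])
  have hs30 : s3 ≠ 0 := fun e => Nat.cast_ne_zero.2 hN0 (by rw [← hs3, e, zero_div, mul_zero])
  have hroot : ∀ χ : Over h lam, χ.1.1 t ^ 2 = s3 / s2 * χ.1.1 t + s2 / 4 := by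
    have hli := Fintype.linearIndependent_iff.1
      (linearIndependent_irr.comp (Subtype.val : Over h lam → _) Subtype.val_injective)
      (fun χ => χ.1.1 t ^ 2 - (s3 / s2 * χ.1.1 t + s2 / 4)) (funext fun x => ?_)
    · exact fun χ => sub_eq_zero.1 (hli χ)
    have hF : ∀ x : U, (∑ χ : Over h lam, (χ.1.1 t ^ 2 - (s3 / s2 * χ.1.1 t + s2 / 4)) •
        ((fun χ : IrrCharacter U => χ.1) ∘ Subtype.val) χ) x =
        ∑ χ : Over h lam, χ.1.1 t ^ 2 * χ.1.1 x - s3 / s2 * ∑ χ : Over h lam, χ.1.1 x * χ.1.1 t -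
          s2 / 4 * ∑ χ : Over h lam, χ.1.1 x := fun x => by
      rw [Finset.sum_apply, Finset.mul_sum, Finset.mul_sum, ← Finset.sum_sub_distrib,
        ← Finset.sum_sub_distrib]
      exact Finset.sum_congr rfl fun χ _ => by
        simp only [Pi.smul_apply, smul_eq_mul, Function.comp_apply]; ring
    rw [hF, Pi.zero_apply]
    by_cases hg : Good Z U x
    swap
    · simp [apply_eq_zero hZ h hf _ hg]
    by_cases hx : (x : H) ∈ Z
    · have h5 : ∀ χ : Over h lam, χ.1.1 x = lam.1 ⟨x, hx⟩ * f := fun χ => by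
        rw [← hfd χ]; exact χ.apply_central hZ ⟨x, hx⟩
      simp_rw [h5]
      rw [← Finset.sum_mul, ← Finset.mul_sum, hs0 t htZ, Finset.sum_const, Finset.card_univ, hcard,
        ← hs2d, nsmul_eq_mul]
      push_cast; ring
    have h5 : pPart 2 x ≠ 1 := fun e => hx (ha x x.2 (by
      have := not_dvd_orderOf_pRegPart 2 x
      rw [pRegPart_eq_inv_mul, e, inv_one, one_mul] at this
      rw [orderOf_coe]
      exact Nat.odd_iff.2 (by omega)) hg)
    obtain ⟨g, -, h6⟩ := hV'.exists_conj_mem (isPElt_pPart 2 x) (mem_top _)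
    obtain ⟨k, h7⟩ := isConj_iff.1 (hc' _ h6 fun e => h5 (conj_eq_one_iff.1 e)).symm
    obtain ⟨y, hy, hyo, e⟩ : ∃ y : U, Commute t y ∧ ¬ 2 ∣ orderOf y ∧
        k * g * x * (k * g)⁻¹ = t * y := by
      refine ⟨k * g * pRegPart 2 x * (k * g)⁻¹, ?_, (isPRegular_pRegPart 2 x).conj _, ?_⟩
      · rw [← h7, show k * (g * pPart 2 x * g⁻¹) * k⁻¹ = k * g * pPart 2 x * (k * g)⁻¹ by group]
        exact (commute_pPart_pRegPart 2 x).conj _
      · rw [← h7]
        nth_rewrite 1 [← pPart_mul_pRegPart 2 x]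
        group
    have h8 : ∀ χ : Over h lam, χ.1.1 x = χ.1.1 (t * y) := fun χ => by
      rw [← e, irr_isClassFunction χ.1]
    have h9 : Good Z U (t * y : U) := by
      rw [← e]; exact hg.conj hZ (le_normalizer (k * g).2)
    have h10 : ((t * y : U) : H) ∉ Z := by
      rw [← e]; exact mt (conj_mem_iff hZ _).1 hx
    simp_rw [h8]
    rw [hs0 _ h10, mul_zero, sub_zero]
    by_cases hyZ : (y : H) ∈ Z
    · have h11 : ∀ χ : Over h lam, χ.1.1 (t * y) = lam.1 ⟨y, hyZ⟩ * χ.1.1 t := fun χ => by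
        rw [hy.eq]; exact χ.apply_central_mul hZ ⟨y, hyZ⟩ t
      simp_rw [h11, mul_left_comm _ (lam.1 _), mul_assoc, ← sq, ← pow_succ]
      rw [← Finset.mul_sum, ← Finset.mul_sum, ← hs2d, ← hs3d]
      field_simp; ring
    have h11 : ∀ z : Z, inclusion h z * (t * y) * (inclusion h z * (t * y)) ≠ 1 := fun z e => by
      have h12 := hsq z y hy
      rw [e] at h12
      have h13 : (y : H) ^ 2 ∈ Z := by
        rw [sq, ← mul_mem_cancel_left (mul_mem z.2 z.2), ← h12]; exact Z.one_mem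
      obtain ⟨j, hj⟩ : Odd (orderOf (y : H)) := by
        rw [orderOf_coe]; exact Nat.odd_iff.2 (by omega)
      have h14 := Z.pow_mem h13 (j + 1)
      rw [← pow_mul, show 2 * (j + 1) = orderOf (y : H) + 1 by omega, pow_succ,
        pow_orderOf_eq_one, one_mul] at h14
      exact hyZ h14
    have h12 := sum_over_eq_zero hZ h lam (x := t * y) (y := t) fun z e =>
      h11 z (sq_of_isConj' ht2 e.symm)
    simp_rw [conj_irr_of_sq _ ht2] at h12
    have h13 := hΨ (t * y)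
    rw [Finset.sum_eq_zero fun z _ => by
      rw [hcl _ ((good_mul_iff' hZ z.2).2 h9) (mt (hmZ z _).1 h10) (h11 z), mul_zero]] at h13
    rw [h12, (div_eq_zero_iff.1 ((mul_eq_zero.1 h13.symm).resolve_left hK)).resolve_right hf0',
      mul_zero, sub_zero]
  have har := four_arith hcard _ hroot (hs0 t htZ) hs30
  rw [← hs2d, ← hs3d] at har
  have e1 : (𝐂[t].index : ℂ) * Nat.card 𝐂[t] = Nat.card U := by
    exact_mod_cast index_mul_card 𝐂[t]
  have e2 : (Nat.card Z : ℂ) * (4 * f ^ 2) = Nat.card U := by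
    rw [← card_mul_relIndex h, ← hf4]; push_cast; ring
  have e3 : 4 * Nat.card U = 3 * N ^ 2 * Nat.card 𝐂[t] := by
    have hc0 : (Nat.card 𝐂[t] : ℂ) ≠ 0 := card_cast_ne_zero
    have hz0 : (Nat.card Z : ℂ) ≠ 0 := card_cast_ne_zero
    have hu0 : (Nat.card U : ℂ) ≠ 0 := card_cast_ne_zero
    have e4 : (𝐂[t].index : ℂ) = Nat.card U / Nat.card 𝐂[t] := by rw [← e1]; field_simp
    have e5 : s2 = Nat.card 𝐂[t] / Nat.card Z := by rw [← hs2]; field_simp
    have e6 : s3 ^ 2 = (Nat.card 𝐂[t] / Nat.card Z) ^ 3 / 3 := by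
      rw [← e5, ← har]; ring
    refine Nat.cast_injective (R := ℂ) ?_
    push_cast
    rw [← hs3, mul_pow, div_pow s3, e6, e4]
    field_simp
    linear_combination e2
  have h5 := Nat.pow_le_pow_left hNle 2
  have h6 : 0 < Nat.card 𝐂[t] := Nat.card_pos
  nlinarith

end Core

theorem false_of_four {H : Type*} [Group H] [Finite H] {Z S : Subgroup H} [Z.Normal]
    (hZ : Z ≤ center H) [IsCyclic Z] [IsSimpleGroup (H ⧸ Z)]
    (hns : ¬ Group.IsSolvable (H ⧸ Z)) (hct : CTy Z ⊤) (hS : IsSylowIn 2 S ⊤)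
    (h4 : Z.relIndex S = 4) : False := by
  have hQ : IsSylowIn 2 (S ⊓ Z) Z := hS.inf_of_le_normalizer le_top le_normalizer_of_normal
  have hQc : S ⊓ Z ≤ center H := inf_le_right.trans hZ
  haveI := normal_of_le_center' hQc
  let π := QuotientGroup.mk' (S ⊓ Z)
  have hπ : Function.Surjective π := QuotientGroup.mk'_surjective _
  have hπ1 : ∀ x, π x = 1 ↔ x ∈ S ⊓ Z := fun x => QuotientGroup.eq_one_iff x
  have hZ' : Z.map π ≤ Subgroup.center _ := by
    rintro _ ⟨z, hz, rfl⟩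
    refine mem_center_iff.2 fun g => ?_
    obtain ⟨g, rfl⟩ := hπ g
    rw [← map_mul, ← map_mul, mem_center_iff.1 (hZ hz)]
  haveI : IsCyclic (Z.map π) := isCyclic_of_surjective _ (π.subgroupMap_surjective Z)
  have key : ∀ x, Good (Z.map π) ⊤ (π x) → π x ∉ Z.map π →
      (∃ c, ⁅x, c⁆ ∈ S ⊓ Z ∧ ⁅x, c⁆ ≠ 1) ∧ 2 ∣ orderOf (π x) := fun x hx hxZ => by
    have h1 : ¬ Good Z ⊤ x := fun h => hxZ (mem_map_of_mem π (hct x (mem_top x) h))
    unfold Good at h1
    push Not at h1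
    obtain ⟨c, -, h2, h3⟩ := h1
    have h5 : ⁅x, c⁆ ∈ S ⊓ Z := (hπ1 _).1 (by
      rw [map_commutatorElement]
      exact hx _ (mem_top _) (by rw [← map_commutatorElement]; exact mem_map_of_mem π h2))
    refine ⟨⟨c, h5, h3⟩, ?_⟩
    have h6 : ⁅x, c⁆ ^ orderOf (π x) = 1 := by
      rw [← comm_pow_left hZ h2]
      exact commutatorElement_eq_one_iff_mul_comm.2 (mem_center_iff.1
        (hQc ((hπ1 _).1 (by rw [map_pow, pow_orderOf_eq_one]))) c).symm
    obtain ⟨k, hk⟩ := isPElt_of_mem hQ.isPGroup h5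
    refine Dvd.dvd.trans ?_ (orderOf_dvd_of_pow_eq_one h6)
    rw [hk]
    exact dvd_pow_self 2 fun e => h3 (orderOf_eq_one_iff.1 (by rw [hk, e, pow_zero]))
  refine four_core (U := ⊤) (V := S.map π) hZ' le_top ?_ (hS.map_top_of_surjective hπ) ?_ ?_ ?_ ?_
  · rw [card_map_mk']
    exact hQ.not_dvd
  · rw [card_map_mk', inf_comm, inf_relIndex_right, h4]
  · have h1 := commutator_eq_top_of_simple hns
    have h2 : ⁅(⊤ : Subgroup H), (⊤ : Subgroup H)⁆ ⊔ Z = ⊤ := by
      have h3 := comap_map_eq (QuotientGroup.mk' Z) ⁅(⊤ : Subgroup H), (⊤ : Subgroup H)⁆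
      rw [QuotientGroup.ker_mk', map_commutator,
        map_top_of_surjective _ (QuotientGroup.mk'_surjective Z), ← _root_.commutator_def, h1,
        comap_top] at h3
      exact h3.symm
    have h3 := congrArg (map π) h2
    rw [Subgroup.map_sup, map_commutator, map_top_of_surjective _ hπ] at h3
    exact h3.ge
  · intro x _ hx hg
    obtain ⟨x, rfl⟩ := hπ x
    by_contra h1
    exact (Nat.not_even_iff_odd.2 hx) (even_iff_two_dvd.2 (key x hg h1).2)
  · intro x _ hg h1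
    obtain ⟨x, rfl⟩ := hπ x
    obtain ⟨⟨c, h2, h3⟩, h5⟩ := key x hg h1
    have hm : ∀ y, y ∈ 𝐂[π x].comap π ↔ ⁅x, y⁆ ∈ S ⊓ Z := fun y => by
      rw [mem_comap, mem_cent1, ← hπ1, map_commutatorElement,
        commutatorElement_eq_one_iff_mul_comm, eq_comm]
    let φ : 𝐂[π x].comap π →* ↥(S ⊓ Z) := MonoidHom.mk' (fun y => ⟨⁅x, y⁆, (hm y).1 y.2⟩)
      fun y y' => Subtype.ext (comm_mul_right hZ x ((hm y').1 y'.2).2)
    have hle : 𝐂[x] ≤ 𝐂[π x].comap π := fun y hy => (hm y).2 (by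
      rw [commutatorElement_eq_one_iff_mul_comm.2 (mem_cent1.1 hy).symm]; exact one_mem _)
    have hk : φ.ker = 𝐂[x].subgroupOf _ := by
      ext y
      rw [MonoidHom.mem_ker, mem_subgroupOf, mem_cent1, eq_comm (b := x * y),
        ← commutatorElement_eq_one_iff_mul_comm]
      exact Subtype.ext_iff
    have h6 : 2 ∣ Nat.card φ.range :=
      (hQ.isPGroup.to_subgroup φ.range).card_eq_or_dvd.resolve_left fun e => by
        have h7 : φ ⟨c, (hm c).2 h2⟩ ∈ φ.range := ⟨_, rfl⟩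
        rw [card_eq_one.1 e, mem_bot] at h7
        exact h3 (congrArg Subtype.val h7)
    have h7 : 2 ∣ (S ⊓ Z).relIndex 𝐂[x] := by
      rw [← card_map_mk']
      exact h5.trans (orderOf_dvd_natCard _ (mem_map_of_mem π (mem_cent1.2 rfl)))
    have h8 := φ.ker.card_mul_index
    rw [index_ker, hk, card_subgroupOf_of_le hle, card_comap_mk',
      ← card_mul_relIndex (hQc.trans (center_le_centralizer {x})), mul_assoc, mul_comm] at h8
    rw [top_inf_eq, ← Nat.eq_of_mul_eq_mul_right Nat.card_pos h8]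
    exact Nat.mul_dvd_mul h7 h6

end GAG
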