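import Cfsg.Agent.Lib.Gag.MainA
import Cfsg.Agent.Lib.Gag.K
import Cfsg.Agent.Lib.Gag.B3
import Cfsg.Agent.Lib.Gag.B2
import Cfsg.Agent.Lib.Gag.B1
import Cfsg.Agent.Lib.Gag.D8D
import Cfsg.Agent.Lib.Gag.V4
import Cfsg.Agent.Lib.Gag.W5

/-!
# Groups of central type with small non-abelian Sylow subgroups are solvable
-/

set_option autoImplicit false

namespace GAG

open Cfsg CT GT FT Subgroup MulAction
open scoped Pointwise commutatorElement ComplexConjugate

universe u

variable {H : Type u} [Group H] [Finite H] {Z N S : Subgroup H}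

/-- The commutator form on an abelian section of central type. -/
theorem exists_symp (hZ : Z ≤ center H) [IsCyclic Z] [Z.Normal] (hct : CTy Z (S ⊔ Z))
    (hab : ⁅S, S⁆ ≤ Z) : ∃ ω, Symp (S.map (QuotientGroup.mk' Z)) ω := by
  classical
  obtain ⟨l, hl⟩ := exists_injective_units_hom (G := Z)
  let c : H → H → ℂˣ := fun x y => if h : ⁅x, y⁆ ∈ Z then l ⟨_, h⟩ else 1
  have hout : ∀ x : H, ∃ z ∈ Z, (QuotientGroup.mk' Z x).out = x * z := fun x => by
    obtain ⟨z, hz⟩ := QuotientGroup.mk_out_eq_mul Z x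
    exact ⟨z, z.2, hz⟩
  have hc : ∀ x y : H, c (QuotientGroup.mk' Z x).out (QuotientGroup.mk' Z y).out = c x y := by
    intro x y
    obtain ⟨z, hz, e⟩ := hout x
    obtain ⟨w, hw, e'⟩ := hout y
    have h1 : ⁅x * z, y * w⁆ = ⁅x, y⁆ := by
      rw [comm_mul_central hZ _ _ hz, ← commutatorElement_inv, comm_mul_central hZ _ _ hw,
        commutatorElement_inv]
    simp only [c, e, e', h1]
  have hm : ∀ x ∈ S, ∀ y ∈ S, ⁅x, y⁆ ∈ Z := fun x hx y hy =>
    hab (commutator_mem_commutator hx hy)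
  refine ⟨fun a b => c a.out b.out, ?_, ?_, ?_, ?_, ?_⟩
  · rintro _ ⟨x, hx, rfl⟩ _ ⟨y, hy, rfl⟩ _ ⟨z, hz, rfl⟩
    rw [← map_mul, hc, hc, hc]
    simp only [c]
    rw [dif_pos (hm _ (mul_mem hx hy) _ hz), dif_pos (hm _ hx _ hz), dif_pos (hm _ hy _ hz),
      ← map_mul]
    congr 1; ext; exact comm_mul_left hZ _ (hm _ hy _ hz)
  · rintro _ ⟨x, hx, rfl⟩ _ ⟨y, hy, rfl⟩ _ ⟨z, hz, rfl⟩
    rw [← map_mul, hc, hc, hc]
    simp only [c]
    rw [dif_pos (hm _ hx _ (mul_mem hy hz)), dif_pos (hm _ hx _ hy), dif_pos (hm _ hx _ hz),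
      ← map_mul]
    congr 1; ext; exact comm_mul_right hZ _ (hm _ hx _ hz)
  · rintro _ ⟨x, hx, rfl⟩
    rw [hc]
    simp only [c]
    rw [dif_pos (hm _ hx _ hx), ← l.map_one]
    congr 1; ext; simp
  · rintro _ ⟨x, hx, rfl⟩ h
    refine (QuotientGroup.eq_one_iff x).2 (hct x (mem_sup_left hx) fun y hy hxy => ?_)
    obtain ⟨s, hs, z, hz, rfl⟩ := mem_sup_central hZ hy
    have h1 := h _ (mem_map_of_mem _ hs)
    rw [hc] at h1
    simp only [c] at h1
    rw [dif_pos (hm _ hx _ hs), ← l.map_one, hl.eq_iff, Subtype.ext_iff] at h1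
    rw [← commutatorElement_inv, comm_mul_central hZ _ _ hz, commutatorElement_inv]
    exact h1
  · rintro n - _ ⟨x, hx, rfl⟩ _ ⟨y, hy, rfl⟩
    obtain ⟨g, rfl⟩ := QuotientGroup.mk'_surjective Z n
    rw [← map_inv, ← map_mul, ← map_mul, ← map_mul, ← map_mul, hc, hc]
    have h1 : ⁅g * x * g⁻¹, g * y * g⁻¹⁆ = ⁅x, y⁆ := by
      rw [← conj_eq_of_mem hZ g (hm x hx y hy), conjugate_commutatorElement]
    simp only [c, h1]

omit [Finite H] in
theorem relIndex_inf_mul [Z.Normal] (hZN : Z ≤ N) (S : Subgroup H) :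
    Z.relIndex (S ⊓ N) * N.relIndex S = Z.relIndex S := by
  rw [← inf_relIndex_right N, inf_comm N S, ← inf_relIndex_right Z (S ⊓ N),
    ← inf_relIndex_right Z S, ← inf_assoc, inf_eq_left.2 (inf_le_left.trans hZN)]
  exact relIndex_mul_relIndex _ _ _ (le_inf inf_le_right (inf_le_left.trans hZN)) inf_le_left

omit [Finite H] in
/-- the nonabelian intersection with a Sylow subgroup of order `p ^ 4` -/
theorem three_or_le [Z.Normal] {p : ℕ} [hp : Fact p.Prime] (hZN : Z ≤ N)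
    (h4 : Z.relIndex S = p ^ 4) (hna : ¬ ⁅S ⊓ N, S ⊓ N⁆ ≤ Z) :
    (Z.relIndex (S ⊓ N) = p ^ 3 ∧ N.relIndex S = p) ∨ S ≤ N := by
  have h1 := relIndex_inf_mul hZN S
  rw [h4] at h1
  obtain ⟨k, hk, e⟩ := (Nat.dvd_prime_pow hp.out).1 (Dvd.intro _ h1)
  have h2 : ¬ Z.relIndex (S ⊓ N) ∣ p ^ 2 := fun h => hna (comm_le_of_relIndex_dvd h)
  rw [e, Nat.pow_dvd_pow_iff_le_right hp.out.one_lt] at h2
  rw [e] at h1
  obtain rfl | rfl : k = 3 ∨ k = 4 := by omega
  · exact Or.inl ⟨e, Nat.eq_of_mul_eq_mul_left (pow_pos hp.out.pos 3) (by rw [h1]; ring)⟩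
  · exact Or.inr (relIndex_eq_one.1 ((Nat.mul_eq_left (pow_pos hp.out.pos 4).ne').1 h1))

theorem IndHyp.not_nonsolvable_chief (ih : IndHyp.{u} Z.index) (hZ : Z ≤ center H) [IsCyclic Z]
    (hc : CTy Z ⊤) (hs : SylHyp Z) (hN : IsChief Z N) : Group.IsSolvable N := by
  by_contra hns
  have := hN.normal_left
  have := hN.normal_right
  have hZN := hN.le
  have hZs : Group.IsSolvable Z := isSolvable_of_isMulCommutative
  have hperf : N ≤ ⁅N, N⁆ ⊔ Z := by
    rcases hN.eq_or_eq (⁅N, N⁆ ⊔ Z) inferInstance le_sup_right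
      (sup_le (commutator_le_left _ _) hZN) with h | h
    · exact absurd (isSolvable_of_der_le (le_sup_left.trans h.le)) hns
    · exact h.ge
  have hlt : ∀ U : Subgroup H, N ≤ U → CTy Z U → U = ⊤ := fun U hU hcU => by
    by_contra hne
    have h1 : Z.relIndex U < Z.index := by
      rw [← relIndex_mul_index (hZN.trans hU)]
      have h2 : 0 < Z.relIndex U := Nat.pos_of_ne_zero index_ne_zero_of_finite
      have h3 : 1 < U.index := one_lt_index_of_ne_top hne
      nlinarith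
    have := ih.sub hZ (hZN.trans hU) hcU hs h1
    exact hns (isSolvable_of_le hU)
  have hodd : ∀ (p : ℕ) [Fact p.Prime], p ≠ 2 → ∃ S, IsSylowIn p S N ∧ CTy Z (S ⊔ Z) := by
    intro p _ hp
    obtain ⟨S, hS⟩ := exists_isSylowIn p (⊤ : Subgroup H)
    have hct := hc.sylow hZ le_top hS
    refine ⟨S ⊓ N, hS.inf_of_le_normalizer le_top (by rw [normalizer_eq_top]), ?_⟩
    by_cases hab : ⁅S ⊓ N, S ⊓ N⁆ ≤ Z
    · exact cty_of_abelian hZ hZN hperf hS hct hab
    · have h4 := relIndex_eq_four hZ hc hs hS fun h =>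
        hab ((commutator_mono inf_le_left inf_le_left).trans h)
      rcases three_or_le hZN h4 hab with h | h
      · exact (false_of_odd hZ hZN hperf hp hS hct h4 h.1 hab).elim
      · rwa [inf_eq_left.2 h]
  have : Fact (Nat.Prime 2) := ⟨Nat.prime_two⟩
  obtain ⟨S, hS⟩ := exists_isSylowIn 2 (⊤ : Subgroup H)
  have hct := hc.sylow hZ le_top hS
  have hU : N ⊔ S = ⊤ := hlt _ le_sup_left (cty_of_sylow hZ (hZN.trans le_sup_left) fun p hp => by
    by_cases h2 : p = 2
    · subst h2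
      exact ⟨S, hS.of_le le_sup_right le_top, hct⟩
    · obtain ⟨P, hP, hP'⟩ := hodd p h2
      refine ⟨P, hP.trans le_sup_left fun h => h2 ?_, hP'⟩
      obtain ⟨k, hk⟩ := hS.isPGroup.exists_relIndex_eq_pow N
      rw [relIndex_sup_left, hk] at h
      exact (Nat.prime_dvd_prime_iff_eq hp.out Nat.prime_two).1 (hp.out.dvd_of_dvd_pow h))
  have hsimple : N = ⊤ → IsSimpleGroup (H ⧸ Z) := fun h => by
    rw [h] at hN
    exact isMaxNormal_iff_isSimpleGroup.1 (isChief_top_iff.1 hN)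
  by_cases hab : ⁅S ⊓ N, S ⊓ N⁆ ≤ Z
  · have h1 : N = ⊤ := hlt N le_rfl (cty_of_sylow hZ hZN fun p hp => by
      by_cases h2 : p = 2
      · subst h2
        exact ⟨S ⊓ N, hS.inf_of_le_normalizer le_top (by rw [normalizer_eq_top]),
          cty_of_abelian hZ hZN hperf hS hct hab⟩
      · exact hodd p h2)
    have := hsimple h1
    rw [h1, inf_top_eq] at hab
    have h2 : ¬ Group.IsSolvable (H ⧸ Z) := fun h => by
      have := isSolvable_of_quotient Z
      exact hns inferInstance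
    obtain ⟨ω, hω⟩ := exists_symp hZ hct hab
    have h3 := walter (H ⧸ Z) h2 (hS.map_top_of_surjective (QuotientGroup.mk'_surjective Z))
      (map_le_cent_iff.2 hab) hω
    rw [card_map_mk] at h3
    exact false_of_four hZ h2 hc hS h3
  · have hna : ¬ ⁅S, S⁆ ≤ Z := fun h => hab ((commutator_mono inf_le_left inf_le_left).trans h)
    have h4 := relIndex_eq_four hZ hc hs hS hna
    rcases three_or_le hZN h4 hab with h | h
    · refine false_of_eight hZ hN hns ?_ hc hS h.1 hab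
      rw [← relIndex_top_right, ← hU, relIndex_sup_left, h.2]
    · have := hsimple (by rw [← hU, sup_eq_left.2 h])
      exact false_of_sixteen hZ hS hct h4 hna

theorem indHyp (n : ℕ) : IndHyp.{u} n := by
  induction n using Nat.strong_induction_on with
  | _ n ih =>
    intro H _ _ Z hZ _ hc hs hn
    by_cases h : Z = ⊤
    · subst h
      have : Group.IsSolvable (⊤ : Subgroup H) := isSolvable_of_isMulCommutative
      exact isSolvable_of_mulEquiv topEquiv
    · obtain ⟨N, hN⟩ := exists_isChief (normal_of_central hZ) h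
      have := (ih _ hn).not_nonsolvable_chief hZ hc hs hN
      exact (ih _ hn).solvable_chief hZ hc hs hN

theorem isSolvable_of_fullyRamified [Z.Normal] {χ : IrrCharacter H} {θ : IrrCharacter Z} {e : ℕ}
    (he : e ^ 2 = Z.index) (h : res Z χ.1 = (e : ℂ) • θ.1)
    (hab : ∀ p : ℕ, p.Prime → p ^ 6 ∣ Z.index → ∀ P : Sylow p (H ⧸ Z), IsMulCommutative P) :
    Group.IsSolvable (H ⧸ Z) :=
  (indHyp _).rel he h (sylHyp_of_sylow hab) (Nat.lt_succ_self _)

end GAG
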